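import Cfsg.Agent.H17.CD2

/-! Chermak--Delgado measure, part 3: minimal CL subgroups (helper17). -/

set_option autoImplicit false

namespace Cfsg.Agent.H17

open Subgroup
open scoped Pointwise commutatorElement

variable {G : Type*} [Group G]

theorem MCL.inf_sup_center [Finite G] {Q R : Subgroup G} (hQ : MCL Q) (hR : MCL R) :
    (Q ⊓ R) ⊔ centralizer (Q : Set G) = Q := by
  obtain ⟨hQ1, hQ2⟩ := (cll_iff Q).mp hQ.1
  obtain ⟨hR1, hR2⟩ := (cll_iff R).mp hR.1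
  obtain ⟨-, a2, -, a4, a5⟩ := cd_main hQ1 hR1
  obtain ⟨b1, b2⟩ := cd_centralizer hQ1
  obtain ⟨c1, -, -, -, -⟩ := cd_main a2 b1
  apply hQ.2 _ (sup_le inf_le_left hQ2)
  rw [cll_iff]
  refine ⟨c1, ?_⟩
  rw [centralizer_sup', a5, ← b2]
  intro x hx
  have hx1 : x ∈ ((centralizer (Q : Set G) ⊔ centralizer (R : Set G) : Subgroup G) : Set G) := hx.1
  have hx2 : x ∈ Q := hx.2
  rw [a4] at hx1
  obtain ⟨u, hu, v, hv, rfl⟩ := hx1
  have hvQ : v ∈ Q := by
    have := mul_mem (inv_mem (hQ2 hu)) hx2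
    simpa using this
  exact mul_mem (le_sup_right (a := Q ⊓ R) hu) (le_sup_left (b := centralizer (Q : Set G))
    (mem_inf.mpr ⟨hvQ, hR2 hv⟩))

theorem commutator_eq_of_sup_central {Q D Z : Subgroup G}
    (hs : (Q : Set G) = (D : Set G) * (Z : Set G)) (hD : D ≤ Q) (hZ : Z ≤ centralizer (Q : Set G)) :
    ⁅Q, Q⁆ = ⁅D, D⁆ := by
  apply le_antisymm _ (commutator_mono hD hD)
  rw [commutator_le]
  intro g1 hg1 g2 hg2
  have hg1' : g1 ∈ (Q : Set G) := hg1
  have hg2' : g2 ∈ (Q : Set G) := hg2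
  rw [hs] at hg1' hg2'
  obtain ⟨d1, hd1, z1, hz1, rfl⟩ := hg1'
  obtain ⟨d2, hd2, z2, hz2, rfl⟩ := hg2'
  have k1 : ∀ y ∈ Q, z1 * y * z1⁻¹ = y := by
    intro y hy
    have := (mem_centralizer_iff.mp (hZ hz1)) y hy
    rw [← this]; group
  have k2 : ∀ y ∈ Q, z2 * y * z2⁻¹ = y := by
    intro y hy
    have := (mem_centralizer_iff.mp (hZ hz2)) y hy
    rw [← this]; group
  have e : ⁅d1 * z1, d2 * z2⁆ = ⁅d1, d2⁆ := by
    have e1 : ⁅d1 * z1, d2 * z2⁆ = d1 * (z1 * (d2 * z2) * z1⁻¹) * d1⁻¹ * (d2 * z2)⁻¹ := by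
      rw [commutatorElement_def]; group
    rw [e1, k1 _ hg2]
    have e2 : d1 * (d2 * z2) * d1⁻¹ * (d2 * z2)⁻¹ = d1 * d2 * (z2 * d1⁻¹ * z2⁻¹) * d2⁻¹ := by group
    rw [e2, k2 _ (inv_mem (hD hd1)), commutatorElement_def]
  change ⁅d1 * z1, d2 * z2⁆ ∈ ⁅D, D⁆
  rw [e]
  exact commutator_mem_commutator hd1 hd2

theorem MCL.commutator_eq [Finite G] {Q R : Subgroup G} (hQ : MCL Q) (hR : MCL R) :
    ⁅Q, Q⁆ = ⁅Q ⊓ R, Q ⊓ R⁆ := by
  obtain ⟨hQ1, hQ2⟩ := (cll_iff Q).mp hQ.1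
  obtain ⟨hR1, hR2⟩ := (cll_iff R).mp hR.1
  obtain ⟨-, a2, -, a4, a5⟩ := cd_main hQ1 hR1
  obtain ⟨b1, b2⟩ := cd_centralizer hQ1
  obtain ⟨-, -, c3, -, -⟩ := cd_main a2 b1
  rw [hQ.inf_sup_center hR] at c3
  exact commutator_eq_of_sup_central c3 inf_le_left le_rfl

theorem MCL.card_rel [Finite G] {Q R : Subgroup G} (hQ : MCL Q) (hR : MCL R) :
    Nat.card ↥(Q ⊓ R : Subgroup G) * Nat.card ↥(centralizer (Q : Set G)) =
      Nat.card ↥Q * Nat.card ↥((Q ⊓ R) ⊓ centralizer ((Q ⊓ R : Subgroup G) : Set G) : Subgroup G) := by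
  obtain ⟨hQ1, hQ2⟩ := (cll_iff Q).mp hQ.1
  obtain ⟨hR1, hR2⟩ := (cll_iff R).mp hR.1
  obtain ⟨-, a2, -, a4, a5⟩ := cd_main hQ1 hR1
  obtain ⟨b1, b2⟩ := cd_centralizer hQ1
  obtain ⟨-, -, c3, -, -⟩ := cd_main a2 b1
  have hs := hQ.inf_sup_center hR
  have e : (Q ⊓ R) ⊓ centralizer (Q : Set G) = (Q ⊓ R) ⊓ centralizer ((Q ⊓ R : Subgroup G) : Set G) := by
    apply le_antisymm
    · exact inf_le_inf_left _ (centralizer_le (inf_le_left (a := Q) (b := R)))
    · apply le_inf inf_le_left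
      have h1 : (Q ⊓ R) ⊓ centralizer ((Q ⊓ R : Subgroup G) : Set G) ≤
          centralizer ((Q ⊓ R : Subgroup G) : Set G) ⊓
            centralizer ((centralizer (Q : Set G) : Subgroup G) : Set G) :=
        le_inf inf_le_right ((inf_le_left.trans inf_le_left).trans (le_centralizer_centralizer' Q))
      rw [← centralizer_sup', hs] at h1
      exact h1
  have := card_mul_set (Q ⊓ R) (centralizer (Q : Set G))
  rw [← c3, hs, e] at this
  exact this.symm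

theorem MCL.card_eq [Finite G] {Q R : Subgroup G} (hQ : MCL Q) (hR : MCL R) :
    Nat.card ↥Q = Nat.card ↥R ∧
      Nat.card ↥(centralizer (Q : Set G)) = Nat.card ↥(centralizer (R : Set G)) := by
  obtain ⟨hQ1, hQ2⟩ := (cll_iff Q).mp hQ.1
  obtain ⟨hR1, hR2⟩ := (cll_iff R).mp hR.1
  have h1 := hQ.card_rel hR
  have h2 := hR.card_rel hQ
  rw [inf_comm R Q] at h2
  have h3 : Nat.card ↥Q * Nat.card ↥(centralizer (Q : Set G))
      = Nat.card ↥R * Nat.card ↥(centralizer (R : Set G)) := hQ1.eq hR1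
  have hw : 0 < Nat.card ↥((Q ⊓ R) ⊓ centralizer ((Q ⊓ R : Subgroup G) : Set G) : Subgroup G) :=
    Nat.card_pos
  have hq : 0 < Nat.card ↥Q := Nat.card_pos
  generalize Nat.card ↥((Q ⊓ R) ⊓ centralizer ((Q ⊓ R : Subgroup G) : Set G) : Subgroup G) = w at *
  generalize Nat.card ↥(Q ⊓ R : Subgroup G) = d at *
  generalize Nat.card ↥(centralizer (Q : Set G)) = zq at *
  generalize Nat.card ↥(centralizer (R : Set G)) = zr at *
  generalize Nat.card ↥Q = q at *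
  generalize Nat.card ↥R = r at *
  have e : (q * q) * w = (r * r) * w := by
    calc (q * q) * w = q * (q * w) := by ring
      _ = q * (d * zq) := by rw [h1]
      _ = d * (q * zq) := by ring
      _ = d * (r * zr) := by rw [h3]
      _ = r * (d * zr) := by ring
      _ = r * (r * w) := by rw [h2]
      _ = (r * r) * w := by ring
  have e2 : q * q = r * r := Nat.eq_of_mul_eq_mul_right hw e
  have e3 : q = r := Nat.mul_self_inj.mp e2
  refine ⟨e3, ?_⟩
  rw [← e3] at h3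
  exact Nat.eq_of_mul_eq_mul_left hq h3

theorem clm_of_abelian {B : Subgroup G} (hB : B ≤ centralizer (B : Set G)) :
    clm B = Nat.card ↥B * Nat.card ↥B := by
  unfold clm
  rw [inf_eq_left.mpr hB]

theorem MCL.iff_maxAb_of_abelian [Finite G] {Q : Subgroup G} (hQ : MCL Q)
    (hab : Q ≤ centralizer (Q : Set G)) (X : Subgroup G) :
    MCL X ↔ X ∈ Cfsg.maxAbelianSubgroups G := by
  obtain ⟨hQ1, hQ2⟩ := (cll_iff Q).mp hQ.1
  have hCQ : centralizer (Q : Set G) = Q := le_antisymm hQ2 hab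
  rw [maxAb_iff]
  constructor
  · intro hX
    obtain ⟨hX1, hX2⟩ := (cll_iff X).mp hX.1
    obtain ⟨e1, e2⟩ := hX.card_eq hQ
    rw [hCQ, ← e1] at e2
    have hCX : centralizer (X : Set G) = X := eq_of_le_of_card_le' hX2 e2.ge
    refine ⟨hCX.ge, ?_⟩
    intro B hB
    have := hX.1 B
    rw [clm_of_abelian hB, clm_of_abelian hCX.ge] at this
    exact Nat.mul_self_le_mul_self_iff.mp this
  · rintro ⟨hX1, hX2⟩
    have h1 := hX2 Q hab
    have hX : CLL X := by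
      intro R
      refine (hQ.1 R).trans ?_
      rw [clm_of_abelian hab, clm_of_abelian hX1]
      exact Nat.mul_le_mul h1 h1
    refine ⟨hX, ?_⟩
    intro R' hR' hR'2
    have hR'ab : R' ≤ centralizer (R' : Set G) :=
      hR'.trans (hX1.trans (centralizer_le hR'))
    have := hR'2 X
    rw [clm_of_abelian hR'ab, clm_of_abelian hX1] at this
    exact eq_of_le_of_card_le' hR' (Nat.mul_self_le_mul_self_iff.mp this)

end Cfsg.Agent.H17
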