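import Cfsg.Agent.H17.SylIn
import Cfsg.Agent.H12.Cores
import Cfsg.Prelude.Def_SubgroupEmbedding
import Cfsg.Prelude.Def_TwoFusion

/-! Extremely closed `p`-subgroups (helper17). -/

set_option autoImplicit false

namespace Cfsg.Agent.H17

open Subgroup

variable {G : Type*} [Group G]

theorem extClosed_mem_normalizer [Finite G] {H : Subgroup G} (hcl : Cfsg.IsExtremelyClosed H)
    {g : G} (h : H.map (MulAut.conj g).toMonoidHom ≤ normalizer (H : Set G)) :
    g ∈ normalizer (H : Set G) := by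
  apply mem_normalizer_of_map_conj_le
  have h1 : H ⊔ H.map (MulAut.conj g).toMonoidHom ≤ normalizer (H : Set G) :=
    sup_le le_normalizer h
  have h2 := hcl g
  rw [inf_eq_left.mpr h1] at h2
  exact le_sup_right.trans h2.le

theorem extClosed_pgroup_le_normalizer [Finite G] {p : ℕ} [Fact p.Prime] {H : Subgroup G}
    (hcl : Cfsg.IsExtremelyClosed H) {Q : Subgroup G} (hQ : IsPGroup p ↥Q) (hHQ : H ≤ Q) :
    Q ≤ normalizer (H : Set G) := by
  by_contra hcon
  have hlt : normalizer (H : Set G) ⊓ Q < Q := by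
    apply lt_of_le_of_ne inf_le_right
    intro h
    exact hcon (inf_eq_right.mp h)
  obtain ⟨n, hnQ, hn1, hn2⟩ := exists_normalizer_not_mem hQ hlt
  apply hn1
  refine mem_inf.mpr ⟨?_, hnQ⟩
  apply extClosed_mem_normalizer hcl
  calc H.map (MulAut.conj n).toMonoidHom
      ≤ (normalizer (H : Set G) ⊓ Q).map (MulAut.conj n).toMonoidHom :=
        map_mono (le_inf le_normalizer hHQ)
    _ = normalizer (H : Set G) ⊓ Q := mem_normalizer_iff_map_conj_eq.mp hn2
    _ ≤ _ := inf_le_left

theorem extClosed_normalizer_le [Finite G] {p : ℕ} [Fact p.Prime] {H : Subgroup G}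
    (hcl : Cfsg.IsExtremelyClosed H) {Q : Subgroup G} (hQ : IsPGroup p ↥Q) (hHQ : H ≤ Q) :
    normalizer (Q : Set G) ≤ normalizer (H : Set G) := by
  intro g hg
  apply extClosed_mem_normalizer hcl
  calc H.map (MulAut.conj g).toMonoidHom ≤ Q.map (MulAut.conj g).toMonoidHom := map_mono hHQ
    _ = Q := mem_normalizer_iff_map_conj_eq.mp hg
    _ ≤ _ := extClosed_pgroup_le_normalizer hcl hQ hHQ

theorem extClosed_stronglyClosed [Finite G] {p : ℕ} [Fact p.Prime] {H : Subgroup G}
    (hcl : Cfsg.IsExtremelyClosed H) {Q : Subgroup G} (hQ : IsPGroup p ↥Q) (hHQ : H ≤ Q) :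
    Cfsg.IsStronglyClosed H Q := by
  refine ⟨hHQ, ?_⟩
  intro x hx g hg
  rw [← hcl g]
  refine mem_inf.mpr ⟨?_, extClosed_pgroup_le_normalizer hcl hQ hHQ hg⟩
  apply le_sup_right (a := H)
  rw [mem_map_conj_iff]
  simpa [mul_assoc] using hx

theorem extClosed_complement [Finite G] {p : ℕ} [Fact p.Prime] {H : Subgroup G}
    (hHp : IsPGroup p ↥H) (hHab : IsMulCommutative ↥H) (hcl : Cfsg.IsExtremelyClosed H)
    (T : Subgroup G) (hHT : H ≤ T) (hT : T ⊓ normalizer (H : Set G) = H) :
    H ⊔ (Cfsg.pPrimeCore p ↥T).map T.subtype = T ∧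
      H ⊓ (Cfsg.pPrimeCore p ↥T).map T.subtype = ⊥ := by
  have hH'p : IsPGroup p ↥(H.subgroupOf T) := hHp.comap_of_injective _ T.subtype_injective
  obtain ⟨P, hP⟩ := hH'p.exists_le_sylow
  have hPmap : (P : Subgroup ↥T).map T.subtype ≤ H := by
    rw [← hT]
    apply le_inf (map_subtype_le _)
    apply extClosed_pgroup_le_normalizer hcl (P.2.map _)
    intro x hx
    exact ⟨⟨x, hHT hx⟩, hP (mem_subgroupOf.mpr hx), rfl⟩
  have hPeq : (P : Subgroup ↥T) = H.subgroupOf T := by
    apply le_antisymm _ hP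
    intro x hx
    exact mem_subgroupOf.mpr (hPmap ⟨x, hx, rfl⟩)
  have hNC : normalizer ((P : Subgroup ↥T) : Set ↥T) ≤ centralizer ((P : Subgroup ↥T) : Set ↥T) := by
    intro x hx
    have hxN : (x : G) ∈ normalizer (H : Set G) := by
      apply mem_normalizer_of_map_conj_le
      intro y hy
      rw [mem_map_conj_iff] at hy
      rw [hPeq] at hx
      have h1 := (mem_normalizer_iff.mp hx ⟨(x : G)⁻¹ * y * x, hHT hy⟩).mp (mem_subgroupOf.mpr hy)
      rw [mem_subgroupOf] at h1
      simpa [mul_assoc] using h1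
    have hxH : (x : G) ∈ H := by
      rw [← hT]; exact mem_inf.mpr ⟨x.2, hxN⟩
    rw [mem_centralizer_iff]
    intro y hy
    rw [SetLike.mem_coe, hPeq, mem_subgroupOf] at hy
    apply Subtype.ext
    have := hHab.is_comm.comm ⟨(y : G), hy⟩ ⟨(x : G), hxH⟩
    exact congrArg (Subtype.val : ↥H → G) this
  have hcompl := MonoidHom.ker_transferSylow_isComplement' P hNC
  set K := (MonoidHom.transferSylow P hNC).ker with hK
  have hKcop : (Nat.card ↥K).Coprime p := by
    have h1 := hcompl.card_mul_card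
    have h2 := (P : Subgroup ↥T).card_mul_index
    have h3 : Nat.card ↥K = (P : Subgroup ↥T).index := by
      have hpos : 0 < Nat.card ↥(P : Subgroup ↥T) := Nat.card_pos
      apply Nat.eq_of_mul_eq_mul_right hpos
      rw [h1, ← h2, mul_comm]
    rw [h3, Nat.coprime_comm, Nat.Prime.coprime_iff_not_dvd Fact.out]
    exact P.not_dvd_index
  have hKle : K ≤ Cfsg.pPrimeCore p ↥T := H12.le_pPrimeCore inferInstance hKcop
  constructor
  · apply le_antisymm (sup_le hHT (map_subtype_le _))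
    intro t ht
    have h1 : (⟨t, ht⟩ : ↥T) ∈ K ⊔ (P : Subgroup ↥T) := by
      rw [hcompl.sup_eq_top]; trivial
    have h2 : (K ⊔ (P : Subgroup ↥T)).map T.subtype ≤ H ⊔ (Cfsg.pPrimeCore p ↥T).map T.subtype := by
      rw [Subgroup.map_sup]
      exact sup_le ((map_mono hKle).trans le_sup_right) (hPmap.trans le_sup_left)
    exact h2 ⟨⟨t, ht⟩, h1, rfl⟩
  · apply H12.inf_eq_bot_of_pGroup_of_coprime hHp
    rw [card_map_of_injective T.subtype_injective]
    exact H12.pPrimeCore_coprime p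

end Cfsg.Agent.H17
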