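import Mathlib
import Cfsg.Agent.H17.Meta3

/-! # A metacyclic 2-group containing a quaternion group of order 8 has maximal class -/

namespace Cfsg.Agent.H17.Meta

open Subgroup Cfsg.Agent.Tr.MC
open scoped commutatorElement

universe u

variable {X : Type u} [Group X]

/-- two elements of square one in a cyclic group -/
theorem cyclic_sq_cases {Q : Type u} [Group Q] [Finite Q] [IsCyclic Q] {p₁ p₂ : Q}
    (h₁ : p₁ ^ 2 = 1) (h₂ : p₂ ^ 2 = 1) : p₁ = 1 ∨ p₂ = 1 ∨ p₁ = p₂ := by
  classical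
  have : Fintype Q := Fintype.ofFinite Q
  by_contra hcon
  push Not at hcon
  obtain ⟨c1, c2, c3⟩ := hcon
  have h3 : ({1, p₁, p₂} : Finset Q).card = 3 := by
    rw [Finset.card_insert_of_notMem, Finset.card_insert_of_notMem, Finset.card_singleton]
    · simpa using c3
    · simp only [Finset.mem_insert, Finset.mem_singleton, not_or]
      exact ⟨fun h => c1 h.symm, fun h => c2 h.symm⟩
  have hsub : ({1, p₁, p₂} : Finset Q) ⊆ Finset.univ.filter (fun a => a ^ 2 = 1) := by
    intro w hw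
    simp only [Finset.mem_insert, Finset.mem_singleton] at hw
    simp only [Finset.mem_filter, Finset.mem_univ, true_and]
    rcases hw with rfl | rfl | rfl
    · exact one_pow 2
    · exact h₁
    · exact h₂
  have h4 := Finset.card_le_card hsub
  have h5 := IsCyclic.card_pow_eq_one_le (α := Q) (n := 2) (by norm_num)
  omega

/-- the core: an element of order four of the cyclic normal subgroup inverted by some element -/
theorem dat_of_inverted [Finite X] (hX : IsPGroup 2 X) {a b : X} (hN : (zpowers a).Normal)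
    (hgen : ∀ x : X, ∃ i j : ℤ, x = b ^ j * a ^ i) {x y : X} (hxN : x ∈ zpowers a)
    (hx2 : x ^ 2 ≠ 1) (hx4 : x ^ 4 = 1) (hy2 : y ^ 2 = x ^ 2) (hyx : y * x * y⁻¹ = x⁻¹) :
    ∃ (m : ℕ) (a b : X), 2 ≤ m ∧ Dat X m a b := by
  have hox : orderOf x = 4 := by
    have := orderOf_eq_prime_pow (p := 2) (n := 1) (x := x) (by simpa using hx2) (by simpa using hx4)
    simpa using this
  have hx1 : x ≠ 1 := by
    rintro rfl
    exact hx2 (one_pow 2)
  have hncomm : ¬ Commute y x := by
    intro h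
    apply hx2
    have h1 : y * x * y⁻¹ = x := by rw [h.eq, mul_inv_cancel_right]
    rw [h1] at hyx
    rw [sq]
    nth_rewrite 1 [hyx]
    exact inv_mul_cancel x
  obtain ⟨s, hs⟩ := mem_zpowers_iff.1 hxN
  have hconj : ∀ g : X, g * x * g⁻¹ = x ∨ g * x * g⁻¹ = x⁻¹ := by
    intro g
    obtain ⟨r, hr⟩ := mem_zpowers_iff.1 (hN.conj_mem a (mem_zpowers a) g)
    have h1 : g * x * g⁻¹ = x ^ r := by
      rw [← hs, ← conj_zpow, ← hr, ← zpow_mul, ← zpow_mul, mul_comm]
    have h2 : x ^ r = x ^ (r % 4) := by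
      have := zpow_mod_orderOf x r
      rw [hox] at this
      exact this.symm
    have h3 := Int.emod_nonneg r (by norm_num : (4 : ℤ) ≠ 0)
    have h4 := Int.emod_lt_of_pos r (by norm_num : (0 : ℤ) < 4)
    rw [h2] at h1
    obtain ⟨ρ, hρ⟩ : ∃ ρ, ρ = r % 4 := ⟨_, rfl⟩
    rw [← hρ] at h1 h3 h4
    interval_cases ρ
    · exfalso
      apply hx1
      rw [zpow_zero] at h1
      have : x = g⁻¹ * (g * x * g⁻¹) * g := by group
      rw [this, h1]; group
    · left; rw [h1, zpow_one]
    · exfalso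
      apply hx2
      have h5 : g * x ^ 2 * g⁻¹ = 1 := by
        rw [← conj_pow, h1]
        have : (x ^ (2 : ℤ)) ^ 2 = x ^ 4 := by
          rw [← zpow_natCast, ← zpow_mul]; exact zpow_natCast x 4
        rw [this, hx4]
      have : x ^ 2 = g⁻¹ * (g * x ^ 2 * g⁻¹) * g := by group
      rw [this, h5]; group
    · right
      rw [h1, eq_inv_iff_mul_eq_one]
      have : x ^ (3 : ℤ) * x = x ^ 4 := by
        rw [← zpow_add_one]; exact zpow_natCast x 4
      rw [this, hx4]
  have hb2 : Commute (b ^ 2) x := by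
    have h1 : b ^ 2 * x * (b ^ 2)⁻¹ = x := by
      have : b ^ 2 * x * (b ^ 2)⁻¹ = b * (b * x * b⁻¹) * b⁻¹ := by rw [sq]; group
      rw [this]
      rcases hconj b with h | h
      · rw [h, h]
      · rw [h]
        have : b * x⁻¹ * b⁻¹ = (b * x * b⁻¹)⁻¹ := by group
        rw [this, h, inv_inv]
    exact mul_inv_eq_iff_eq_mul.1 h1
  have hax : ∀ i : ℤ, Commute (a ^ i) x := by
    intro i
    rw [← hs]
    exact ((Commute.refl a).zpow_left i).zpow_right s
  obtain ⟨i₀, t, hy⟩ := hgen y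
  have htodd : Odd t := by
    rw [← Int.not_even_iff_odd]
    rintro ⟨k, hk⟩
    apply hncomm
    rw [hy, hk, ← two_mul, zpow_mul]
    exact ((show Commute (b ^ (2 : ℤ)) x from by
      rw [show b ^ (2 : ℤ) = b ^ 2 from zpow_natCast b 2]; exact hb2).zpow_left k).mul_left (hax i₀)
  have hx2N : x ^ 2 ∈ zpowers a := pow_mem hxN 2
  have hπy : ((y : X ⧸ zpowers a)) = (b : X ⧸ zpowers a) ^ t := by
    rw [hy, QuotientGroup.mk_mul, (QuotientGroup.eq_one_iff (a ^ i₀)).2 (zpow_mem_zpowers _ _),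
      mul_one, QuotientGroup.mk_zpow]
  have hπb : (b : X ⧸ zpowers a) ^ 2 = 1 := by
    have h1 : (b : X ⧸ zpowers a) ^ (2 * t) = 1 := by
      rw [mul_comm, zpow_mul, ← hπy]
      have : ((y : X ⧸ zpowers a)) ^ (2 : ℤ) = ((y ^ 2 : X) : X ⧸ zpowers a) := by
        rw [QuotientGroup.mk_pow]; exact zpow_natCast _ 2
      rw [this, hy2, QuotientGroup.eq_one_iff]
      exact hx2N
    obtain ⟨l, hl⟩ := (IsPGroup.iff_orderOf.1 (hX.to_quotient (zpowers a))) (b : X ⧸ zpowers a)
    have h2 := orderOf_dvd_iff_zpow_eq_one.2 h1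
    rw [hl] at h2
    have hl1 : l ≤ 1 := by
      by_contra hlt
      have h3 : (4 : ℤ) ∣ 2 * t := by
        refine dvd_trans ?_ h2
        push_cast
        exact (show (4 : ℤ) = 2 ^ 2 by norm_num) ▸ pow_dvd_pow 2 (by omega)
      obtain ⟨k, hk⟩ := htodd
      omega
    apply orderOf_dvd_iff_pow_eq_one.1
    rw [hl]
    exact (show (2 : ℕ) = 2 ^ 1 by norm_num) ▸ pow_dvd_pow 2 hl1
  have hyN : y ∉ zpowers a := by
    intro h
    obtain ⟨k, hk⟩ := mem_zpowers_iff.1 h
    apply hncomm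
    rw [← hk]
    exact hax k
  have hbN : (b : X ⧸ zpowers a) ≠ 1 := by
    intro h
    apply hyN
    rw [← QuotientGroup.eq_one_iff, hπy, h, one_zpow]
  have hq : ∀ q : X ⧸ zpowers a, q ∈ zpowers (b : X ⧸ zpowers a) := by
    intro q
    obtain ⟨w, rfl⟩ := QuotientGroup.mk_surjective q
    obtain ⟨i, j, rfl⟩ := hgen w
    rw [mem_zpowers_iff]
    refine ⟨j, ?_⟩
    rw [QuotientGroup.mk_mul, (QuotientGroup.eq_one_iff (a ^ i)).2 (zpow_mem_zpowers _ _),
      mul_one, QuotientGroup.mk_zpow]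
  have hidx : (zpowers a).index = 2 := by
    rw [index_eq_card, ← orderOf_eq_card_of_forall_mem_zpowers hq]
    exact orderOf_eq_prime hπb hbN
  obtain ⟨m, hm⟩ := IsPGroup.iff_orderOf.1 hX a
  have hcard : Nat.card X = 2 ^ (m + 1) := by
    rw [← (zpowers a).card_mul_index, hidx, Nat.card_zpowers, hm, pow_succ]
  have hm2 : 2 ≤ m := by
    have h1 : orderOf x ∣ orderOf a := orderOf_dvd_of_mem_zpowers hxN
    rw [hox, hm] at h1
    exact (Nat.pow_dvd_pow_iff_le_right (by norm_num : 1 < 2)).1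
      ((show (4 : ℕ) = 2 ^ 2 by norm_num) ▸ h1)
  have hycomm : Commute (y ^ 2) a := by
    rw [hy2, ← hs, ← zpow_natCast, ← zpow_mul]
    exact (Commute.refl a).zpow_left _
  have hya : y * a * y⁻¹ ≠ a := by
    intro h
    apply hncomm
    have h1 : Commute y a := mul_inv_eq_iff_eq_mul.1 h
    rw [← hs]
    exact h1.zpow_right s
  have ha4 : m = 2 → a ^ 4 = 1 := by
    intro h
    rw [h] at hm
    have := pow_orderOf_eq_one a
    rwa [hm] at this
  refine ⟨m, a, y, hm2, hcard, hm, hyN, ?_⟩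
  rcases conj_cases hm2 hm (hN.conj_mem a (mem_zpowers a) y) hycomm with h | h | h | h
  · exact absurd h hya
  · by_cases hm3 : 3 ≤ m
    · exfalso
      -- `s` is even, so `y` centralizes `x`
      have h1 : a ^ (4 * s) = 1 := by
        rw [mul_comm, zpow_mul, hs]
        exact (zpow_natCast x 4).trans hx4
      have h2 := orderOf_dvd_iff_zpow_eq_one.2 h1
      rw [hm] at h2
      have h3 : (8 : ℤ) ∣ 4 * s := by
        refine dvd_trans ?_ h2
        push_cast
        exact (show (8 : ℤ) = 2 ^ 3 by norm_num) ▸ pow_dvd_pow 2 hm3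
      obtain ⟨k, hk⟩ : (2 : ℤ) ∣ s := by omega
      apply hncomm
      have h4 : y * x * y⁻¹ = x := by
        rw [← hs, ← conj_zpow, h]
        have hc : Commute a (a ^ 2 ^ (m - 1)) := (Commute.refl a).pow_right _
        rw [hc.mul_zpow, hk, zpow_mul (a ^ 2 ^ (m - 1))]
        have : (a ^ 2 ^ (m - 1)) ^ (2 : ℤ) = 1 :=
          (zpow_natCast _ 2).trans (z_sq (by omega) hm)
        rw [this, one_zpow, mul_one]
      exact mul_inv_eq_iff_eq_mul.1 h4
    · left
      have hm' : m = 2 := by omega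
      rw [h, hm']
      rw [eq_inv_iff_mul_eq_one]
      have : a * a ^ 2 ^ (2 - 1) * a = a ^ 4 := by
        norm_num
        rw [← pow_succ', ← pow_succ]
      rw [this, ha4 hm']
  · left; exact h
  · by_cases hm3 : 3 ≤ m
    · right; exact ⟨hm3, h⟩
    · exfalso
      have hm' : m = 2 := by omega
      apply hya
      rw [h, hm', inv_mul_eq_iff_eq_mul]
      norm_num
      rw [sq]

/-- a metacyclic 2-group containing a quaternion group of order 8 has maximal class -/
theorem dat_of_quat [Finite X] (hX : IsPGroup 2 X) (hm : Cfsg.IsMetacyclic X)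
    (f : QuaternionGroup 2 →* X) (hf : Function.Injective f) :
    ∃ (m : ℕ) (a b : X), 2 ≤ m ∧ Dat X m a b := by
  obtain ⟨a, b, hN, hcyc, hgen⟩ := exists_gens hm
  have hle : commutator X ≤ zpowers a := commutator_le_of_gens hcyc
  have hzN : f (QuaternionGroup.a 2) ∈ zpowers a := by
    apply hle
    have h1 : ⁅f (QuaternionGroup.xa 0), f (QuaternionGroup.a 1)⁆ ∈ commutator X := by
      rw [_root_.commutator_def]
      exact commutator_mem_commutator (mem_top _) (mem_top _)
    have h2 : ⁅f (QuaternionGroup.xa 0), f (QuaternionGroup.a 1)⁆ = f (QuaternionGroup.a 2) := by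
      rw [commutatorElement_def, ← map_inv, ← map_inv, ← map_mul, ← map_mul, ← map_mul]
      congr 1
    rw [← h2]; exact h1
  have hsq : ∀ w : QuaternionGroup 2, ((f w : X) : X ⧸ zpowers a) ^ 2 = 1 := by
    intro w
    rw [← QuotientGroup.mk_pow, ← map_pow, QuotientGroup.eq_one_iff]
    have : ∀ w : QuaternionGroup 2, w ^ 2 = 1 ∨ w ^ 2 = QuaternionGroup.a 2 := by decide
    rcases this w with h | h
    · rw [h, map_one]; exact one_mem _
    · rw [h]; exact hzN
  have key : ∃ u v : QuaternionGroup 2, f u ∈ zpowers a ∧ u ^ 2 ≠ 1 ∧ u ^ 4 = 1 ∧ v ^ 2 = u ^ 2 ∧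
      v * u * v⁻¹ = u⁻¹ := by
    rcases cyclic_sq_cases (hsq (QuaternionGroup.a 1)) (hsq (QuaternionGroup.xa 0)) with h | h | h
    · exact ⟨QuaternionGroup.a 1, QuaternionGroup.xa 0, (QuotientGroup.eq_one_iff _).1 h,
        by decide, by decide, by decide, by decide⟩
    · exact ⟨QuaternionGroup.xa 0, QuaternionGroup.a 1, (QuotientGroup.eq_one_iff _).1 h,
        by decide, by decide, by decide, by decide⟩
    · refine ⟨(QuaternionGroup.a 1)⁻¹ * QuaternionGroup.xa 0, QuaternionGroup.a 1, ?_,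
        by decide, by decide, by decide, by decide⟩
      rw [map_mul, map_inv]
      exact QuotientGroup.eq.1 h
  obtain ⟨u, v, h1, h2, h3, h4, h5⟩ := key
  apply dat_of_inverted hX hN hgen h1 (y := f v)
  · rw [← map_pow]
    intro h
    exact h2 (hf (h.trans (map_one f).symm))
  · rw [← map_pow, h3, map_one]
  · rw [← map_pow, ← map_pow, h4]
  · rw [← map_inv, ← map_inv, ← map_mul, ← map_mul, h5]

end Cfsg.Agent.H17.Meta
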