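import Mathlib
import Cfsg.Agent.H17.Meta4
import Cfsg.Agent.H1.Meta7

/-! # Metacyclic 2-groups: automorphisms trivial on the Frattini quotient; abelian subgroups of
index two -/

namespace Cfsg.Agent.H17.Meta

open Subgroup Cfsg.Agent.Tr.MC

universe u

variable {X : Type u} [Group X]

/-- Burnside: an automorphism of odd prime order which is trivial modulo every subgroup of index
two is trivial -/
theorem aut_trivial_of_frattini [Finite X] (hX : IsPGroup 2 X) (α : MulAut X) {r : ℕ}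
    [Fact r.Prime] (hr : r ≠ 2) (hα : α ^ r = 1)
    (h : ∀ K : Subgroup X, K.index = 2 → ∀ x, x⁻¹ * α x ∈ K) : α = 1 := by
  let D : Subgroup X := ⨅ K : {K : Subgroup X // K.index = 2}, K.1
  have hxD : ∀ x, x⁻¹ * α x ∈ D := by
    intro x
    rw [mem_iInf]
    intro K
    exact h K.1 K.2 x
  have hD : ∀ d ∈ D, α d ∈ D := by
    intro d hd
    have : α d = d * (d⁻¹ * α d) := by group
    rw [this]
    exact D.mul_mem hd (hxD d)
  let C : Subgroup X :=
    { carrier := {c | α c = c}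
      mul_mem' := by
        intro x y hx hy
        simp only [Set.mem_ofPred_eq] at *
        rw [map_mul, hx, hy]
      one_mem' := map_one α
      inv_mem' := by
        intro x hx
        simp only [Set.mem_ofPred_eq] at *
        rw [map_inv, hx] }
  by_contra hne
  have hC : C ≠ ⊤ := by
    intro h
    apply hne
    ext x
    have : x ∈ C := by rw [h]; trivial
    exact this
  obtain ⟨K, hK, hCK⟩ := exists_index_two hX hC
  have hKtop : K = ⊤ := by
    rw [eq_top_iff]
    intro x _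
    obtain ⟨c, hc, hxc⟩ := exists_fixed hX α hr hα D hD x (hxD x)
    have h1 : x⁻¹ * c ∈ K := (mem_iInf.1 hxc) ⟨K, hK⟩
    have h2 : c ∈ K := hCK hc
    have h3 : x = c * (x⁻¹ * c)⁻¹ := by group
    rw [h3]
    exact K.mul_mem h2 (K.inv_mem h1)
  rw [hKtop, index_top] at hK
  omega

/-- the automorphisms acting trivially modulo all subgroups of index two -/
def frKer (X : Type u) [Group X] : Subgroup (MulAut X) where
  carrier := {α | ∀ K : Subgroup X, K.index = 2 → ∀ x, x⁻¹ * α x ∈ K}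
  mul_mem' := by
    intro α β hα hβ K hK x
    have : x⁻¹ * (α * β) x = (x⁻¹ * β x) * ((β x)⁻¹ * α (β x)) := by
      rw [MulAut.mul_apply]; group
    rw [this]
    exact K.mul_mem (hβ K hK x) (hα K hK (β x))
  one_mem' := by
    intro K _ x
    simp
  inv_mem' := by
    intro α hα K hK x
    have h1 := hα K hK (α⁻¹ x)
    rw [MulAut.apply_inv_self] at h1
    have : x⁻¹ * α⁻¹ x = ((α⁻¹ x)⁻¹ * x)⁻¹ := by group
    rw [this]
    exact K.inv_mem h1

theorem mem_frKer {α : MulAut X} :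
    α ∈ frKer X ↔ ∀ K : Subgroup X, K.index = 2 → ∀ x, x⁻¹ * α x ∈ K := Iff.rfl

instance frKer_normal : (frKer X).Normal := by
  constructor
  intro α hα γ K hK x
  have h1 := hα (K.comap γ.toMonoidHom)
    (by rw [index_comap_of_surjective K γ.surjective]; exact hK) (γ⁻¹ x)
  rw [mem_comap] at h1
  have h2 : γ.toMonoidHom ((γ⁻¹ x)⁻¹ * α (γ⁻¹ x)) = x⁻¹ * (γ * α * γ⁻¹) x := by
    change γ ((γ⁻¹ x)⁻¹ * α (γ⁻¹ x)) = x⁻¹ * γ (α (γ⁻¹ x))
    rw [map_mul, map_inv, MulAut.apply_inv_self]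
  rw [h2] at h1
  exact h1

theorem frKer_isPGroup [Finite X] (hX : IsPGroup 2 X) : IsPGroup 2 (frKer X) := by
  rcases Nat.eq_two_pow_or_exists_odd_prime_and_dvd (Nat.card (frKer X)) with
    ⟨k, hk⟩ | ⟨r, hr, hdvd, hodd⟩
  · exact IsPGroup.of_card hk
  · exfalso
    have : Fact r.Prime := ⟨hr⟩
    obtain ⟨α, hα⟩ := exists_prime_orderOf_dvd_card' r hdvd
    have hr2 : r ≠ 2 := by
      rintro rfl
      exact absurd hodd (by decide)
    have h0 : α ^ r = 1 := by rw [← hα]; exact pow_orderOf_eq_one α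
    have h1 : α.1 = 1 := aut_trivial_of_frattini hX α.1 hr2
      (by have := congrArg Subtype.val h0; simpa using this) α.2
    have h2 : α = 1 := Subtype.ext h1
    rw [h2, orderOf_one] at hα
    exact hr.one_lt.ne hα

/-- an abelian subgroup `P` of index two in a metacyclic 2-group all of whose involutions are
squares: the group acts trivially on `P` modulo squares -/
theorem sq_of_index_two [Finite X] (hX : IsPGroup 2 X) (hm : Cfsg.IsMetacyclic X)
    (P : Subgroup X) (hidx : P.index = 2) (hab : ∀ x ∈ P, ∀ y ∈ P, x * y = y * x)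
    (hΩ : ∀ x ∈ P, x ^ 2 = 1 → ∃ s ∈ P, x = s ^ 2) (t : X) :
    ∀ x ∈ P, ∃ s ∈ P, x⁻¹ * (t * x * t⁻¹) = s ^ 2 := by
  have hPn : P.Normal := normal_of_index_eq_two hidx
  let R : X → Subgroup X := fun g =>
    { carrier := {x | x ∈ P ∧ ∃ s ∈ P, x⁻¹ * (g * x * g⁻¹) = s ^ 2}
      mul_mem' := by
        rintro x₁ x₂ ⟨h₁, s₁, hs₁, e₁⟩ ⟨h₂, s₂, hs₂, e₂⟩
        refine ⟨P.mul_mem h₁ h₂, s₁ * s₂, P.mul_mem hs₁ hs₂, ?_⟩
        calc (x₁ * x₂)⁻¹ * (g * (x₁ * x₂) * g⁻¹)
            = x₂⁻¹ * (x₁⁻¹ * (g * x₁ * g⁻¹)) * (g * x₂ * g⁻¹) := by group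
          _ = x₂⁻¹ * s₁ ^ 2 * (g * x₂ * g⁻¹) := by rw [e₁]
          _ = s₁ ^ 2 * (x₂⁻¹ * (g * x₂ * g⁻¹)) := by
            rw [hab _ (P.inv_mem h₂) _ (P.pow_mem hs₁ 2), mul_assoc]
          _ = s₁ ^ 2 * s₂ ^ 2 := by rw [e₂]
          _ = (s₁ * s₂) ^ 2 := ((show Commute s₁ s₂ from hab _ hs₁ _ hs₂).mul_pow 2).symm
      one_mem' := ⟨P.one_mem, 1, P.one_mem, by simp⟩
      inv_mem' := by
        rintro x ⟨h, s, hs, e⟩
        refine ⟨P.inv_mem h, s⁻¹, P.inv_mem hs, ?_⟩
        have h1 : g * x * g⁻¹ ∈ P := hPn.conj_mem x h g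
        calc x⁻¹⁻¹ * (g * x⁻¹ * g⁻¹) = x * (g * x * g⁻¹)⁻¹ := by group
          _ = (g * x * g⁻¹)⁻¹ * x := hab _ h _ (P.inv_mem h1)
          _ = (x⁻¹ * (g * x * g⁻¹))⁻¹ := by group
          _ = (s⁻¹) ^ 2 := by rw [e, inv_pow] }
  have hRmem : ∀ g x, x ∈ R g ↔ x ∈ P ∧ ∃ s ∈ P, x⁻¹ * (g * x * g⁻¹) = s ^ 2 :=
    fun _ _ => Iff.rfl
  obtain ⟨a, b, hN, hcyc, hgen⟩ := exists_gens hm
  have key : ∃ t₀, t₀ ∉ P ∧ ∀ x ∈ P, x ∈ R t₀ := by
    by_cases haP : a ∈ P
    · have hbP : b ∉ P := by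
        intro hbP
        have : P = ⊤ := by
          rw [eq_top_iff]
          intro x _
          obtain ⟨i, j, rfl⟩ := hgen x
          exact P.mul_mem (P.zpow_mem hbP j) (P.zpow_mem haP i)
        rw [this, index_top] at hidx
        omega
      refine ⟨b, hbP, ?_⟩
      have haR : a ∈ R b := by
        rw [hRmem]
        refine ⟨haP, ?_⟩
        obtain ⟨r, hr⟩ := mem_zpowers_iff.1 (hN.conj_mem a (mem_zpowers a) b)
        obtain ⟨r', hr'⟩ := mem_zpowers_iff.1 (hN.conj_mem a (mem_zpowers a) b⁻¹)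
        have h1 : a ^ (r * r') = a := by
          rw [zpow_mul, hr, conj_zpow, hr']; group
        have h2 : a ^ (r * r' - 1) = 1 := by
          rw [zpow_sub, h1, zpow_one, mul_inv_cancel]
        obtain ⟨k, hk⟩ := IsPGroup.iff_orderOf.1 hX a
        by_cases hk0 : k = 0
        · rw [hk0, pow_zero, orderOf_eq_one_iff] at hk
          exact ⟨1, P.one_mem, by rw [hk]; simp⟩
        · have h3 := orderOf_dvd_iff_zpow_eq_one.2 h2
          rw [hk] at h3
          have h4 : (2 : ℤ) ∣ r * r' - 1 := by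
            refine dvd_trans ?_ h3
            push_cast
            exact dvd_pow_self 2 hk0
          have h5 : Odd r := by
            rw [← Int.not_even_iff_odd]
            rintro ⟨q, hq⟩
            obtain ⟨w, hw⟩ := h4
            have : (q + q) * r' - 1 = 2 * w := by rw [← hq]; exact hw
            have h6 : 2 * (q * r' - w) = 1 := by linarith
            omega
          obtain ⟨q, hq⟩ := h5
          refine ⟨a ^ q, P.zpow_mem haP q, ?_⟩
          rw [← hr, hq, ← zpow_natCast, ← zpow_mul, zpow_add, zpow_one, mul_comm q]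
          have : Commute (a ^ (2 * q)) a := (Commute.refl a).zpow_left _
          rw [this.eq, inv_mul_cancel_left]
          norm_num
      intro x hx
      obtain ⟨i, j, rfl⟩ := hgen x
      have h1 : a ^ i ∈ R b := (R b).zpow_mem haR i
      have h2 : b ^ j ∈ P := by
        have : b ^ j = (b ^ j * a ^ i) * (a ^ i)⁻¹ := by group
        rw [this]
        exact P.mul_mem hx (P.inv_mem (P.zpow_mem haP i))
      have h3 : b ^ j ∈ R b := by
        rw [hRmem]
        refine ⟨h2, 1, P.one_mem, ?_⟩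
        have : Commute b (b ^ j) := (Commute.refl b).zpow_right j
        rw [this.eq, mul_inv_cancel_right, inv_mul_cancel, one_pow]
      exact (R b).mul_mem h3 h1
    · refine ⟨a, haP, ?_⟩
      obtain ⟨u, huP, e, hu⟩ : ∃ u ∈ P, ∃ e : ℤ, u = b * a ^ e := by
        by_cases hbP : b ∈ P
        · exact ⟨b, hbP, 0, by simp⟩
        · refine ⟨b * a ^ (-1 : ℤ), ?_, -1, rfl⟩
          rw [mul_mem_iff_of_index_two hidx, zpow_neg_one, inv_mem_iff]
          exact ⟨fun h => absurd h hbP, fun h => absurd h haP⟩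
      have hπ : (u : X ⧸ zpowers a) = (b : X ⧸ zpowers a) := by
        rw [hu, QuotientGroup.mk_mul, (QuotientGroup.eq_one_iff (a ^ e)).2 (zpow_mem_zpowers _ _),
          mul_one]
      have hgen' : ∀ x : X, ∃ i j : ℤ, x = u ^ j * a ^ i := by
        intro x
        obtain ⟨i, j, rfl⟩ := hgen x
        have h1 : ((u ^ j : X) : X ⧸ zpowers a) = ((b ^ j * a ^ i : X) : X ⧸ zpowers a) := by
          rw [QuotientGroup.mk_mul, (QuotientGroup.eq_one_iff (a ^ i)).2 (zpow_mem_zpowers _ _),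
            mul_one, QuotientGroup.mk_zpow, QuotientGroup.mk_zpow, hπ]
        obtain ⟨i', hi'⟩ := mem_zpowers_iff.1 (QuotientGroup.eq.1 h1)
        refine ⟨i', j, ?_⟩
        rw [hi']; group
      have huR : u ∈ R a := by
        rw [hRmem]
        refine ⟨huP, ?_⟩
        obtain ⟨c, hc⟩ : ∃ c, c = u⁻¹ * (a * u * a⁻¹) := ⟨_, rfl⟩
        have hcP : c ∈ P := by
          rw [hc]; exact P.mul_mem (P.inv_mem huP) (hPn.conj_mem u huP a)
        have hcN : c ∈ zpowers a := by
          have h1 := hN.conj_mem a (mem_zpowers a) u⁻¹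
          have : c = (u⁻¹ * a * u⁻¹⁻¹) * a⁻¹ := by rw [hc]; group
          rw [this]
          exact (zpowers a).mul_mem h1 ((zpowers a).inv_mem (mem_zpowers a))
        obtain ⟨k, hk⟩ := mem_zpowers_iff.1 hcN
        have hca : Commute a c := by rw [← hk]; exact (Commute.refl a).zpow_right k
        have ha2 : a ^ 2 ∈ P := sq_mem_of_index_two hidx a
        have h1 : a * u * a⁻¹ = u * c := by rw [hc]; group
        have h2 : a ^ 2 * u * (a ^ 2)⁻¹ = u * c * c := by
          calc a ^ 2 * u * (a ^ 2)⁻¹ = a * (a * u * a⁻¹) * a⁻¹ := by rw [sq]; group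
            _ = a * (u * c) * a⁻¹ := by rw [h1]
            _ = (a * u * a⁻¹) * (a * c * a⁻¹) := by group
            _ = u * c * c := by rw [h1, hca.eq, mul_inv_cancel_right]
        have h3 : a ^ 2 * u * (a ^ 2)⁻¹ = u := by
          rw [hab _ ha2 _ huP, mul_inv_cancel_right]
        have h4 : c ^ 2 = 1 := by
          rw [h3, mul_assoc] at h2
          rw [sq]
          exact (mul_eq_left.1 h2.symm)
        obtain ⟨s, hs, hcs⟩ := hΩ c hcP h4
        exact ⟨s, hs, by rw [← hc, hcs]⟩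
      intro x hx
      obtain ⟨i, j, rfl⟩ := hgen' x
      have h1 : u ^ j ∈ R a := (R a).zpow_mem huR j
      have h2 : a ^ i ∈ P := by
        have : a ^ i = (u ^ j)⁻¹ * (u ^ j * a ^ i) := by group
        rw [this]
        exact P.mul_mem (P.inv_mem (P.zpow_mem huP j)) hx
      have h3 : a ^ i ∈ R a := by
        rw [hRmem]
        refine ⟨h2, 1, P.one_mem, ?_⟩
        have : Commute a (a ^ i) := (Commute.refl a).zpow_right i
        rw [this.eq, mul_inv_cancel_right, inv_mul_cancel, one_pow]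
      exact (R a).mul_mem h1 h3
  obtain ⟨t₀, ht₀, hkey⟩ := key
  intro x hx
  by_cases htP : t ∈ P
  · refine ⟨1, P.one_mem, ?_⟩
    rw [hab _ htP _ hx, mul_inv_cancel_right, inv_mul_cancel, one_pow]
  · have hp : t₀⁻¹ * t ∈ P := by
      rw [mul_mem_iff_of_index_two hidx, inv_mem_iff]
      exact ⟨fun h => absurd h ht₀, fun h => absurd h htP⟩
    obtain ⟨-, s, hs, e⟩ := (hRmem t₀ x).1 (hkey x hx)
    refine ⟨s, hs, ?_⟩
    rw [← e]
    congr 1
    calc t * x * t⁻¹ = t₀ * ((t₀⁻¹ * t) * x * (t₀⁻¹ * t)⁻¹) * t₀⁻¹ := by group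
      _ = t₀ * x * t₀⁻¹ := by rw [hab _ hp _ hx, mul_inv_cancel_right]

end Cfsg.Agent.H17.Meta
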