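import Mathlib
import Cfsg.Agent.H17.Meta5

/-! # Metacyclic 2-groups: normalizers of homocyclic subgroups -/

namespace Cfsg.Agent.H17.Meta

open Subgroup Cfsg.Agent.Tr.MC

universe u

variable {X : Type u} [Group X]

theorem sq_of_normalizes [Finite X] (hX : IsPGroup 2 X) (hm : Cfsg.IsMetacyclic X)
    (P : Subgroup X) (hab : ∀ x ∈ P, ∀ y ∈ P, x * y = y * x)
    (hΩ : ∀ x ∈ P, x ^ 2 = 1 → ∃ s ∈ P, x = s ^ 2) (t : X) (ht : t ∉ P) (ht2 : t ^ 2 ∈ P)
    (hn : ∀ x ∈ P, t * x * t⁻¹ ∈ P) (hn' : ∀ x ∈ P, t⁻¹ * x * t ∈ P) :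
    ∀ x ∈ P, ∃ s ∈ P, x⁻¹ * (t * x * t⁻¹) = s ^ 2 := by
  let T : Subgroup X :=
    { carrier := {g | g ∈ P ∨ t⁻¹ * g ∈ P}
      mul_mem' := by
        rintro g h (hg | hg) (hh | hh)
        · exact Or.inl (P.mul_mem hg hh)
        · right
          have : t⁻¹ * (g * h) = (t⁻¹ * g * t) * (t⁻¹ * h) := by group
          rw [this]
          exact P.mul_mem (hn' g hg) hh
        · right
          rw [← mul_assoc]
          exact P.mul_mem hg hh
        · left
          have : g * h = t ^ 2 * (t⁻¹ * (t⁻¹ * g) * t) * (t⁻¹ * h) := by rw [sq]; group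
          rw [this]
          exact P.mul_mem (P.mul_mem ht2 (hn' _ hg)) hh
      one_mem' := Or.inl P.one_mem
      inv_mem' := by
        rintro g (hg | hg)
        · exact Or.inl (P.inv_mem hg)
        · right
          have : t⁻¹ * g⁻¹ = (t ^ 2)⁻¹ * (t * (t⁻¹ * g)⁻¹ * t⁻¹) := by rw [sq]; group
          rw [this]
          exact P.mul_mem (P.inv_mem ht2) (hn _ (P.inv_mem hg)) }
  have hTmem : ∀ g, g ∈ T ↔ g ∈ P ∨ t⁻¹ * g ∈ P := fun _ => Iff.rfl
  have hPT : P ≤ T := fun g hg => Or.inl hg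
  have htT : t ∈ T := Or.inr (by rw [inv_mul_cancel]; exact P.one_mem)
  have hidx : (P.subgroupOf T).index = 2 := by
    rw [index_eq_two_iff]
    refine ⟨⟨t, htT⟩, fun b => ?_⟩
    rw [mem_subgroupOf, mem_subgroupOf]
    change Xor' ((b : X) * t ∈ P) ((b : X) ∈ P)
    by_cases hb : (b : X) ∈ P
    · right
      refine ⟨hb, fun h => ht ?_⟩
      have : t = (b : X)⁻¹ * ((b : X) * t) := by group
      rw [this]
      exact P.mul_mem (P.inv_mem hb) h
    · left
      refine ⟨?_, hb⟩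
      rcases (hTmem b).1 b.2 with h | h
      · exact absurd h hb
      · have : (b : X) * t = t ^ 2 * (t⁻¹ * (t⁻¹ * (b : X)) * t) := by rw [sq]; group
        rw [this]
        exact P.mul_mem ht2 (hn' _ h)
  intro x hx
  obtain ⟨s, hs, e⟩ := sq_of_index_two (hX.to_subgroup T) (Cfsg.H1.isMetacyclic_subgroup hm T)
    (P.subgroupOf T) hidx
    (by
      intro x hx y hy
      apply Subtype.ext
      exact hab _ (mem_subgroupOf.1 hx) _ (mem_subgroupOf.1 hy))
    (by
      intro x hx hx2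
      obtain ⟨s, hs, e⟩ := hΩ x.1 (mem_subgroupOf.1 hx) (by
        have := congrArg Subtype.val hx2
        simpa using this)
      exact ⟨⟨s, hPT hs⟩, mem_subgroupOf.2 hs, Subtype.ext (by simpa using e)⟩)
    ⟨t, htT⟩ ⟨x, hPT hx⟩ (mem_subgroupOf.2 hx)
  refine ⟨s.1, mem_subgroupOf.1 hs, ?_⟩
  have := congrArg Subtype.val e
  simpa using this

/-- in `ZMod (2 ^ n)` with `n ≥ 2` the elements killed by two are even -/
theorem zmod_even {n : ℕ} (hn : 2 ≤ n) (u : ZMod (2 ^ n)) (hu : u + u = 0) :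
    ∃ w : ZMod (2 ^ n), u = w + w := by
  have : NeZero (2 ^ n) := ⟨by positivity⟩
  have h1 : ((u.val + u.val : ℕ) : ZMod (2 ^ n)) = 0 := by
    rw [Nat.cast_add, ZMod.natCast_zmod_val, hu]
  rw [ZMod.natCast_eq_zero_iff] at h1
  have h2 : 4 ∣ u.val + u.val := by
    refine dvd_trans ?_ h1
    exact (show (4 : ℕ) = 2 ^ 2 by norm_num) ▸ pow_dvd_pow 2 hn
  obtain ⟨k, hk⟩ : 2 ∣ u.val := by omega
  refine ⟨(k : ZMod (2 ^ n)), ?_⟩
  rw [← Nat.cast_add, ← two_mul, ← hk, ZMod.natCast_zmod_val]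

theorem homocyclic_sq {n : ℕ} (hn : 2 ≤ n)
    (e : X ≃* Multiplicative (ZMod (2 ^ n)) × Multiplicative (ZMod (2 ^ n))) (x : X)
    (hx : x ^ 2 = 1) : ∃ s : X, x = s ^ 2 := by
  have h1 : (e x) ^ 2 = 1 := by rw [← map_pow, hx, map_one]
  have h2 : ∀ g : Multiplicative (ZMod (2 ^ n)), g ^ 2 = 1 → ∃ w, g = w ^ 2 := by
    intro g hg
    obtain ⟨w, hw⟩ := zmod_even hn (Multiplicative.toAdd g) (by
      have := congrArg Multiplicative.toAdd hg
      rw [sq] at this
      exact this)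
    refine ⟨Multiplicative.ofAdd w, ?_⟩
    rw [sq]
    exact congrArg Multiplicative.ofAdd hw
  obtain ⟨w₁, hw₁⟩ := h2 (e x).1 (congrArg Prod.fst h1)
  obtain ⟨w₂, hw₂⟩ := h2 (e x).2 (congrArg Prod.snd h1)
  refine ⟨e.symm (w₁, w₂), ?_⟩
  apply e.injective
  rw [map_pow, MulEquiv.apply_symm_apply]
  exact Prod.ext hw₁ hw₂

theorem homocyclic_comm {n : ℕ}
    (e : X ≃* Multiplicative (ZMod (2 ^ n)) × Multiplicative (ZMod (2 ^ n))) (x y : X) :
    x * y = y * x := by
  apply e.injective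
  rw [map_mul, map_mul, mul_comm]

/-- the two descriptions of the homocyclic group of rank two -/
noncomputable def prodEquivFin (n : ℕ) :
    Multiplicative (ZMod (2 ^ n)) × Multiplicative (ZMod (2 ^ n)) ≃*
      Multiplicative (Fin 2 → ZMod (2 ^ n)) where
  toFun g := Multiplicative.ofAdd ![Multiplicative.toAdd g.1, Multiplicative.toAdd g.2]
  invFun f := (Multiplicative.ofAdd (Multiplicative.toAdd f 0),
    Multiplicative.ofAdd (Multiplicative.toAdd f 1))
  left_inv g := by simp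
  right_inv f := by
    apply Multiplicative.toAdd.injective
    funext i
    fin_cases i <;> simp
  map_mul' g h := by
    apply Multiplicative.toAdd.injective
    funext i
    fin_cases i <;> simp

end Cfsg.Agent.H17.Meta
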