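import Mathlib
import Cfsg.Agent.H17.Meta6
import Cfsg.Agent.H17.SelfCent
import Cfsg.Agent.H1.Fit
import Cfsg.Agent.Fus.Essential

/-! # Saturated fusion systems over metacyclic 2-groups -/

namespace Cfsg.Agent.H17.Meta

open Subgroup Cfsg.Agent.Tr.MC Cfsg Cfsg.FusionSystem

variable {Ω : Type*} [Group Ω] {S : Subgroup Ω}

theorem isMetacyclic_of_le (hm : Cfsg.IsMetacyclic ↥S) {P : Subgroup Ω} (hP : P ≤ S) :
    Cfsg.IsMetacyclic ↥P :=
  Cfsg.Agent.Fus.isMetacyclic_of_surjective (subgroupOfEquivOfLe hP).toMonoidHom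
    (subgroupOfEquivOfLe hP).surjective (Cfsg.H1.isMetacyclic_subgroup hm (P.subgroupOf S))

/-- an element of the normalizer outside `P` with square in `P` -/
theorem exists_sq_mem [Finite S] (hS : IsPGroup 2 S) {P : Subgroup Ω} (hP : P < S) :
    ∃ t, t ∈ S ∧ t ∈ normalizer (P : Set Ω) ∧ t ∉ P ∧ t ^ 2 ∈ P := by
  classical
  obtain ⟨s, hsN, hsP⟩ := SetLike.exists_of_lt (lt_normalizerIn hS hP)
  obtain ⟨hsS, hsN⟩ := mem_normalizerIn.1 hsN
  have hex : ∃ j : ℕ, s ^ 2 ^ j ∈ P := by
    obtain ⟨k, hk⟩ := hS ⟨s, hsS⟩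
    refine ⟨k, ?_⟩
    have := congrArg Subtype.val hk
    have h1 : s ^ 2 ^ k = 1 := by simpa using this
    rw [h1]; exact P.one_mem
  have hj0 : Nat.find hex ≠ 0 := by
    intro h0
    have := Nat.find_spec hex
    rw [h0, pow_zero, pow_one] at this
    exact hsP this
  refine ⟨s ^ 2 ^ (Nat.find hex - 1), S.pow_mem hsS _, (normalizer (P : Set Ω)).pow_mem hsN _,
    Nat.find_min hex (by omega), ?_⟩
  rw [← pow_mul, ← pow_succ, Nat.sub_add_cancel (by omega)]
  exact Nat.find_spec hex

theorem no_essential [Finite S] (hS : IsPGroup 2 S) (F : Cfsg.FusionSystem S)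
    (hm : Cfsg.IsMetacyclic ↥S)
    (hh : ∀ n : ℕ, ¬ Nonempty (↥S ≃* Multiplicative (ZMod (2 ^ n)) × Multiplicative (ZMod (2 ^ n))))
    (hD : ∀ (m : ℕ) (a b : ↥S), 2 ≤ m → ¬ Dat ↥S m a b) (P : Subgroup Ω) :
    ¬ F.IsEssential 2 P := by
  intro hP
  have hc : F.IsCentric P := hP.1
  have hPS : P ≤ S := hc.1
  have hcent : centralizerIn S P ≤ P := hc.2 P (Cfsg.FusionSystem.IsConj.refl F hPS)
  have hnp : ¬ IsPGroup 2 (F.autGroup P) := fun h => F.not_isEssential_of_isPGroup h hP
  have hnA : ¬ IsPGroup 2 (MulAut P) := fun h => hnp (h.to_subgroup _)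
  have hfin : Finite P := finite_of_le hPS
  have hP2 : IsPGroup 2 P := isPGroup_of_le hS hPS
  have hPne : ∀ n : ℕ, Nonempty (↥P ≃* Multiplicative (ZMod (2 ^ n)) × Multiplicative (ZMod (2 ^ n))) →
      P ≠ S := by
    rintro n ⟨e⟩ rfl
    exact hh n ⟨e⟩
  rcases main hP2 (isMetacyclic_of_le hm hPS) hnA with ⟨⟨e⟩⟩ | ⟨n, ⟨e⟩⟩
  · obtain ⟨m, a, b, hm2, hdat⟩ := dat_of_quat hS hm
      ((Subgroup.inclusion hPS).comp e.symm.toMonoidHom)
      ((Subgroup.inclusion_injective hPS).comp e.symm.injective)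
    exact hD m a b hm2 hdat
  · have hcardP : Nat.card P = 2 ^ n * 2 ^ n := by
      rw [Nat.card_congr e.toEquiv, Nat.card_prod, card_mult_zmod]
    have hne := hPne n ⟨e⟩
    rcases Nat.lt_or_ge n 2 with hn | hn
    · interval_cases n
      · -- trivial group
        apply hnA
        have hsub : Subsingleton P := by
          rw [← Finite.card_le_one_iff_subsingleton, hcardP]; norm_num
        intro α
        refine ⟨0, ?_⟩
        ext x
        exact congrArg Subtype.val (Subsingleton.elim _ _)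
      · -- four-group: Suzuki
        have hcV : Nat.card (P.subgroupOf S) = 4 := by
          rw [Nat.card_congr (subgroupOfEquivOfLe hPS).toEquiv, hcardP]; norm_num
        have hcen : centralizer ((P.subgroupOf S : Subgroup S) : Set S) ≤ P.subgroupOf S := by
          intro g hg
          rw [mem_subgroupOf]
          apply hcent
          rw [mem_centralizerIn]
          refine ⟨g.2, fun x hx => ?_⟩
          have := (mem_centralizer_iff.1 hg) ⟨x, hPS hx⟩ (mem_subgroupOf.2 hx)
          exact congrArg Subtype.val this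
        obtain ⟨N, hN⟩ := IsPGroup.iff_card.1 hS
        have hN2 : 2 ≤ N := by
          have h1 := (P.subgroupOf S).card_subgroup_dvd_card
          rw [hcV, hN] at h1
          exact (Nat.pow_dvd_pow_iff_le_right (by norm_num : 1 < 2)).1
            ((show (4 : ℕ) = 2 ^ 2 by norm_num) ▸ h1)
        obtain ⟨k, rfl⟩ : ∃ k, N = k + 2 := ⟨N - 2, by omega⟩
        have hcl := Cfsg.Agent.H17.SelfCent.suzuki k hN (P.subgroupOf S) hcV hcen
        rcases Nat.eq_zero_or_pos k with rfl | hk
        · apply hne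
          apply Subgroup.eq_of_le_of_card_ge hPS
          rw [hN, hcardP]; norm_num
        · obtain ⟨-, a, b, hdat⟩ := dat_of_class (m := k + 1) (by omega) hN hcl
          exact hD _ a b (by omega) hdat
    · -- `n ≥ 2`
      obtain ⟨t, htS, htN, htP, ht2⟩ := exists_sq_mem hS (lt_of_le_of_ne hPS hne)
      have hconj : ∀ x ∈ P, t * x * t⁻¹ ∈ P := fun x hx => (mem_normalizer_iff.1 htN x).1 hx
      have hconj' : ∀ x ∈ P, t⁻¹ * x * t ∈ P := by
        intro x hx
        have := (mem_normalizer_iff.1 ((normalizer (P : Set Ω)).inv_mem htN) x).1 hx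
        rwa [inv_inv] at this
      have hsq := sq_of_normalizes hS hm (P.subgroupOf S)
        (by
          intro x hx y hy
          have := homocyclic_comm e ⟨x.1, mem_subgroupOf.1 hx⟩ ⟨y.1, mem_subgroupOf.1 hy⟩
          apply Subtype.ext
          exact congrArg (fun w : P => (w : Ω)) this)
        (by
          intro x hx hx2
          obtain ⟨s, hs⟩ := homocyclic_sq hn e ⟨x.1, mem_subgroupOf.1 hx⟩ (by
            apply Subtype.ext
            have := congrArg Subtype.val hx2
            simpa using this)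
          refine ⟨⟨s.1, hPS s.2⟩, mem_subgroupOf.2 s.2, ?_⟩
          apply Subtype.ext
          have := congrArg Subtype.val hs
          simpa using this)
        ⟨t, htS⟩ (fun h => htP (mem_subgroupOf.1 h))
        (mem_subgroupOf.2 (by simpa using ht2))
        (fun x hx => mem_subgroupOf.2 (by simpa using hconj x.1 (mem_subgroupOf.1 hx)))
        (fun x hx => mem_subgroupOf.2 (by simpa using hconj' x.1 (mem_subgroupOf.1 hx)))
      have hfr : conjAut t htN ∈ frKer P := by
        rw [mem_frKer]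
        intro K hK x
        obtain ⟨s, hs, e1⟩ := hsq ⟨x.1, hPS x.2⟩ (mem_subgroupOf.2 x.2)
        have h1 : x⁻¹ * conjAut t htN x = (⟨s.1, mem_subgroupOf.1 hs⟩ : P) ^ 2 := by
          apply Subtype.ext
          have := congrArg Subtype.val e1
          simpa [conjAut] using this
        rw [h1]
        exact sq_mem_of_index_two hK _
      have hmemF : conjAut t htN ∈ F.autGroup P :=
        F.autInducedBy_le_autGroup hPS (conjAut_mem htN htS)
      have hrad := (IsEssential.isRadical F hS hP).2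
      have hK : (frKer P).subgroupOf (F.autGroup P) ≤ Cfsg.pCore 2 (F.autGroup P) :=
        Cfsg.H1.le_pCore inferInstance (frKer_isPGroup hP2).comap_subtype
      have h1 : conjAut t htN ∈ (Cfsg.pCore 2 (F.autGroup P)).map (F.autGroup P).subtype :=
        ⟨⟨_, hmemF⟩, hK (mem_subgroupOf.2 hfr), rfl⟩
      rw [hrad] at h1
      obtain ⟨g, hg⟩ := h1
      apply htP
      apply hcent
      rw [mem_centralizerIn]
      refine ⟨htS, fun x hx => ?_⟩
      have h2 : conjAut t htN ⟨x, hx⟩ = ⟨x, hx⟩ := by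
        rw [← hg, MulAut.conj_apply, homocyclic_comm e g, mul_inv_cancel_right]
      have h3 : t * x * t⁻¹ = x := congrArg Subtype.val h2
      exact (mul_inv_eq_iff_eq_mul.1 h3).symm

theorem inner_of_metacyclic [Finite S] (hS : IsPGroup 2 S) (F : Cfsg.FusionSystem S)
    (hF : F.IsSaturated 2) (hm : Cfsg.IsMetacyclic ↥S)
    (hh : ∀ n : ℕ, ¬ Nonempty (↥S ≃* Multiplicative (ZMod (2 ^ n)) × Multiplicative (ZMod (2 ^ n))))
    (hD : ∀ (m : ℕ) (a b : ↥S), 2 ≤ m → ¬ Dat ↥S m a b)
    (hq : ¬ Nonempty (↥S ≃* QuaternionGroup 2)) : F = Cfsg.innerFusionSystem S := by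
  have hAut : IsPGroup 2 (MulAut S) := by
    by_contra hA
    rcases main hS hm hA with h | ⟨n, h⟩
    · exact hq h
    · exact hh n h
  apply le_antisymm' _ F.inner_le
  apply F.alperin _ hS hF
  rintro P (rfl | hP)
  · rw [F.autGroup_eq_of_isPGroup (hF.fullyNormalized F hS F.isFullyNormalized_self).2.1
      (hAut.to_subgroup _)]
    exact autInducedBy_le_autGroup _ le_rfl
  · exact absurd hP (no_essential hS F hm hh hD P)

end Cfsg.Agent.H17.Meta
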