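import Cfsg.Agent.H17.ZJClosed
import Cfsg.Agent.H17.SylConn
import Cfsg.Agent.Lib.Helper13.PStab4

set_option autoImplicit false
open Cfsg

/-! The Glauberman-Thompson normal `p`-complement theorem for strongly closed subgroups. -/

namespace Cfsg.Agent.H17

open Subgroup Cfsg.Agent.Lib.Helper13
open scoped commutatorElement Pointwise

universe u

variable {p : ℕ}

theorem IsStronglyClosed.map_conj {G : Type*} [Group G] {D S : Subgroup G} (h : IsStronglyClosed D S) (g : G) :
    IsStronglyClosed (D.map (MulAut.conj g).toMonoidHom) (S.map (MulAut.conj g).toMonoidHom) := by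
  refine ⟨map_mono h.1, ?_⟩
  rintro _ ⟨d, hd, rfl⟩ x ⟨s, hs, hsx⟩
  have h1 : (g⁻¹ * x * g) * d * (g⁻¹ * x * g)⁻¹ = s := by
    have h2 : g * s * g⁻¹ = x * (g * d * g⁻¹) * x⁻¹ := by simpa using hsx
    have h3 : s = g⁻¹ * (g * s * g⁻¹) * g := by group
    rw [h3, h2]
    group
  have h4 := h.2 d hd (g⁻¹ * x * g) (h1 ▸ hs)
  refine ⟨_, h4, ?_⟩
  simp only [MulEquiv.coe_toMonoidHom, MulAut.conj_apply]
  group

theorem IsStronglyClosed.subgroupOf {G : Type*} [Group G] {D S : Subgroup G} (h : IsStronglyClosed D S)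
    (M : Subgroup G) : IsStronglyClosed (D.subgroupOf M) (S.subgroupOf M) := by
  refine ⟨comap_mono h.1, ?_⟩
  intro x hx m hm
  exact h.2 x.1 hx m.1 hm

theorem exists_conj_mem_of_map_mem {G H : Type*} [Group G] [Finite G] [Group H] [Fact p.Prime] (π : G →* H)
    (S : Sylow p G) {y : G} (hy : IsPGroup p (zpowers y)) (hyS : π y ∈ (S : Subgroup G).map π) :
    ∃ k ∈ π.ker, k⁻¹ * y * k ∈ (S : Subgroup G) := by
  set K := π.ker with hK
  have hyH : y ∈ K ⊔ (S : Subgroup G) := by
    obtain ⟨s, hs, hsy⟩ := hyS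
    have h1 : y * s⁻¹ ∈ K := by
      rw [hK, MonoidHom.mem_ker, map_mul, map_inv, hsy, mul_inv_cancel]
    have h2 := (K ⊔ (S : Subgroup G)).mul_mem ((le_sup_left : K ≤ _) h1) ((le_sup_right : (S : Subgroup G) ≤ K ⊔ _) hs)
    rwa [inv_mul_cancel_right] at h2
  let S' : Sylow p ↥(K ⊔ (S : Subgroup G)) := S.subtype le_sup_right
  have hyp : IsPGroup p (zpowers (⟨y, hyH⟩ : ↥(K ⊔ (S : Subgroup G)))) := by
    have h1 : (zpowers (⟨y, hyH⟩ : ↥(K ⊔ (S : Subgroup G)))).map (K ⊔ (S : Subgroup G)).subtype = zpowers y := by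
      rw [MonoidHom.map_zpowers]; rfl
    have h2 := hy
    rw [← h1] at h2
    exact h2.of_equiv ((zpowers (⟨y, hyH⟩ : ↥(K ⊔ (S : Subgroup G)))).equivMapOfInjective _
      (K ⊔ (S : Subgroup G)).subtype_injective).symm
  obtain ⟨Q, hQ⟩ := hyp.exists_le_sylow
  obtain ⟨h, hh⟩ := MulAction.exists_smul_eq ↥(K ⊔ (S : Subgroup G)) S' Q
  rw [← hh] at hQ
  have h1 : h⁻¹ * ⟨y, hyH⟩ * h ∈ S' := mem_smul_sylow.mp (hQ (mem_zpowers _))
  have h2 : (h : G)⁻¹ * y * h ∈ (S : Subgroup G) := h1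
  have h3 : (h : G) ∈ (K : Set G) * ((S : Subgroup G) : Set G) := by
    rw [← normal_mul]
    exact h.2
  obtain ⟨k, hk, s, hs, hks⟩ := h3
  refine ⟨k, hk, ?_⟩
  have h4 : k⁻¹ * y * k = s * ((h : G)⁻¹ * y * h) * s⁻¹ := by
    rw [← hks]
    simp only
    group
  rw [h4]
  exact (S : Subgroup G).mul_mem ((S : Subgroup G).mul_mem hs h2) ((S : Subgroup G).inv_mem hs)

theorem IsStronglyClosed.map_surj {G H : Type*} [Group G] [Finite G] [Group H] [Fact p.Prime] (π : G →* H)
    (hπ : Function.Surjective π) (S : Sylow p G) {D : Subgroup G} (h : IsStronglyClosed D (S : Subgroup G)) :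
    IsStronglyClosed (D.map π) ((S : Subgroup G).map π) := by
  refine ⟨map_mono h.1, ?_⟩
  rintro _ ⟨d, hd, rfl⟩ x hx
  obtain ⟨g, rfl⟩ := hπ x
  have hx' : π (g * d * g⁻¹) ∈ (S : Subgroup G).map π := by simpa using hx
  have hp1 : IsPGroup p (zpowers (g * d * g⁻¹)) := by
    have h1 : zpowers (g * d * g⁻¹) = (zpowers d).map (MulAut.conj g).toMonoidHom := by
      rw [MonoidHom.map_zpowers]; rfl
    rw [h1]
    exact (S.isPGroup'.to_le (zpowers_le.mpr (h.1 hd))).map _
  obtain ⟨k, hk, hkS⟩ := exists_conj_mem_of_map_mem π S hp1 hx'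
  have h2 : k⁻¹ * (g * d * g⁻¹) * k = (k⁻¹ * g) * d * (k⁻¹ * g)⁻¹ := by group
  rw [h2] at hkS
  refine ⟨_, h.2 d hd _ hkS, ?_⟩
  have hk1 : π k = 1 := hk
  simp [hk1]

/-- the local hypothesis -/
def ClP (p : ℕ) (W : ∀ (Q : Type u) [Group Q], Subgroup Q) (X : Type u) [Group X] : Prop :=
  ∃ (S : Sylow p X) (D : Subgroup X), IsStronglyClosed D (S : Subgroup X) ∧
    HasNormalPComplement p (normalizer ((inducedFunctor W D : Subgroup X) : Set X))

variable {W : ∀ (Q : Type u) [Group Q], Subgroup Q}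

theorem ClP.conj [Fact p.Prime] (hW : IsCharPFunctor.{u} p W) {X : Type u} [Group X] [Finite X]
    {S : Sylow p X} {D : Subgroup X} (hD : IsStronglyClosed D (S : Subgroup X))
    (hn : HasNormalPComplement p (normalizer ((inducedFunctor W D : Subgroup X) : Set X))) (g : X) :
    HasNormalPComplement p (normalizer
      ((inducedFunctor W (D.map (MulAut.conj g).toMonoidHom) : Subgroup X) : Set X)) := by
  rw [← Cfsg.Agent.H12.inducedFunctor_map hW _ _ (S.isPGroup'.to_le hD.1) (MulAut.conj g).injective.injOn]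
  apply npc_normalizer_of_map (MulAut.conj g⁻¹).toMonoidHom (MulAut.conj g⁻¹).injective
  have h2 : ((inducedFunctor W D).map (MulAut.conj g).toMonoidHom).map
      (MulAut.conj g⁻¹).toMonoidHom = inducedFunctor W D := by
    rw [Subgroup.map_map]
    have h3 : (MulAut.conj g⁻¹).toMonoidHom.comp (MulAut.conj g).toMonoidHom = MonoidHom.id X := by
      ext x
      simp
      group
    rw [h3, Subgroup.map_id]
  rw [h2]
  exact hn

theorem ClP.p1 [Fact p.Prime] (hW : IsCharPFunctor.{u} p W) (X : Type u) [Group X] [Finite X] (h : ClP p W X)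
    (M : Subgroup X) (hM : ¬ p ∣ M.index) : ClP p W M := by
  obtain ⟨S, D, hD, hn⟩ := h
  obtain ⟨T⟩ : Nonempty (Sylow p M) := inferInstance
  have hidx : ¬ p ∣ ((T : Subgroup M).map M.subtype).index := by
    rw [index_map_subtype]
    intro hd
    rcases (Fact.out : p.Prime).dvd_mul.mp hd with h1 | h1
    · exact T.not_dvd_index h1
    · exact hM h1
  obtain ⟨g, hg⟩ := MulAction.exists_smul_eq X S ((T.2.map M.subtype).toSylow hidx)
  have hg' : (S : Subgroup X).map (MulAut.conj g).toMonoidHom = (T : Subgroup M).map M.subtype := by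
    have := congrArg (fun Q : Sylow p X => (Q : Subgroup X)) hg
    exact this
  have hD' := IsStronglyClosed.subgroupOf (IsStronglyClosed.map_conj hD g) M
  rw [hg'] at hD'
  have hT : ((T : Subgroup M).map M.subtype).subgroupOf M = (T : Subgroup M) :=
    comap_map_eq_self_of_injective M.subtype_injective _
  rw [hT] at hD'
  refine ⟨T, _, hD', ?_⟩
  apply npc_normalizer_of_map M.subtype M.subtype_injective
  rw [Cfsg.Agent.H12.inducedFunctor_map hW M.subtype _ (T.2.to_le hD'.1) M.subtype_injective.injOn]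
  have h3 : ((D.map (MulAut.conj g).toMonoidHom).subgroupOf M).map M.subtype = D.map (MulAut.conj g).toMonoidHom := by
    rw [subgroupOf_map_subtype, inf_eq_left]
    refine (map_mono hD.1).trans ?_
    rw [hg']
    exact map_subtype_le _
  rw [h3]
  exact ClP.conj hW hD hn g

theorem ClP.of_funP [Fact p.Prime] {X : Type u} [Group X] [Finite X] (h : FunP p W X) : ClP p W X := by
  obtain ⟨T⟩ : Nonempty (Sylow p X) := inferInstance
  exact ⟨T, T, ⟨le_rfl, fun _ _ _ h => h⟩, h T⟩

theorem ClP.p4 [Fact p.Prime] (hW : IsCharPFunctor.{u} p W) (X : Type u) [Group X] [Finite X] (h : ClP p W X) :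
    ClP p W (X ⧸ pPrimeCore p X) := by
  obtain ⟨S, D, hD, hn⟩ := h
  have hsurj := QuotientGroup.mk'_surjective (pPrimeCore p X)
  have hker : (Nat.card (QuotientGroup.mk' (pPrimeCore p X)).ker).Coprime p := by
    rw [QuotientGroup.ker_mk']
    exact Cfsg.Agent.H12.pPrimeCore_coprime p
  have hDp : IsPGroup p D := S.isPGroup'.to_le hD.1
  refine ⟨S.mapSurjective hsurj, D.map (QuotientGroup.mk' (pPrimeCore p X)), ?_, ?_⟩
  · rw [Sylow.coe_mapSurjective]
    exact IsStronglyClosed.map_surj _ hsurj S hD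
  · rw [← Cfsg.Agent.H12.inducedFunctor_map hW _ _ hDp (Cfsg.Agent.H12.injOn_of_coprime_ker hker hDp),
      Cfsg.Agent.H12.normalizer_map_of_coprime_ker hsurj hker (hDp.to_le (Cfsg.Agent.H12.inducedFunctor_le _))]
    exact npc_of_surjective ((QuotientGroup.mk' (pPrimeCore p X)).subgroupMap _)
      ((QuotientGroup.mk' (pPrimeCore p X)).subgroupMap_surjective _) hn

/-- Glauberman-Thompson for strongly closed subgroups, for the functors `zAb e`. -/
theorem npc_of_closed_zAb {G : Type u} [Group G] [Finite G] [hp : Fact p.Prime] (hp2 : p ≠ 2) {e : ℕ}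
    (he : e = 0 ∨ (Odd e ∧ p ∣ e)) (S : Sylow p G) {D : Subgroup G} (hD : IsStronglyClosed D (S : Subgroup G))
    (hN : HasNormalPComplement p (normalizer (zAb e D : Set G))) : HasNormalPComplement p G := by
  have hW : IsCharPFunctor.{u} p (WZ e) := isCharPFunctor_WZ (he.imp id (fun h => h.2))
  have E : NPCEngine p (fun _ _ => True) (ClP p (WZ e)) := by
    refine ⟨fun _ _ _ _ _ => trivial, fun _ _ _ _ _ _ => trivial, ClP.p1 hW,
      fun Y _ _ h => FunP.p2 hW Y (fun h' => h (ClP.of_funP h')), ClP.p4 hW, ?_⟩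
    intro X _ _ _ hP _ hc hq hmax
    obtain ⟨T, D', hD', hn⟩ := hP
    obtain ⟨K, hK⟩ := exists_InD hq T (hmax T)
    have h1 : (zAb e D').Normal :=
      zAb_closed_normal hp2 (he.imp id (fun h => h.1)) hc (fun P _ hP => hK.isPStableOn hp2 P hP) T hD'
    rw [inducedFunctor_WZ, normalizer_eq_top_iff.mpr h1] at hn
    exact npc_congr topEquiv hn
  apply E.result G trivial
  exact ⟨S, D, hD, by rw [inducedFunctor_WZ]; exact hN⟩

end Cfsg.Agent.H17
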