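import Cfsg.Agent.S0028
import Cfsg.Agent.S0058
import Cfsg.Agent.H9.FStar2
import Cfsg.Agent.H1.Fit
import Cfsg.Agent.H12.Cores
import Cfsg.Agent.H17.SylIn
import Cfsg.Prelude.Def_CaseTheorems

set_option autoImplicit false
open Cfsg

/-! Cores of centralizers of involutions of an elementary abelian `2`-subgroup one of whose involutions has a
centralizer of characteristic `2`. -/

namespace Cfsg.Agent.H17

open Subgroup
open scoped commutatorElement

variable {X : Type*} [Group X]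

/-- `O(C_X(y))` -/
def th (y : X) : Subgroup X :=
  (pPrimeCore 2 ↥(centralizer ({y} : Set X))).map (centralizer ({y} : Set X)).subtype

/-- `O_2(C_X(y))` -/
def o2 (y : X) : Subgroup X :=
  (pCore 2 ↥(centralizer ({y} : Set X))).map (centralizer ({y} : Set X)).subtype

theorem th_le (y : X) : th y ≤ centralizer ({y} : Set X) := map_subtype_le _

theorem o2_le (y : X) : o2 y ≤ centralizer ({y} : Set X) := map_subtype_le _

theorem th_coprime [Finite X] (y : X) : (Nat.card (th y)).Coprime 2 := by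
  haveI : Fact (Nat.Prime 2) := ⟨Nat.prime_two⟩
  rw [th, card_map_of_injective (subtype_injective _)]
  exact Cfsg.Agent.H12.pPrimeCore_coprime 2

theorem o2_isPGroup (y : X) : IsPGroup 2 (o2 y) := (Cfsg.Agent.H12.pCore_isPGroup 2 _).map _

theorem le_normalizer_map_subtype' [Finite X] {H : Subgroup X} (N : Subgroup H) [hN : N.Normal] :
    H ≤ normalizer ((N.map H.subtype : Subgroup X) : Set X) := by
  intro h hh
  apply mem_normalizer_of_map_conj_le
  rintro _ ⟨_, ⟨n, hn, rfl⟩, rfl⟩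
  exact ⟨⟨h, hh⟩ * n * ⟨h, hh⟩⁻¹, hN.conj_mem n hn _, rfl⟩

theorem th_norm [Finite X] (y : X) : centralizer ({y} : Set X) ≤ normalizer (th y : Set X) :=
  le_normalizer_map_subtype' _

theorem o2_norm [Finite X] (y : X) : centralizer ({y} : Set X) ≤ normalizer (o2 y : Set X) :=
  le_normalizer_map_subtype' _

theorem le_th [Finite X] {y : X} {D : Subgroup X} (h1 : D ≤ centralizer ({y} : Set X))
    (h2 : centralizer ({y} : Set X) ≤ normalizer (D : Set X)) (h3 : (Nat.card D).Coprime 2) : D ≤ th y := by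
  have hn : (D.subgroupOf (centralizer ({y} : Set X))).Normal :=
    (normal_subgroupOf_iff_le_normalizer h1).mpr h2
  have hc : (Nat.card (D.subgroupOf (centralizer ({y} : Set X)))).Coprime 2 := by
    rw [Nat.card_congr (subgroupOfEquivOfLe h1).toEquiv]
    exact h3
  have h4 := Subgroup.map_mono (f := (centralizer ({y} : Set X)).subtype) (Cfsg.Agent.H12.le_pPrimeCore hn hc)
  rw [subgroupOf_map_subtype, inf_eq_left.mpr h1] at h4
  exact h4

theorem inf_eq_bot_of_two_coprime [Finite X] {A B : Subgroup X} (hA : IsPGroup 2 A) (hB : (Nat.card B).Coprime 2) :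
    A ⊓ B = ⊥ := by
  haveI : Fact (Nat.Prime 2) := ⟨Nat.prime_two⟩
  exact Cfsg.Agent.H12.inf_eq_bot_of_pGroup_of_coprime hA hB

theorem isPGroup_zpowers_of_sq {y : X} (hy : y ^ 2 = 1) : IsPGroup 2 (zpowers y) := by
  rintro ⟨g, hg⟩
  obtain ⟨i, hi⟩ := hg
  refine ⟨1, Subtype.ext ?_⟩
  have h1 : g ^ 2 = 1 := by
    rw [← hi]
    change (y ^ i) ^ 2 = 1
    rw [← zpow_natCast, ← zpow_mul, mul_comm, zpow_mul, zpow_natCast, hy, one_zpow]
  simpa using h1

/-- the `A × B` argument -/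
theorem th_inf_le_centralizer_o2 [Finite X] {y y' : X} (hc : y * y' = y' * y) (hy : y ^ 2 = 1) :
    th y ⊓ centralizer ({y'} : Set X) ≤ centralizer (o2 y' : Set X) := by
  haveI : Fact (Nat.Prime 2) := ⟨Nat.prime_two⟩
  have hyC : y ∈ centralizer ({y'} : Set X) := mem_centralizer_singleton_iff.mpr hc
  have hQc : (Nat.card ↥(th y ⊓ centralizer ({y'} : Set X))).Coprime 2 :=
    Nat.Coprime.coprime_dvd_left (card_dvd_of_le inf_le_left) (th_coprime y)
  apply Cfsg.Agent.S0028.result 2 (zpowers y) (th y ⊓ centralizer ({y'} : Set X)) (o2 y')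
    (isPGroup_zpowers_of_sq hy) hQc (o2_isPGroup y')
  · rw [zpowers_le, mem_centralizer_iff]
    intro d hd
    exact (mem_centralizer_singleton_iff.mp (th_le y hd.1))
  · rw [zpowers_le]
    exact o2_norm y' hyC
  · exact inf_le_right.trans (o2_norm y')
  · intro r hr
    rw [mem_centralizer_iff]
    intro d hd
    have hrR : r ∈ o2 y' := hr.1
    have hry : r ∈ centralizer ({y} : Set X) := by
      rw [mem_centralizer_singleton_iff]
      exact ((mem_centralizer_iff.mp hr.2) y (mem_zpowers y)).symm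
    have hry' : r ∈ centralizer ({y'} : Set X) := o2_le y' hrR
    have h1 : r * d * r⁻¹ * d⁻¹ ∈ o2 y' ⊓ (th y ⊓ centralizer ({y'} : Set X)) := by
      refine mem_inf.mpr ⟨?_, mem_inf.mpr ⟨?_, ?_⟩⟩
      · have : r * d * r⁻¹ * d⁻¹ = r * (d * r⁻¹ * d⁻¹) := by group
        rw [this]
        exact mul_mem hrR ((mem_normalizer_iff.mp (o2_norm y' hd.2) r⁻¹).mp (inv_mem hrR))
      · exact mul_mem ((mem_normalizer_iff.mp (th_norm y hry) d).mp hd.1) (inv_mem hd.1)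
      · exact mul_mem (mul_mem (mul_mem hry' hd.2) (inv_mem hry')) (inv_mem hd.2)
    rw [inf_eq_bot_of_two_coprime (o2_isPGroup y') hQc, mem_bot] at h1
    have : d * r = (r * d * r⁻¹ * d⁻¹)⁻¹ * (r * d) := by group
    rw [this, h1]
    simp

/-- the standing hypotheses -/
structure YSetup (Y : Subgroup X) (z : X) : Prop where
  comm : ∀ a ∈ Y, ∀ b ∈ Y, a * b = b * a
  sq : ∀ a ∈ Y, a ^ 2 = 1
  lay : ∀ x ∈ Y, x ≠ 1 → layer ↥(centralizer ({x} : Set X)) = ⊥
  hz : z ∈ Y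
  hz1 : z ≠ 1
  hF : generalizedFittingSubgroup ↥(centralizer ({z} : Set X)) = pCore 2 ↥(centralizer ({z} : Set X))

variable {Y : Subgroup X} {z : X}

theorem YSetup.th_inf_z [Finite X] (h : YSetup Y z) {y : X} (hy : y ∈ Y) :
    th y ⊓ centralizer ({z} : Set X) = ⊥ := by
  rw [eq_bot_iff]
  intro d hd
  have h1 := th_inf_le_centralizer_o2 (h.comm y hy z h.hz) (h.sq y hy) hd
  have h2 : (⟨d, hd.2⟩ : ↥(centralizer ({z} : Set X))) ∈
      centralizer (generalizedFittingSubgroup ↥(centralizer ({z} : Set X)) : Set ↥(centralizer ({z} : Set X))) := by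
    rw [h.hF, mem_centralizer_iff]
    intro r hr
    apply Subtype.ext
    exact (mem_centralizer_iff.mp h1) r.1 ⟨r, hr, rfl⟩
  have h3 := Cfsg.H9.centralizer_genFitting_le h2
  rw [h.hF] at h3
  have h4 : d ∈ o2 z ⊓ th y := mem_inf.mpr ⟨⟨_, h3, rfl⟩, hd.1⟩
  rwa [inf_eq_bot_of_two_coprime (o2_isPGroup z) (th_coprime y)] at h4

theorem YSetup.le_centralizer (h : YSetup Y z) {y : X} (hy : y ∈ Y) : Y ≤ centralizer ({y} : Set X) := by
  intro a ha
  exact mem_centralizer_singleton_iff.mpr (h.comm a ha y hy)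

theorem YSetup.inv_and_comm [Finite X] (h : YSetup Y z) {y : X} (hy : y ∈ Y) :
    (∀ d ∈ th y, z * d * z⁻¹ = d⁻¹) ∧ ∀ d ∈ th y, ∀ e ∈ th y, d * e = e * d := by
  have hzN : z ∈ normalizer (th y : Set X) := th_norm y (h.le_centralizer hy h.hz)
  let φ : ↥(th y) →* ↥(th y) := MonoidHom.mk'
    (fun d => ⟨z * d * z⁻¹, (mem_normalizer_iff.mp hzN d).mp d.2⟩) (by
      intro a b
      apply Subtype.ext
      simp)
  have hφ : MonoidHom.FixedPointFree φ := by
    intro d hd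
    have h1 : z * (d : X) * z⁻¹ = d := congrArg Subtype.val hd
    have h2 : (d : X) ∈ th y ⊓ centralizer ({z} : Set X) := by
      refine mem_inf.mpr ⟨d.2, mem_centralizer_singleton_iff.mpr ?_⟩
      calc (d : X) * z = (z * (d : X) * z⁻¹) * z := by rw [h1]
        _ = z * d := by group
    rw [h.th_inf_z hy, mem_bot] at h2
    exact Subtype.ext h2
  have hzz : z * z = 1 := by rw [← pow_two]; exact h.sq z h.hz
  have hzi : z⁻¹ = z := inv_eq_of_mul_eq_one_left hzz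
  have h2 : Function.Involutive φ := by
    intro d
    apply Subtype.ext
    change z * (z * (d : X) * z⁻¹) * z⁻¹ = d
    rw [hzi]
    calc z * (z * (d : X) * z) * z = (z * z) * d * (z * z) := by group
      _ = d := by rw [hzz]; simp
  constructor
  · intro d hd
    have := congrFun (hφ.coe_eq_inv_of_involutive h2) ⟨d, hd⟩
    exact congrArg Subtype.val this
  · intro d hd e he
    exact congrArg Subtype.val (hφ.commute_all_of_involutive h2 ⟨d, hd⟩ ⟨e, he⟩)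

theorem commute_of_sq_of_odd {d f : X} (h : Commute (d ^ 2) f) (ho : Odd (orderOf d)) : Commute d f := by
  obtain ⟨k, hk⟩ := ho
  have h1 : d = (d ^ 2) ^ (k + 1) := by
    rw [← pow_mul, show 2 * (k + 1) = orderOf d + 1 by omega, pow_succ, pow_orderOf_eq_one, one_mul]
  rw [h1]
  exact h.pow_left _

theorem odd_orderOf_of_mem_th [Finite X] {y d : X} (hd : d ∈ th y) : Odd (orderOf d) := by
  have h1 : orderOf d ∣ Nat.card (th y) := by
    have := orderOf_dvd_natCard (⟨d, hd⟩ : ↥(th y))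
    rwa [Subgroup.orderOf_mk] at this
  have h2 := Nat.Coprime.coprime_dvd_left h1 (th_coprime y)
  exact Nat.Coprime.odd_of_right h2

theorem YSetup.th_inf_le_centralizer_th [Finite X] (h : YSetup Y z) {y y' : X} (hy : y ∈ Y) (hy' : y' ∈ Y) :
    th y ⊓ centralizer ({y'} : Set X) ≤ centralizer (th y' : Set X) := by
  intro d hd
  rw [mem_centralizer_iff]
  intro f hf
  have hd1 := (h.inv_and_comm hy).1 d hd.1
  have hf1 := (h.inv_and_comm hy').1 f hf
  have hdf : d * f * d⁻¹ ∈ th y' := (mem_normalizer_iff.mp (th_norm y' hd.2) f).mp hf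
  have h1 := (h.inv_and_comm hy').1 _ hdf
  have h2 : z * (d * f * d⁻¹) * z⁻¹ = (z * d * z⁻¹) * (z * f * z⁻¹) * (z * d * z⁻¹)⁻¹ := by group
  rw [h2, hd1, hf1] at h1
  -- `d⁻¹ f⁻¹ d = d f⁻¹ d⁻¹`
  have h3 : Commute (d ^ 2) f := by
    have h4 : d ^ 2 * f⁻¹ = f⁻¹ * d ^ 2 := by
      have h5 : d⁻¹ * f⁻¹ * d = d * f⁻¹ * d⁻¹ := by simpa [mul_assoc] using h1
      calc d ^ 2 * f⁻¹ = d * (d * f⁻¹ * d⁻¹) * d := by rw [pow_two]; group
        _ = d * (d⁻¹ * f⁻¹ * d) * d := by rw [h5]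
        _ = f⁻¹ * d ^ 2 := by rw [pow_two]; group
    have h6 : Commute (d ^ 2) f⁻¹ := h4
    simpa using h6.inv_right
  exact (commute_of_sq_of_odd h3 (odd_orderOf_of_mem_th hd.1)).symm.eq

/-- balance -/
theorem YSetup.balance [Finite X] (h : YSetup Y z) {y y' : X} (hy : y ∈ Y) (hy' : y' ∈ Y) (hy1 : y' ≠ 1) :
    th y ⊓ centralizer ({y'} : Set X) ≤ th y' := by
  haveI : Fact (Nat.Prime 2) := ⟨Nat.prime_two⟩
  intro d hd
  set H := centralizer ({y'} : Set X) with hH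
  have h1 := th_inf_le_centralizer_o2 (h.comm y hy y' hy') (h.sq y hy) hd
  have h2 := h.th_inf_le_centralizer_th hy hy' hd
  have hodd : ∀ p : Nat.Primes, (p : ℕ) ≠ 2 → pCore (p : ℕ) ↥H ≤ pPrimeCore 2 ↥H := by
    intro p hp
    apply Cfsg.Agent.H12.le_pPrimeCore (pCore_normal _ _)
    haveI : Fact (p : ℕ).Prime := ⟨p.2⟩
    obtain ⟨k, hk⟩ := IsPGroup.iff_card.mp (Cfsg.Agent.H12.pCore_isPGroup (p : ℕ) ↥H)
    rw [hk]
    exact Nat.Coprime.pow_left k ((Nat.coprime_primes p.2 Nat.prime_two).mpr hp)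
  have h3 : (⟨d, hd.2⟩ : ↥H) ∈ centralizer (fittingSubgroup ↥H : Set ↥H) := by
    have h4 : fittingSubgroup ↥H ≤ centralizer ({(⟨d, hd.2⟩ : ↥H)} : Set ↥H) := by
      rw [Cfsg.H1.fitting_eq_iSup_pCore]
      apply iSup_le
      intro p r hr
      rw [mem_centralizer_singleton_iff]
      apply Subtype.ext
      by_cases hp : (p : ℕ) = 2
      · rw [hp] at hr
        exact (mem_centralizer_iff.mp h1) r.1 ⟨r, hr, rfl⟩
      · exact (mem_centralizer_iff.mp h2) r.1 ⟨r, hodd p hp hr, rfl⟩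
    rw [mem_centralizer_iff]
    intro r hr
    exact mem_centralizer_singleton_iff.mp (h4 hr)
  have h5 := (Cfsg.H9.centralizer_fitting_le_iff.mpr (h.lay y' hy' hy1)) h3
  have h6 : fittingSubgroup ↥H ≤ pCore 2 ↥H ⊔ pPrimeCore 2 ↥H := by
    rw [Cfsg.H1.fitting_eq_iSup_pCore]
    apply iSup_le
    intro p
    by_cases hp : (p : ℕ) = 2
    · rw [hp]
      exact le_sup_left
    · exact (hodd p hp).trans le_sup_right
  obtain ⟨r, hr, k, hk, hrk⟩ := mem_sup_of_normal_right.mp (h6 h5)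
  -- pass to the quotient
  have h7 : (QuotientGroup.mk' (pPrimeCore 2 ↥H)) ⟨d, hd.2⟩ = (QuotientGroup.mk' (pPrimeCore 2 ↥H)) r := by
    have hk1 : (QuotientGroup.mk' (pPrimeCore 2 ↥H)) k = 1 := (QuotientGroup.eq_one_iff k).mpr hk
    rw [← hrk, map_mul, hk1, mul_one]
  obtain ⟨n, hn⟩ := (Cfsg.Agent.H12.pCore_isPGroup 2 ↥H) ⟨r, hr⟩
  have hn' : r ^ 2 ^ n = 1 := congrArg Subtype.val hn
  have h8 : orderOf ((QuotientGroup.mk' (pPrimeCore 2 ↥H)) ⟨d, hd.2⟩) ∣ 2 ^ n := by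
    apply orderOf_dvd_of_pow_eq_one
    rw [h7, ← map_pow, hn', map_one]
  have h9 : orderOf ((QuotientGroup.mk' (pPrimeCore 2 ↥H)) ⟨d, hd.2⟩) ∣ orderOf d := by
    have := orderOf_map_dvd (QuotientGroup.mk' (pPrimeCore 2 ↥H)) (⟨d, hd.2⟩ : ↥H)
    rwa [Subgroup.orderOf_mk] at this
  have h10 : (2 ^ n).Coprime (orderOf d) :=
    Nat.Coprime.pow_left n (Nat.coprime_two_left.mpr (odd_orderOf_of_mem_th hd.1))
  have h11 := Nat.eq_one_of_dvd_coprimes h10 h8 h9
  rw [orderOf_eq_one_iff] at h11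
  exact ⟨⟨d, hd.2⟩, (QuotientGroup.eq_one_iff _).mp h11, rfl⟩

theorem YSetup.comm_of_common [Finite X] (h : YSetup Y z) {y₁ y₂ u e₁ e₂ : X} (hy₁ : y₁ ∈ Y) (hy₂ : y₂ ∈ Y)
    (hu : u ∈ Y) (hu1 : u ≠ 1) (he₁ : e₁ ∈ th y₁) (he₂ : e₂ ∈ th y₂) (h1 : Commute e₁ u) (h2 : Commute e₂ u) :
    e₁ * e₂ = e₂ * e₁ := by
  have h3 : e₁ ∈ th u := h.balance hy₁ hu hu1 (mem_inf.mpr ⟨he₁, mem_centralizer_singleton_iff.mpr h1.eq⟩)
  have h4 : e₂ ∈ th u := h.balance hy₂ hu hu1 (mem_inf.mpr ⟨he₂, mem_centralizer_singleton_iff.mpr h2.eq⟩)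
  exact (h.inv_and_comm hu).2 e₁ h3 e₂ h4

theorem zpow_eq_one_or_of_sq {a : X} (ha : a ^ 2 = 1) (i : ℤ) : a ^ i = 1 ∨ a ^ i = a := by
  rcases Int.even_or_odd' i with ⟨k, hk | hk⟩
  · left
    rw [hk, zpow_mul, zpow_ofNat, ha, one_zpow]
  · right
    rw [hk, zpow_add, zpow_mul, zpow_ofNat, ha, one_zpow, one_mul, zpow_one]

/-- generation -/
theorem YSetup.th_le_sup [Finite X] (h : YSetup Y z) {y t : X} (hy : y ∈ Y) (ht : t ∈ Y) (ht1 : t ≠ 1)
    (htz : t ≠ z) :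
    th y ≤ (th y ⊓ centralizer ({t} : Set X)) ⊔ (th y ⊓ centralizer ({z * t} : Set X)) := by
  set A := zpowers z ⊔ zpowers t with hA
  have hAY : A ≤ Y := sup_le (zpowers_le.mpr h.hz) (zpowers_le.mpr ht)
  have hmem : ∀ a ∈ A, a = 1 ∨ a = z ∨ a = t ∨ a = z * t := by
    intro a ha
    have hn : zpowers t ≤ normalizer (zpowers z : Set X) := by
      rw [zpowers_le]
      apply mem_normalizer_of_map_conj_le
      rw [MonoidHom.map_zpowers, zpowers_le]
      have : (MulAut.conj t).toMonoidHom z = z := by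
        simp only [MulEquiv.coe_toMonoidHom, MulAut.conj_apply]
        rw [h.comm t ht z h.hz, mul_inv_cancel_right]
      rw [this]
      exact mem_zpowers z
    obtain ⟨_, ⟨i, rfl⟩, _, ⟨j, rfl⟩, rfl⟩ := (Cfsg.H9.mem_sup_of_le_normalizer hn).mp ha
    simp only
    rcases zpow_eq_one_or_of_sq (h.sq z h.hz) i with h1 | h1 <;>
      rcases zpow_eq_one_or_of_sq (h.sq t ht) j with h2 | h2 <;> rw [h1, h2] <;> simp
  haveI hAab : IsMulCommutative A := ⟨⟨fun a b => Subtype.ext (h.comm a (hAY a.2) b (hAY b.2))⟩⟩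
  have hzA : z ∈ A := (le_sup_left : zpowers z ≤ A) (mem_zpowers z)
  have htA : t ∈ A := (le_sup_right : zpowers t ≤ A) (mem_zpowers t)
  have hAnc : ¬ IsCyclic A := by
    intro hc
    obtain ⟨g, hg⟩ := hc.exists_generator
    have hg2 : (g : X) ^ 2 = 1 := h.sq g (hAY g.2)
    have key : ∀ a : A, (a : X) = 1 ∨ (a : X) = g := by
      intro a
      obtain ⟨i, hi⟩ := hg a
      have h1 : (g : X) ^ i = a := by
        have := congrArg Subtype.val hi
        simpa using this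
      rw [← h1]
      exact zpow_eq_one_or_of_sq hg2 i
    have h1 := (key ⟨z, hzA⟩).resolve_left h.hz1
    have h2 := (key ⟨t, htA⟩).resolve_left ht1
    exact htz (h2.trans h1.symm)
  have hAK : A ≤ normalizer (th y : Set X) := (hAY.trans (h.le_centralizer hy)).trans (th_norm y)
  have hAp : IsPGroup 2 A := by
    intro a
    exact ⟨1, Subtype.ext (by simpa using h.sq a (hAY a.2))⟩
  have hcop : (Nat.card A).Coprime (Nat.card (th y)) := by
    haveI : Fact (Nat.Prime 2) := ⟨Nat.prime_two⟩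
    obtain ⟨k, hk⟩ := IsPGroup.iff_card.mp hAp
    rw [hk]
    exact Nat.Coprime.pow_left k (th_coprime y).symm
  have hgen := Cfsg.Agent.S0058.result A (th y) hAnc hAK hcop
  conv_lhs => rw [← hgen]
  apply iSup₂_le
  rintro a ⟨haA, ha1⟩
  rcases hmem a haA with rfl | rfl | rfl | rfl
  · exact absurd rfl ha1
  · rw [h.th_inf_z hy]
    exact bot_le
  · exact le_sup_left
  · exact le_sup_right

theorem YSetup.comm_aux [Finite X] (h : YSetup Y z) {y₁ y₂ t : X} (hy₁ : y₁ ∈ Y) (hy₂ : y₂ ∈ Y) (ht : t ∈ Y)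
    (ht1 : t ≠ 1) (htz : t ≠ z)
    (H : ∀ a₁ ∈ ({t, z * t} : Set X), ∀ a₂ ∈ ({t, z * t} : Set X), ∀ e₁ ∈ th y₁, ∀ e₂ ∈ th y₂,
      Commute e₁ a₁ → Commute e₂ a₂ → e₁ * e₂ = e₂ * e₁) :
    ∀ e₁ ∈ th y₁, ∀ e₂ ∈ th y₂, e₁ * e₂ = e₂ * e₁ := by
  have step1 : ∀ a₁ ∈ ({t, z * t} : Set X), ∀ e₁ ∈ th y₁, Commute e₁ a₁ →
      th y₂ ≤ centralizer ({e₁} : Set X) := by
    intro a₁ ha₁ e₁ he₁ hc
    refine (h.th_le_sup hy₂ ht ht1 htz).trans (sup_le ?_ ?_)
    · intro e₂ he₂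
      rw [mem_centralizer_singleton_iff]
      exact (H a₁ ha₁ t (by simp) e₁ he₁ e₂ he₂.1 hc (mem_centralizer_singleton_iff.mp he₂.2)).symm
    · intro e₂ he₂
      rw [mem_centralizer_singleton_iff]
      exact (H a₁ ha₁ (z * t) (by simp) e₁ he₁ e₂ he₂.1 hc (mem_centralizer_singleton_iff.mp he₂.2)).symm
  have step2 : th y₁ ≤ centralizer (th y₂ : Set X) := by
    refine (h.th_le_sup hy₁ ht ht1 htz).trans (sup_le ?_ ?_)
    · intro e₁ he₁
      rw [mem_centralizer_iff]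
      intro e₂ he₂
      exact mem_centralizer_singleton_iff.mp
        (step1 t (by simp) e₁ he₁.1 (mem_centralizer_singleton_iff.mp he₁.2) he₂)
    · intro e₁ he₁
      rw [mem_centralizer_iff]
      intro e₂ he₂
      exact mem_centralizer_singleton_iff.mp
        (step1 (z * t) (by simp) e₁ he₁.1 (mem_centralizer_singleton_iff.mp he₁.2) he₂)
  intro e₁ he₁ e₂ he₂
  exact ((mem_centralizer_iff.mp (step2 he₁)) e₂ he₂).symm

theorem YSetup.th_comm [Finite X] (h : YSetup Y z) (h8 : 8 ≤ Nat.card Y) {y₁ y₂ : X} (hy₁ : y₁ ∈ Y) (hy₂ : y₂ ∈ Y)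
    (h1 : y₁ ≠ 1) (h2 : y₂ ≠ 1) : ∀ e₁ ∈ th y₁, ∀ e₂ ∈ th y₂, e₁ * e₂ = e₂ * e₁ := by
  classical
  have hs : ∀ a ∈ Y, a * a = 1 := fun a ha => by rw [← pow_two]; exact h.sq a ha
  have hzt : ∀ t ∈ Y, t ≠ z → z * t ≠ 1 := by
    intro t ht htz h0
    apply htz
    calc t = (z * z) * t := by rw [hs z h.hz, one_mul]
      _ = z * (z * t) := by group
      _ = z := by rw [h0, mul_one]
  have hc₁ : ∀ e₁ ∈ th y₁, Commute e₁ y₁ := fun e he => mem_centralizer_singleton_iff.mp (th_le y₁ he)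
  have hc₂ : ∀ e₂ ∈ th y₂, Commute e₂ y₂ := fun e he => mem_centralizer_singleton_iff.mp (th_le y₂ he)
  by_cases hAe : y₁ = y₂
  · subst hAe
    exact (h.inv_and_comm hy₁).2
  by_cases hB : y₁ * y₂ = z
  · obtain ⟨t, ht, htn⟩ : ∃ t ∈ Y, t ∉ ({1, z, y₁, y₂} : Finset X) := by
      by_contra hcon
      push Not at hcon
      have h3 : (Y : Set X) ⊆ ↑({1, z, y₁, y₂} : Finset X) := fun t ht => hcon t ht
      have h4 := Set.ncard_le_ncard h3 (Finset.finite_toSet _)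
      rw [Set.ncard_coe_finset] at h4
      have h5 : Nat.card Y = (Y : Set X).ncard := rfl
      have h6 := Finset.card_le_four (a := (1 : X)) (b := z) (c := y₁) (d := y₂)
      omega
    simp only [Finset.mem_insert, Finset.mem_singleton, not_or] at htn
    obtain ⟨ht1, htz, hty₁, hty₂⟩ := htn
    apply h.comm_aux hy₁ hy₂ ht ht1 htz
    intro a₁ ha₁ a₂ ha₂ e₁ he₁ e₂ he₂ hca₁ hca₂
    have hne : ∀ y ∈ Y, t ≠ y → y * t ≠ 1 := by
      intro y hy hty h0
      apply hty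
      calc t = (y * y) * t := by rw [hs y hy, one_mul]
        _ = y * (y * t) := by group
        _ = y := by rw [h0, mul_one]
    rcases ha₁ with rfl | rfl <;> rcases ha₂ with rfl | rfl
    · exact h.comm_of_common hy₁ hy₂ ht ht1 he₁ he₂ hca₁ hca₂
    · -- `u = y₁ t`
      have e : y₂ * (z * a₁) = y₁ * a₁ := by
        rw [← hB, h.comm y₁ hy₁ y₂ hy₂]
        calc y₂ * (y₂ * y₁ * a₁) = (y₂ * y₂) * y₁ * a₁ := by group
          _ = y₁ * a₁ := by rw [hs y₂ hy₂, one_mul]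
      refine h.comm_of_common hy₁ hy₂ (Y.mul_mem hy₁ ht) (hne y₁ hy₁ hty₁) he₁ he₂
        ((hc₁ e₁ he₁).mul_right hca₁) ?_
      rw [← e]
      exact (hc₂ e₂ he₂).mul_right hca₂
    · -- `u = y₂ t`
      have e : y₁ * (z * a₂) = y₂ * a₂ := by
        rw [← hB]
        calc y₁ * (y₁ * y₂ * a₂) = (y₁ * y₁) * y₂ * a₂ := by group
          _ = y₂ * a₂ := by rw [hs y₁ hy₁, one_mul]
      refine h.comm_of_common hy₁ hy₂ (Y.mul_mem hy₂ ht) (hne y₂ hy₂ hty₂) he₁ he₂ ?_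
        ((hc₂ e₂ he₂).mul_right hca₂)
      rw [← e]
      exact (hc₁ e₁ he₁).mul_right hca₁
    · exact h.comm_of_common hy₁ hy₂ (Y.mul_mem h.hz ht) (hzt t ht htz) he₁ he₂ hca₁ hca₂
  · have ht : y₁ * y₂ ∈ Y := Y.mul_mem hy₁ hy₂
    have ht1 : y₁ * y₂ ≠ 1 := by
      intro h0
      apply hAe
      calc y₁ = y₁ * (y₂ * y₂) := by rw [hs y₂ hy₂, mul_one]
        _ = (y₁ * y₂) * y₂ := by group
        _ = y₂ := by rw [h0, one_mul]
    apply h.comm_aux hy₁ hy₂ ht ht1 hB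
    intro a₁ ha₁ a₂ ha₂ e₁ he₁ e₂ he₂ hca₁ hca₂
    have e₁' : y₁ * (y₁ * y₂) = y₂ := by
      calc y₁ * (y₁ * y₂) = (y₁ * y₁) * y₂ := by group
        _ = y₂ := by rw [hs y₁ hy₁, one_mul]
    have e₂' : y₂ * (y₁ * y₂) = y₁ := by
      rw [h.comm y₁ hy₁ y₂ hy₂]
      calc y₂ * (y₂ * y₁) = (y₂ * y₂) * y₁ := by group
        _ = y₁ := by rw [hs y₂ hy₂, one_mul]
    rcases ha₁ with rfl | rfl <;> rcases ha₂ with rfl | rfl
    · exact h.comm_of_common hy₁ hy₂ ht ht1 he₁ he₂ hca₁ hca₂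
    · refine h.comm_of_common hy₁ hy₂ hy₂ h2 he₁ he₂ ?_ (hc₂ e₂ he₂)
      rw [← e₁']
      exact (hc₁ e₁ he₁).mul_right hca₁
    · refine h.comm_of_common hy₁ hy₂ hy₁ h1 he₁ he₂ (hc₁ e₁ he₁) ?_
      rw [← e₂']
      exact (hc₂ e₂ he₂).mul_right hca₂
    · exact h.comm_of_common hy₁ hy₂ (Y.mul_mem h.hz ht) (hzt _ ht hB) he₁ he₂ hca₁ hca₂

theorem map_conj_th_le [Finite X] (g y : X) :
    (th y).map (MulAut.conj g).toMonoidHom ≤ th (g * y * g⁻¹) := by
  apply le_th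
  · rintro _ ⟨d, hd, rfl⟩
    rw [mem_centralizer_singleton_iff]
    have h1 : d * y = y * d := mem_centralizer_singleton_iff.mp (th_le y hd)
    simp only [MulEquiv.coe_toMonoidHom, MulAut.conj_apply]
    calc g * d * g⁻¹ * (g * y * g⁻¹) = g * (d * y) * g⁻¹ := by group
      _ = g * (y * d) * g⁻¹ := by rw [h1]
      _ = g * y * g⁻¹ * (g * d * g⁻¹) := by group
  · intro c hc
    apply mem_normalizer_of_map_conj_le
    rintro _ ⟨_, ⟨d, hd, rfl⟩, rfl⟩
    have h1 : g⁻¹ * c * g ∈ centralizer ({y} : Set X) := by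
      rw [mem_centralizer_singleton_iff]
      have h2 : c * (g * y * g⁻¹) = g * y * g⁻¹ * c := mem_centralizer_singleton_iff.mp hc
      calc g⁻¹ * c * g * y = g⁻¹ * (c * (g * y * g⁻¹)) * g := by group
        _ = g⁻¹ * (g * y * g⁻¹ * c) * g := by rw [h2]
        _ = y * (g⁻¹ * c * g) := by group
    refine ⟨_, (mem_normalizer_iff.mp (th_norm y h1) d).mp hd, ?_⟩
    simp only [MulEquiv.coe_toMonoidHom, MulAut.conj_apply]
    group
  · rw [card_map_of_injective (MulAut.conj g).injective]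
    exact th_coprime y

/-- the main result -/
theorem YSetup.main [Finite X] (h : YSetup Y z) (h8 : 8 ≤ Nat.card Y) :
    Odd (Nat.card ↥(⨆ y : {y : X // y ∈ Y ∧ y ≠ 1}, th (y : X))) ∧
      normalizer (Y : Set X) ≤ normalizer ((⨆ y : {y : X // y ∈ Y ∧ y ≠ 1}, th (y : X) : Subgroup X) : Set X) := by
  set W := ⨆ y : {y : X // y ∈ Y ∧ y ≠ 1}, th (y : X) with hW
  have hWc : W ≤ centralizer (W : Set X) := by
    apply iSup_le
    intro y
    rw [le_centralizer_iff]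
    apply iSup_le
    intro y' e' he'
    rw [mem_centralizer_iff]
    intro e he
    exact h.th_comm h8 y.2.1 y'.2.1 y.2.2 y'.2.2 e he e' he'
  have hodd : ∀ w ∈ W, w ∈ W ∧ Odd (orderOf w) := by
    intro w hw
    refine iSup_induction (fun y : {y : X // y ∈ Y ∧ y ≠ 1} => th (y : X))
      (C := fun w => w ∈ W ∧ Odd (orderOf w)) hw ?_ ?_ ?_
    · intro y d hd
      exact ⟨le_iSup (fun y : {y : X // y ∈ Y ∧ y ≠ 1} => th (y : X)) y hd, odd_orderOf_of_mem_th hd⟩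
    · exact ⟨W.one_mem, by simp⟩
    · rintro a b ⟨ha, hao⟩ ⟨hb, hbo⟩
      refine ⟨W.mul_mem ha hb, ?_⟩
      have hc : Commute a b := ((mem_centralizer_iff.mp (hWc ha)) b hb).symm
      exact Odd.of_dvd_nat (hao.mul hbo) hc.orderOf_mul_dvd_mul_orderOf
  constructor
  · by_contra hne
    rw [Nat.not_odd_iff_even] at hne
    haveI : Fact (Nat.Prime 2) := ⟨Nat.prime_two⟩
    obtain ⟨w, hw⟩ := exists_prime_orderOf_dvd_card' 2 hne.two_dvd
    have h1 := (hodd w w.2).2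
    rw [Subgroup.orderOf_coe, hw] at h1
    exact absurd h1 (by decide)
  · intro g hg
    apply mem_normalizer_of_map_conj_le
    rw [hW, Subgroup.map_iSup]
    apply iSup_le
    intro y
    have hy : g * (y : X) * g⁻¹ ∈ Y := (mem_normalizer_iff.mp hg y).mp y.2.1
    have hy1 : g * (y : X) * g⁻¹ ≠ 1 := by
      intro h0
      apply y.2.2
      calc (y : X) = g⁻¹ * (g * y * g⁻¹) * g := by group
        _ = 1 := by rw [h0]; group
    exact (map_conj_th_le g y).trans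
      (le_iSup (fun y : {y : X // y ∈ Y ∧ y ≠ 1} => th (y : X)) ⟨_, hy, hy1⟩)

end Cfsg.Agent.H17
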