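import Cfsg.Agent.H20.PiClasses

set_option autoImplicit false
set_option linter.style.haveILetI false

namespace Cfsg.Agent.H17.PiC

open Subgroup Cfsg.Agent.H20

universe u

theorem card_PiCl_insert_le_sum {G : Type u} [Group G] [Finite G] {σ : Finset ℕ} {r : ℕ}
    (hr : r.Prime) (rep : PCl r G → G) (hrep : ∀ c, ConjClasses.mk (rep c) = c.1)
    [Fintype (PCl r G)] :
    Nat.card (PiCl (insert r σ) G) ≤
      ∑ c : PCl r G, Nat.card (PiCl σ ↥(centralizer ({rep c} : Set G))) := by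
  classical
  haveI : Fact r.Prime := ⟨hr⟩
  have hout : ∀ (H : Subgroup G) (d : ConjClasses ↥H), ∃ y : ↥H, ConjClasses.mk y = d :=
    fun H d => ConjClasses.exists_rep d
  choose out hout using hout
  let Ψ : (Σ c : PCl r G, PiCl σ ↥(centralizer ({rep c} : Set G))) → ConjClasses G :=
    fun z => ConjClasses.mk (rep z.1 * (out _ z.2.1 : G))
  have hex : ∀ e : PiCl (insert r σ) G, ∃ z, Ψ z = e.1 := by
    rintro ⟨e, he⟩
    obtain ⟨g, rfl⟩ := ConjClasses.exists_rep e
    obtain ⟨x, y, hg, hxy, ⟨k, hk⟩, hry, hyg⟩ := exists_r_decomp g hr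
    let c : PCl r G := ⟨ConjClasses.mk x, fun z hz => ⟨k, by rw [orderOf_of_mem_carrier_mk hz, hk]⟩⟩
    have h1 : ConjClasses.mk (rep c) = ConjClasses.mk x := hrep c
    rw [ConjClasses.mk_eq_mk_iff_isConj, isConj_comm, isConj_iff] at h1
    obtain ⟨t, ht⟩ := h1
    have hy' : t * y * t⁻¹ ∈ centralizer ({rep c} : Set G) := by
      rw [mem_centralizer_singleton_iff, ← ht]
      calc t * y * t⁻¹ * (t * x * t⁻¹) = t * (y * x) * t⁻¹ := by group
        _ = t * (x * y) * t⁻¹ := by rw [hxy.eq]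
        _ = t * x * t⁻¹ * (t * y * t⁻¹) := by group
    let d : PiCl σ ↥(centralizer ({rep c} : Set G)) := ⟨ConjClasses.mk ⟨t * y * t⁻¹, hy'⟩, by
      intro z hz s hs hsz
      have e1 : orderOf (t * y * t⁻¹) = orderOf y := (MulAut.conj t).orderOf_eq y
      rw [orderOf_of_mem_carrier_mk hz, Subgroup.orderOf_mk, e1] at hsz
      have h2 := he g ConjClasses.mem_carrier_mk s hs (hsz.trans hyg)
      rcases Finset.mem_insert.1 h2 with h3 | h3
      · rw [h3] at hsz; exact absurd hsz hry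
      · exact h3⟩
    refine ⟨⟨c, d⟩, ?_⟩
    show ConjClasses.mk (rep c * (out _ d.1 : G)) = ConjClasses.mk g
    have h3 : ConjClasses.mk (out _ d.1) = ConjClasses.mk ⟨t * y * t⁻¹, hy'⟩ := hout _ d.1
    rw [ConjClasses.mk_eq_mk_iff_isConj, isConj_iff] at h3
    obtain ⟨h, hh⟩ := h3
    have hh' : (h : G) * (out _ d.1 : G) * (h : G)⁻¹ = t * y * t⁻¹ := congrArg Subtype.val hh
    have hhc : (h : G) * rep c * (h : G)⁻¹ = rep c := by
      have := mem_centralizer_singleton_iff.1 h.2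
      rw [this]; group
    rw [ConjClasses.mk_eq_mk_iff_isConj, isConj_iff]
    refine ⟨t⁻¹ * h.1, ?_⟩
    calc t⁻¹ * (h : G) * (rep c * (out _ d.1 : G)) * (t⁻¹ * (h : G))⁻¹
        = t⁻¹ * (((h : G) * rep c * (h : G)⁻¹) * ((h : G) * (out _ d.1 : G) * (h : G)⁻¹)) * t := by
          group
      _ = t⁻¹ * ((t * x * t⁻¹) * (t * y * t⁻¹)) * t := by rw [hhc, hh', ht]
      _ = x * y := by group
      _ = g := hg.symm
  choose Φ hΦ using hex
  have hinj : Function.Injective Φ := fun a b hab => Subtype.ext (by rw [← hΦ a, ← hΦ b, hab])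
  calc Nat.card (PiCl (insert r σ) G)
      ≤ Nat.card (Σ c : PCl r G, PiCl σ ↥(centralizer ({rep c} : Set G))) :=
        Nat.card_le_card_of_injective Φ hinj
    _ = ∑ c : PCl r G, Nat.card (PiCl σ ↥(centralizer ({rep c} : Set G))) := Nat.card_sigma

theorem orbit_le {N Q : Type*} [Group N] [Finite N] [Finite Q] [MulAction N Q]
    (K : Subgroup N) (f : ℕ) (hf : ∀ n : N, n ∉ K → Nat.card (MulAction.fixedBy Q n) ≤ f) :
    Nat.card (MulAction.orbitRel.Quotient N Q) * Nat.card N + Nat.card K * f ≤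
      Nat.card K * Nat.card Q + Nat.card N * f := by
  classical
  haveI := Fintype.ofFinite N
  have hB := Cfsg.Agent.Lib.Helper19.burnside_nat N Q
  have hsumK : ∀ c : ℕ, ∑ n : N, (if n ∈ K then c else 0) = Nat.card K * c := by
    intro c
    rw [← Finset.sum_filter, Finset.sum_const, smul_eq_mul,
      Nat.card_eq_fintype_card (α := K), Fintype.card_subtype]
  rw [← hB, ← hsumK f, ← hsumK (Nat.card Q), ← Finset.sum_add_distrib]
  have h2 : Nat.card N * f = ∑ _n : N, f := by
    rw [Finset.sum_const, Finset.card_univ, smul_eq_mul, Nat.card_eq_fintype_card]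
  rw [h2, ← Finset.sum_add_distrib]
  apply Finset.sum_le_sum
  intro n _
  by_cases hn : n ∈ K
  · rw [if_pos hn, if_pos hn]
    have h1 : Nat.card (MulAction.fixedBy Q n) ≤ Nat.card Q :=
      Nat.card_le_card_of_injective _ Subtype.val_injective
    omega
  · rw [if_neg hn, if_neg hn]
    have := hf n hn
    omega

theorem fix_le {N Q : Type*} [Group N] [Group Q] [Finite Q]
    [MulDistribMulAction N Q] {p : ℕ} [hp : Fact p.Prime] (hQ : IsPGroup p Q)
    (n : N) (hn : ∃ x : Q, n • x ≠ x) :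
    p * Nat.card (MulAction.fixedBy Q n) ≤ Nat.card Q := by
  let F : Subgroup Q :=
    { carrier := MulAction.fixedBy Q n
      mul_mem' := by
        intro a b ha hb
        rw [MulAction.mem_fixedBy] at ha hb ⊢
        rw [smul_mul', ha, hb]
      one_mem' := by
        rw [MulAction.mem_fixedBy, smul_one]
      inv_mem' := by
        intro a ha
        rw [MulAction.mem_fixedBy] at ha ⊢
        rw [smul_inv', ha] }
  have hF : F ≠ ⊤ := by
    intro h
    obtain ⟨x, hx⟩ := hn
    apply hx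
    have : x ∈ F := h ▸ mem_top x
    exact this
  obtain ⟨k, hk⟩ := hQ.index F
  have hk0 : k ≠ 0 := by
    intro h0
    rw [h0, pow_zero] at hk
    exact hF (index_eq_one.1 hk)
  have hpi : p ≤ F.index := by
    rw [hk]
    calc p = p ^ 1 := (pow_one p).symm
      _ ≤ p ^ k := Nat.pow_le_pow_right hp.out.pos (Nat.one_le_iff_ne_zero.2 hk0)
  have h1 := F.card_mul_index
  calc p * Nat.card (MulAction.fixedBy Q n) = Nat.card F * p := by rw [mul_comm]; rfl
    _ ≤ Nat.card F * F.index := Nat.mul_le_mul_left _ hpi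
    _ = Nat.card Q := h1

/-- arithmetic: the orbit bound when the acting quotient is large. -/
theorem arith {o ρ f r j' : ℕ} (h1 : o * (j' + 1) + f ≤ ρ + (j' + 1) * f) (h2 : r * f ≤ ρ)
    (h3 : 2 * (r + j') ≤ r * (j' + 1)) (hr : 0 < r) : 2 * o ≤ ρ := by
  have h4 : o * (j' + 1) ≤ ρ + j' * f := by nlinarith
  have h5 : r * (o * (j' + 1)) ≤ (r + j') * ρ := by
    calc r * (o * (j' + 1)) ≤ r * (ρ + j' * f) := Nat.mul_le_mul_left _ h4
      _ = r * ρ + j' * (r * f) := by ring
      _ ≤ r * ρ + j' * ρ := Nat.add_le_add_left (Nat.mul_le_mul_left _ h2) _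
      _ = (r + j') * ρ := by ring
  have hpos : 0 < r * (j' + 1) := Nat.mul_pos hr (Nat.succ_pos _)
  apply Nat.le_of_mul_le_mul_left _ hpos
  calc r * (j' + 1) * (2 * o) = 2 * (r * (o * (j' + 1))) := by ring
    _ ≤ 2 * ((r + j') * ρ) := Nat.mul_le_mul_left _ h5
    _ = (2 * (r + j')) * ρ := by ring
    _ ≤ r * (j' + 1) * ρ := Nat.mul_le_mul_right _ h3

end Cfsg.Agent.H17.PiC
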