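import Cfsg.Agent.H17.PiC1

set_option autoImplicit false
set_option linter.style.haveILetI false

namespace Cfsg.Agent.H17.PiC

open Subgroup Cfsg.Agent.H20

universe u

variable {G : Type u} [Group G] [Finite G]

theorem sylow_le_of_index {r : ℕ} [hrF : Fact r.Prime] (hr2 : r ≠ 2) (R : Sylow r G)
    (M : Subgroup G) [M.Normal] {v : ℕ} (hMidx : M.index = 2 ^ v) : (R : Subgroup G) ≤ M := by
  intro x hx
  obtain ⟨k, hk⟩ := R.2 ⟨x, hx⟩
  have hk' : x ^ r ^ k = 1 := congrArg Subtype.val hk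
  have h1 : (x : G ⧸ M) ^ (r ^ k) = 1 := by
    rw [← QuotientGroup.mk_pow, hk']; rfl
  have h2 : (x : G ⧸ M) ^ (2 ^ v) = 1 := by
    rw [← hMidx, Subgroup.index_eq_card]
    exact pow_card_eq_one'
  have hcop : Nat.Coprime (r ^ k) (2 ^ v) :=
    Nat.Coprime.pow _ _ ((Nat.coprime_primes hrF.out Nat.prime_two).2 hr2)
  have h3 := Nat.dvd_gcd (orderOf_dvd_of_pow_eq_one h1) (orderOf_dvd_of_pow_eq_one h2)
  rw [hcop.gcd_eq_one, Nat.dvd_one, orderOf_eq_one_iff, QuotientGroup.eq_one_iff] at h3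
  exact h3

theorem full_fixed {r : ℕ} [hrF : Fact r.Prime] (hr2 : r ≠ 2) (R : Sylow r G)
    (hRab : (R : Subgroup G) ≤ centralizer ((R : Subgroup G) : Set G))
    (M : Subgroup G) [M.Normal] (hModd : Odd (Nat.card M)) {v : ℕ} (hMidx : M.index = 2 ^ v)
    {x : G} (hx : x ∈ (R : Subgroup G)) (hxa : 2 ^ v ∣ Nat.card ↥(centralizer ({x} : Set G)))
    (hC : ¬ 2 ^ v ∣ Nat.card ↥(centralizer ((R : Subgroup G) : Set G))) :
    ∃ n ∈ normalizer ((R : Subgroup G) : Set G), n ∈ centralizer ({x} : Set G) ∧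
      n ∉ centralizer ((R : Subgroup G) : Set G) := by
  by_contra hcon
  push Not at hcon
  apply hC
  obtain ⟨H, hH⟩ : ∃ H : Subgroup G, H = centralizer ({x} : Set G) := ⟨_, rfl⟩
  rw [← hH] at hxa hcon
  have hRH : (R : Subgroup G) ≤ H := by
    intro y hy
    rw [hH, mem_centralizer_singleton_iff]
    exact (mem_centralizer_iff.1 (hRab hy) x hx).symm
  have hRM := sylow_le_of_index hr2 R M hMidx
  have hF := Sylow.normalizer_sup_eq_top' (N := M.subgroupOf H) (R.subtype hRH) (by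
    rw [Sylow.coe_subtype]
    intro y hy
    rw [mem_subgroupOf] at hy ⊢
    exact hRM hy)
  obtain ⟨B, hB⟩ : ∃ B : Subgroup ↥H, B = normalizer ((R.subtype hRH : Sylow r ↥H) : Set ↥H) :=
    ⟨_, rfl⟩
  rw [← hB] at hF
  have h1 : (M.subgroupOf H).relIndex B = (M.subgroupOf H).index := by
    rw [← relIndex_sup_right B (M.subgroupOf H), hF, relIndex_top_right]
  have h2 : (M.subgroupOf H).index ∣ Nat.card B := h1 ▸ relIndex_dvd_card _ _
  have h3 : Nat.card (M.subgroupOf H) ∣ Nat.card M := by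
    rw [← inf_subgroupOf_right, Nat.card_congr (subgroupOfEquivOfLe inf_le_right).toEquiv]
    exact card_dvd_of_le inf_le_left
  have h4 : Nat.Coprime (2 ^ v) (Nat.card (M.subgroupOf H)) := by
    apply Nat.Coprime.pow_left
    apply Nat.Coprime.coprime_dvd_right h3
    exact hModd.coprime_two_left
  have h5 : 2 ^ v ∣ (M.subgroupOf H).index := by
    have := (M.subgroupOf H).card_mul_index
    rw [← this] at hxa
    exact h4.dvd_of_dvd_mul_left hxa
  have h6 : Nat.card (B.map H.subtype) = Nat.card B :=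
    card_map_of_injective H.subtype_injective
  have h7 : B.map H.subtype ≤ centralizer ((R : Subgroup G) : Set G) := by
    rintro _ ⟨b, hb, rfl⟩
    apply hcon _ _ b.2
    rw [hB] at hb
    have hb' := mem_normalizer_iff.1 hb
    rw [mem_normalizer_iff]
    intro y
    constructor
    · intro hy
      have := (hb' ⟨y, hRH hy⟩).1 (by
        show _ ∈ ((R.subtype hRH : Sylow r ↥H) : Subgroup ↥H)
        rw [Sylow.coe_subtype, mem_subgroupOf]; exact hy)
      have h8 : _ ∈ ((R.subtype hRH : Sylow r ↥H) : Subgroup ↥H) := this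
      rw [Sylow.coe_subtype, mem_subgroupOf] at h8
      exact h8
    · intro hy
      have hyH : y ∈ H := by
        have e : y = (b : G)⁻¹ * ((b : G) * y * (b : G)⁻¹) * (b : G) := by group
        rw [e]
        exact H.mul_mem (H.mul_mem (H.inv_mem b.2) (hRH hy)) b.2
      have := (hb' ⟨y, hyH⟩).2 (by
        show _ ∈ ((R.subtype hRH : Sylow r ↥H) : Subgroup ↥H)
        rw [Sylow.coe_subtype, mem_subgroupOf]; exact hy)
      have h8 : _ ∈ ((R.subtype hRH : Sylow r ↥H) : Subgroup ↥H) := this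
      rw [Sylow.coe_subtype, mem_subgroupOf] at h8
      exact h8
  exact (h5.trans h2).trans (h6 ▸ card_dvd_of_le h7)

end Cfsg.Agent.H17.PiC
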