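import Cfsg.Agent.H17.PiC2

set_option autoImplicit false
set_option linter.style.haveILetI false

namespace Cfsg.Agent.H17.PiC

open Subgroup Cfsg.Agent.H20

universe u

variable {G : Type u} [Group G] [Finite G]

/-- The normalizer of a Sylow subgroup, as a type. -/
abbrev Nz {r : ℕ} (R : Sylow r G) := ↥(normalizer ((R : Subgroup G) : Set G))

/-- The kernel of the action on the Sylow subgroup. -/
def Kz {r : ℕ} (R : Sylow r G) : Subgroup (Nz R) :=
  (centralizer ((R : Subgroup G) : Set G)).subgroupOf (normalizer ((R : Subgroup G) : Set G))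

theorem smul_val {r : ℕ} (R : Sylow r G) (n : Nz R) (x : (R : Subgroup G)) :
    ((n • x : (R : Subgroup G)) : G) = n * x * (n : G)⁻¹ := rfl

theorem mem_Kz {r : ℕ} (R : Sylow r G) (n : Nz R) :
    n ∈ Kz R ↔ ∀ x : (R : Subgroup G), n • x = x := by
  constructor
  · intro h x
    apply Subtype.ext
    rw [smul_val]
    have := mem_centralizer_iff.1 (mem_subgroupOf.1 h) x x.2
    rw [← this, mul_inv_cancel_right]
  · intro h
    unfold Kz
    rw [mem_subgroupOf, mem_centralizer_iff]
    intro x hx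
    have h1 := congrArg Subtype.val (h ⟨x, hx⟩)
    rw [smul_val] at h1
    have h2 : (n : G) * x * (n : G)⁻¹ = x := h1
    calc x * n = ((n : G) * x * (n : G)⁻¹) * n := by rw [h2]
      _ = n * x := by group

theorem Kz_normal {r : ℕ} (R : Sylow r G) : (Kz R).Normal := by
  have : Kz R = (MulDistribMulAction.toMulAut (Nz R) (R : Subgroup G)).ker := by
    ext n
    rw [mem_Kz, MonoidHom.mem_ker]
    constructor
    · intro h
      ext x
      simpa using congrArg Subtype.val (h x)
    · intro h x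
      have := DFunLike.congr_fun h x
      simpa using this
  rw [this]
  infer_instance

theorem card_Kz {r : ℕ} (R : Sylow r G) :
    Nat.card (Kz R) = Nat.card ↥(centralizer ((R : Subgroup G) : Set G)) :=
  Nat.card_congr (subgroupOfEquivOfLe (centralizer_le_normalizer _)).toEquiv

theorem index_ne {r : ℕ} [hrF : Fact r.Prime] (R : Sylow r G) : (Kz R).index ≠ r := by
  intro hidx
  haveI := Kz_normal R
  by_cases hRK : ∀ g : (R : Subgroup G), (⟨g.1, le_normalizer g.2⟩ : Nz R) ∈ Kz R
  · have h1 : ((R : Subgroup G).subgroupOf (normalizer ((R : Subgroup G) : Set G))) ≤ Kz R := by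
      intro n hn
      exact hRK ⟨n.1, hn⟩
    have h2 := card_dvd_of_le h1
    rw [Nat.card_congr (subgroupOfEquivOfLe le_normalizer).toEquiv, R.card_eq_multiplicity] at h2
    have h3 := (Kz R).card_mul_index
    rw [hidx] at h3
    have h4 : r ^ ((Nat.card G).factorization r + 1) ∣ Nat.card G := by
      rw [pow_succ]
      exact (Nat.mul_dvd_mul_right h2 r).trans (h3 ▸ card_subgroup_dvd_card _)
    exact Nat.pow_succ_factorization_not_dvd Nat.card_pos.ne' hrF.out h4
  · push Not at hRK
    obtain ⟨g, hg⟩ := hRK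
    apply hg
    rw [mem_Kz]
    intro y
    have hcard : Nat.card (Nz R ⧸ Kz R) = r := by rw [← index_eq_card, hidx]
    have hg1 : ((⟨g.1, le_normalizer g.2⟩ : Nz R) : Nz R ⧸ Kz R) ≠ 1 := by
      intro h
      exact hg ((QuotientGroup.eq_one_iff _).1 h)
    have hy := mem_zpowers_of_prime_card hcard hg1
      (g' := ((⟨y.1, le_normalizer y.2⟩ : Nz R) : Nz R ⧸ Kz R))
    obtain ⟨i, hi⟩ := hy
    have hi' : ((⟨g.1, le_normalizer g.2⟩ : Nz R) ^ i)⁻¹ * (⟨y.1, le_normalizer y.2⟩ : Nz R) ∈
        Kz R := by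
      rw [← QuotientGroup.eq, QuotientGroup.mk_zpow]
      exact hi
    have h5 := congrArg Subtype.val ((mem_Kz R _).1 hi' g)
    rw [smul_val] at h5
    apply Subtype.ext
    rw [smul_val]
    have h6 : ((g : G) ^ i)⁻¹ * (y : G) * (g : G) * (((g : G) ^ i)⁻¹ * (y : G))⁻¹ = g := by
      simpa using h5
    show (g : G) * y * (g : G)⁻¹ = y
    have h7 : (y : G) * g * (y : G)⁻¹ = g := by
      have e : (y : G) * g * (y : G)⁻¹ = (g : G) ^ i *
          (((g : G) ^ i)⁻¹ * (y : G) * (g : G) * (((g : G) ^ i)⁻¹ * (y : G))⁻¹) *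
          ((g : G) ^ i)⁻¹ := by group
      rw [e, h6]
      have hc : Commute ((g : G) ^ i) (g : G) := (Commute.refl (g : G)).zpow_left i
      rw [hc.eq, mul_inv_cancel_right]
    calc (g : G) * y * (g : G)⁻¹ = ((y : G) * g * (y : G)⁻¹) * y * (g : G)⁻¹ := by rw [h7]
      _ = y := by group

end Cfsg.Agent.H17.PiC
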