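import Cfsg.Agent.H17.PiC3

set_option autoImplicit false
set_option linter.style.haveILetI false

namespace Cfsg.Agent.H17.PiC

open Subgroup Cfsg.Agent.H20

universe u

variable {G : Type u} [Group G] [Finite G]

theorem key {r : ℕ} [hrF : Fact r.Prime] (hr2 : r ≠ 2) (R : Sylow r G)
    (M : Subgroup G) [M.Normal] (hModd : Odd (Nat.card M))
    (hMidx : M.index = 2 ^ (Nat.card G).factorization 2)
    (rep : PCl r G → G) (hrep : ∀ c, ConjClasses.mk (rep c) = c.1)
    (hrepR : ∀ c, rep c ∈ (R : Subgroup G)) [Fintype (PCl r G)]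
    (hbig : 2 ^ (Nat.card G).factorization 2 * Nat.card (R : Subgroup G) <
      2 * ∑ c : PCl r G, 2 ^ (Nat.card ↥(centralizer ({rep c} : Set G))).factorization 2) :
    normalizer ((R : Subgroup G) : Set G) ≤ centralizer ((R : Subgroup G) : Set G) := by
  classical
  by_contra hcon
  obtain ⟨v, hv⟩ : ∃ v, v = (Nat.card G).factorization 2 := ⟨_, rfl⟩
  rw [← hv] at hMidx hbig
  obtain ⟨e, he⟩ : ∃ e : PCl r G → ℕ,
      e = fun c => (Nat.card ↥(centralizer ({rep c} : Set G))).factorization 2 := ⟨_, rfl⟩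
  have hbig' : 2 ^ v * Nat.card (R : Subgroup G) < 2 * ∑ c : PCl r G, 2 ^ e c := by
    rw [he]; exact hbig
  have hev : ∀ c, e c ≤ v := by
    intro c
    rw [he, hv]
    exact (Nat.factorization_le_iff_dvd Nat.card_pos.ne' Nat.card_pos.ne').2
      (card_subgroup_dvd_card _) 2
  have hr3 : 3 ≤ r := by
    have := hrF.out.two_le
    omega
  obtain ⟨ρ, hρ⟩ : ∃ ρ, ρ = Nat.card (R : Subgroup G) := ⟨_, rfl⟩
  obtain ⟨o, ho⟩ : ∃ o, o = Nat.card (MulAction.orbitRel.Quotient (Nz R) (R : Subgroup G)) :=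
    ⟨_, rfl⟩
  have hko : Nat.card (PCl r G) ≤ o := ho ▸ card_PCl_le_orbits R
  rw [← hρ] at hbig'
  have hKtop : Kz R ≠ ⊤ := by
    intro h
    apply hcon
    intro n hn
    have : (⟨n, hn⟩ : Nz R) ∈ Kz R := h ▸ mem_top _
    exact mem_subgroupOf.1 this
  have hnK : ∀ n : Nz R, n ∉ Kz R → ∃ x : (R : Subgroup G), n • x ≠ x := by
    intro n hn
    by_contra h
    push Not at h
    exact hn ((mem_Kz R n).2 h)
  have hfix : ∀ n : Nz R, n ∉ Kz R → r * Nat.card (MulAction.fixedBy (R : Subgroup G) n) ≤ ρ :=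
    fun n hn => hρ ▸ fix_le R.2 n (hnK n hn)
  have hcm := (Kz R).card_mul_index
  have hKpos : 0 < Nat.card (Kz R) := Nat.card_pos
  obtain ⟨j, hj⟩ : ∃ j, j = (Kz R).index := ⟨_, rfl⟩
  rw [← hj] at hcm
  have hj0 : j ≠ 0 := hj ▸ (Kz R).index_ne_zero_of_finite
  have hj1 : j ≠ 1 := fun h => hKtop (index_eq_one.1 (hj ▸ h))
  -- the reduced orbit inequality
  have hred : ∀ f : ℕ, (∀ n : Nz R, n ∉ Kz R →
      Nat.card (MulAction.fixedBy (R : Subgroup G) n) ≤ f) → o * j + f ≤ ρ + j * f := by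
    intro f hf
    have h1 := orbit_le (Q := (R : Subgroup G)) (Kz R) f hf
    rw [← ho, ← hρ, ← hcm] at h1
    apply Nat.le_of_mul_le_mul_left _ hKpos
    calc Nat.card (Kz R) * (o * j + f) = o * (Nat.card (Kz R) * j) + Nat.card (Kz R) * f := by ring
      _ ≤ Nat.card (Kz R) * ρ + Nat.card (Kz R) * j * f := h1
      _ = Nat.card (Kz R) * (ρ + j * f) := by ring
  have hsumle : ∑ c : PCl r G, 2 ^ e c ≤ Nat.card (PCl r G) * 2 ^ v := by
    calc ∑ c : PCl r G, 2 ^ e c ≤ ∑ _c : PCl r G, 2 ^ v :=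
          Finset.sum_le_sum (fun c _ => Nat.pow_le_pow_right (by norm_num) (hev c))
      _ = Nat.card (PCl r G) * 2 ^ v := by
          rw [Finset.sum_const, Finset.card_univ, smul_eq_mul, Nat.card_eq_fintype_card]
  by_cases hj2 : j = 2
  · -- the delicate case
    have hidx2 : (Kz R).index = 2 := by rw [← hj, hj2]
    obtain ⟨n0, hn0⟩ : ∃ n0 : Nz R, n0 ∉ Kz R := by
      by_contra h
      push Not at h
      exact hKtop (eq_top_iff.2 fun n _ => h n)
    obtain ⟨f, hf⟩ : ∃ f, f = Nat.card {x : (R : Subgroup G) // ∀ n : Nz R, n • x = x} :=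
      ⟨_, rfl⟩
    have hfixall : ∀ n : Nz R, n ∉ Kz R → ∀ x : (R : Subgroup G), n • x = x →
        ∀ n' : Nz R, n' • x = x := by
      intro n hn x hx n'
      by_cases hn' : n' ∈ Kz R
      · exact (mem_Kz R n').1 hn' x
      · have h1 : n⁻¹ * n' ∈ Kz R := by
          rw [mul_mem_iff_of_index_two hidx2, inv_mem_iff]
          exact ⟨fun h => absurd h hn, fun h => absurd h hn'⟩
        have h2 : n' = n * (n⁻¹ * n') := by group
        rw [h2, mul_smul, (mem_Kz R _).1 h1 x, hx]
    have hf1 : ∀ n : Nz R, n ∉ Kz R →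
        Nat.card (MulAction.fixedBy (R : Subgroup G) n) ≤ f := by
      intro n hn
      rw [hf]
      apply Nat.card_le_card_of_injective
        (fun x : MulAction.fixedBy (R : Subgroup G) n =>
          (⟨x.1, hfixall n hn x.1 x.2⟩ : {x : (R : Subgroup G) // ∀ n : Nz R, n • x = x}))
      intro a b hab
      apply Subtype.ext
      exact congrArg (fun z : {x : (R : Subgroup G) // ∀ n : Nz R, n • x = x} => z.1) hab
    have hf2 : r * f ≤ ρ := by
      refine le_trans (Nat.mul_le_mul_left _ ?_) (hfix n0 hn0)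
      rw [hf]
      apply Nat.card_le_card_of_injective
        (fun x : {x : (R : Subgroup G) // ∀ n : Nz R, n • x = x} =>
          (⟨x.1, x.2 n0⟩ : MulAction.fixedBy (R : Subgroup G) n0))
      intro a b hab
      apply Subtype.ext
      exact congrArg (fun z : MulAction.fixedBy (R : Subgroup G) n0 => z.1) hab
    have h2o := hred f hf1
    rw [hj2] at h2o
    -- `R` is abelian
    have hRab : (R : Subgroup G) ≤ centralizer ((R : Subgroup G) : Set G) := by
      intro x hx
      have hxN : x ∈ normalizer ((R : Subgroup G) : Set G) := le_normalizer hx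
      have h1 : (⟨x, hxN⟩ : Nz R) ^ 2 ∈ Kz R := sq_mem_of_index_two hidx2 _
      obtain ⟨k, hk⟩ := R.2 ⟨x, hx⟩
      have hk' : (⟨x, hxN⟩ : Nz R) ^ r ^ k = 1 := by
        apply Subtype.ext
        have hk2 : x ^ r ^ k = 1 := congrArg Subtype.val hk
        exact hk2
      have hodd : Odd (r ^ k) := (hrF.out.odd_of_ne_two hr2).pow
      obtain ⟨m, hm⟩ := hodd
      have h2 : (⟨x, hxN⟩ : Nz R) = (((⟨x, hxN⟩ : Nz R) ^ 2) ^ m)⁻¹ := by
        rw [hm, pow_succ, pow_mul] at hk'
        exact eq_inv_of_mul_eq_one_right hk'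
      have h3 : (⟨x, hxN⟩ : Nz R) ∈ Kz R := by
        rw [h2]; exact inv_mem (pow_mem h1 m)
      exact mem_subgroupOf.1 h3
    have hCa : ¬ 2 ^ v ∣ Nat.card ↥(centralizer ((R : Subgroup G) : Set G)) := by
      intro h
      rw [← card_Kz] at h
      have h4 : 2 ^ ((Nat.card G).factorization 2 + 1) ∣ Nat.card G := by
        rw [pow_succ, ← hv]
        rw [hj2] at hcm
        exact (Nat.mul_dvd_mul_right h 2).trans (hcm ▸ card_subgroup_dvd_card _)
      exact Nat.pow_succ_factorization_not_dvd Nat.card_pos.ne' Nat.prime_two h4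
    have hfull : ∀ c : PCl r G, e c = v → ∀ n : Nz R, n • (⟨rep c, hrepR c⟩ : (R : Subgroup G)) =
        ⟨rep c, hrepR c⟩ := by
      intro c hc
      have hdvd : 2 ^ v ∣ Nat.card ↥(centralizer ({rep c} : Set G)) := by
        rw [← hc, he]
        exact Nat.ordProj_dvd _ 2
      obtain ⟨n, hnN, hnx, hnC⟩ := full_fixed hr2 R hRab M hModd hMidx (hrepR c) hdvd hCa
      apply hfixall ⟨n, hnN⟩ (fun h => hnC (mem_subgroupOf.1 h))
      apply Subtype.ext
      rw [smul_val]
      show n * rep c * n⁻¹ = rep c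
      rw [mem_centralizer_singleton_iff.1 hnx, mul_inv_cancel_right]
    have hF : (Finset.univ.filter (fun c : PCl r G => e c = v)).card ≤ f := by
      rw [hf, ← Fintype.card_subtype, ← Nat.card_eq_fintype_card]
      apply Nat.card_le_card_of_injective
        (fun c : {c : PCl r G // e c = v} =>
          (⟨⟨rep c.1, hrepR c.1⟩, hfull c.1 c.2⟩ :
            {x : (R : Subgroup G) // ∀ n : Nz R, n • x = x}))
      intro a b hab
      have h1 : rep a.1 = rep b.1 := congrArg
        (fun z : {x : (R : Subgroup G) // ∀ n : Nz R, n • x = x} => (z.1.1 : G)) hab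
      apply Subtype.ext
      apply Subtype.ext
      rw [← hrep a.1, ← hrep b.1, h1]
    have hsum2 : 2 * ∑ c : PCl r G, 2 ^ e c ≤
        Nat.card (PCl r G) * 2 ^ v + (Finset.univ.filter (fun c : PCl r G => e c = v)).card * 2 ^ v := by
      calc 2 * ∑ c : PCl r G, 2 ^ e c = ∑ c : PCl r G, 2 * 2 ^ e c := Finset.mul_sum _ _ _
        _ ≤ ∑ c : PCl r G, (2 ^ v + if e c = v then 2 ^ v else 0) := by
            apply Finset.sum_le_sum
            intro c _
            by_cases hc : e c = v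
            · rw [if_pos hc, hc]; omega
            · rw [if_neg hc, add_zero, ← pow_succ']
              exact Nat.pow_le_pow_right (by norm_num) (by have := hev c; omega)
        _ = _ := by
            rw [Finset.sum_add_distrib, Finset.sum_const, Finset.card_univ, smul_eq_mul,
              ← Finset.sum_filter, Finset.sum_const, smul_eq_mul, Nat.card_eq_fintype_card]
    have h3f : 3 * f ≤ ρ := le_trans (Nat.mul_le_mul_right _ hr3) hf2
    have hfin : Nat.card (PCl r G) + (Finset.univ.filter (fun c : PCl r G => e c = v)).card ≤ ρ := by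
      omega
    have : 2 * ∑ c : PCl r G, 2 ^ e c ≤ 2 ^ v * ρ := by
      calc 2 * ∑ c : PCl r G, 2 ^ e c ≤ (Nat.card (PCl r G) +
            (Finset.univ.filter (fun c : PCl r G => e c = v)).card) * 2 ^ v := by
            rw [add_mul]; exact hsum2
        _ ≤ ρ * 2 ^ v := Nat.mul_le_mul_right _ hfin
        _ = 2 ^ v * ρ := mul_comm _ _
    omega
  · -- the generic case
    have hjr : j ≠ r := hj ▸ index_ne R
    obtain ⟨j', rfl⟩ : ∃ j', j = j' + 1 := ⟨j - 1, by omega⟩
    have hj'2 : 2 ≤ j' := by omega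
    have hf0 : ∀ n : Nz R, n ∉ Kz R →
        Nat.card (MulAction.fixedBy (R : Subgroup G) n) ≤ ρ / r := by
      intro n hn
      rw [Nat.le_div_iff_mul_le hrF.out.pos, mul_comm]
      exact hfix n hn
    have h1 := hred (ρ / r) hf0
    have h2 : r * (ρ / r) ≤ ρ := Nat.mul_div_le ρ r
    have h3 : 2 * (r + j') ≤ r * (j' + 1) := by
      rcases Nat.lt_or_ge j' 3 with h | h
      · have : j' = 2 := by omega
        subst this
        have : r ≠ 3 := fun h => hjr (by omega)
        omega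
      · nlinarith
    have h4 := arith h1 h2 h3 hrF.out.pos
    have : 2 * ∑ c : PCl r G, 2 ^ e c ≤ 2 ^ v * ρ := by
      calc 2 * ∑ c : PCl r G, 2 ^ e c ≤ 2 * (Nat.card (PCl r G) * 2 ^ v) :=
            Nat.mul_le_mul_left _ hsumle
        _ ≤ 2 * (o * 2 ^ v) := Nat.mul_le_mul_left _ (Nat.mul_le_mul_right _ hko)
        _ = (2 * o) * 2 ^ v := by ring
        _ ≤ ρ * 2 ^ v := Nat.mul_le_mul_right _ h4
        _ = 2 ^ v * ρ := mul_comm _ _
    omega

end Cfsg.Agent.H17.PiC
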