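import Cfsg.Agent.H17.PiC4

set_option autoImplicit false
set_option linter.style.haveILetI false

namespace Cfsg.Agent.H17.PiC

open Subgroup Cfsg.Agent.H20

universe u

variable {G : Type u} [Group G] [Finite G]

theorem inf_family (τ : Finset ℕ) (hτ : ∀ r ∈ τ, r.Prime) (Pr : Subgroup G → Prop)
    (hex : ∀ r ∈ τ, ∃ M : Subgroup G, M.Normal ∧ (∃ k : ℕ, M.index = r ^ k) ∧
      ¬ r ∣ Nat.card M ∧ Pr M) :
    ∃ N : Subgroup G, N.Normal ∧ (∀ r : ℕ, r.Prime → r ∣ Nat.card ↥N → r ∉ τ) ∧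
      (∀ r : ℕ, r.Prime → r ∣ N.index → r ∈ τ) ∧
      ∀ g : G, (∀ M : Subgroup G, M.Normal → Pr M → g ∈ M) → g ∈ N := by
  obtain ⟨S, hS⟩ : ∃ S : Set (Subgroup G), S = {M : Subgroup G | M.Normal ∧
      (∃ r ∈ τ, ∃ k : ℕ, M.index = r ^ k) ∧ Pr M} := ⟨_, rfl⟩
  have hNn : (sInf S).Normal := by
    constructor
    intro n hn g
    rw [Subgroup.mem_sInf] at hn ⊢
    intro M hM
    have hM' := hM
    rw [hS] at hM'
    exact hM'.1.conj_mem n (hn M hM) g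
  refine ⟨sInf S, hNn, ?_, ?_, ?_⟩
  · intro r hr hdvd hrτ
    obtain ⟨M, hMn, ⟨k, hk⟩, hnd, hPr⟩ := hex r hrτ
    have hMS : M ∈ S := by
      rw [hS]; exact ⟨hMn, ⟨r, hrτ, k, hk⟩, hPr⟩
    exact hnd (hdvd.trans (Subgroup.card_dvd_of_le (sInf_le hMS)))
  · intro s hs hdvd
    by_contra hsπ
    haveI := Fact.mk hs
    rw [Subgroup.index_eq_card] at hdvd
    obtain ⟨x, hx⟩ := exists_prime_orderOf_dvd_card' s hdvd
    obtain ⟨g, rfl⟩ := QuotientGroup.mk_surjective x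
    have hgs : g ^ s ∈ sInf S := by
      rw [← QuotientGroup.eq_one_iff, QuotientGroup.mk_pow, ← hx, pow_orderOf_eq_one]
    have hgN : g ∉ sInf S := by
      intro h
      rw [(QuotientGroup.eq_one_iff g).2 h, orderOf_one] at hx
      exact hs.one_lt.ne hx
    rw [Subgroup.mem_sInf] at hgN
    push Not at hgN
    obtain ⟨M, hMS, hgM⟩ := hgN
    have hM' := hMS
    rw [hS] at hM'
    obtain ⟨hMn, ⟨r, hrπ, k, hk⟩, -⟩ := hM'
    apply hgM
    have h1 : (g : G ⧸ M) ^ s = 1 := by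
      rw [← QuotientGroup.mk_pow, QuotientGroup.eq_one_iff]
      exact (sInf_le hMS) hgs
    have h2 : (g : G ⧸ M) ^ (r ^ k) = 1 := by
      rw [← hk, Subgroup.index_eq_card]
      exact pow_card_eq_one'
    have hne : s ≠ r := fun h => hsπ (h ▸ hrπ)
    have hcop : Nat.Coprime s (r ^ k) :=
      Nat.Coprime.pow_right _ ((Nat.coprime_primes hs (hτ r hrπ)).2 hne)
    have h3 := Nat.dvd_gcd (orderOf_dvd_of_pow_eq_one h1) (orderOf_dvd_of_pow_eq_one h2)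
    rw [hcop.gcd_eq_one, Nat.dvd_one, orderOf_eq_one_iff, QuotientGroup.eq_one_iff] at h3
    exact h3
  · intro g hg
    rw [Subgroup.mem_sInf]
    intro M hM
    rw [hS] at hM
    exact hg M hM.1 hM.2.2

theorem exists_abelian_complement {N : Subgroup G} (hN : N.Normal) {τ : Finset ℕ}
    (hcard : ∀ r : ℕ, r.Prime → r ∣ Nat.card ↥N → r ∉ τ)
    (hindex : ∀ r : ℕ, r.Prime → r ∣ N.index → r ∈ τ)
    (hcomm : ∀ a b : G, a * b * a⁻¹ * b⁻¹ ∈ N) :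
    ∃ H : Subgroup G, (∀ s : ℕ, s.Prime → s ∣ Nat.card H → s ∈ τ) ∧
      (∀ s : ℕ, s.Prime → s ∈ τ → ¬ s ∣ H.index) ∧ IsMulCommutative ↥H := by
  have hcop : Nat.Coprime (Nat.card ↥N) N.index :=
    Nat.coprime_of_dvd (fun k hk h1 h2 => hcard k hk h1 (hindex k hk h2))
  obtain ⟨H, hH⟩ := Subgroup.exists_right_complement'_of_coprime hcop
  refine ⟨H, ?_, ?_, ?_⟩
  · intro s hs hdvd
    rw [← hH.symm.index_eq_card] at hdvd
    exact hindex s hs hdvd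
  · intro s hs hsπ hdvd
    rw [hH.index_eq_card] at hdvd
    exact hcard s hs hdvd hsπ
  · refine ⟨⟨fun a b => ?_⟩⟩
    have h1 := hcomm a.1 b.1
    have h2 : a.1 * b.1 * a.1⁻¹ * b.1⁻¹ ∈ H :=
      H.mul_mem (H.mul_mem (H.mul_mem a.2 b.2) (H.inv_mem a.2)) (H.inv_mem b.2)
    have h3 : a.1 * b.1 * a.1⁻¹ * b.1⁻¹ = 1 := (Subgroup.IsComplement'.disjoint hH).le_bot ⟨h1, h2⟩
    apply Subtype.ext
    show a.1 * b.1 = b.1 * a.1
    calc a.1 * b.1 = (a.1 * b.1 * a.1⁻¹ * b.1⁻¹) * (b.1 * a.1) := by group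
      _ = b.1 * a.1 := by rw [h3, one_mul]

end Cfsg.Agent.H17.PiC
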