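import Mathlib
import Cfsg.Agent.H17.SelfCent2

/-! # 2-groups whose non-cyclic subgroups are self-centralizing: the converse and the statement -/

namespace Cfsg.Agent.H17.SelfCent

open Subgroup Cfsg.Agent.Tr.MC
open scoped Pointwise

universe u

/-- a four-group generated by a central involution and another involution -/
theorem exists_four {G : Type u} [Group G] [Finite G] (hP : IsPGroup 2 G) {z t : G}
    (hz : orderOf z = 2) (ht : orderOf t = 2) (hzc : z ∈ center G) (hne : t ≠ z) :
    ∃ V : Subgroup G, Nat.card V = 4 ∧ ¬ IsCyclic V := by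
  classical
  have : Fact (Nat.Prime 2) := ⟨Nat.prime_two⟩
  haveI : (zpowers z).Normal := by
    constructor
    intro n hn g
    obtain ⟨i, rfl⟩ := mem_zpowers_iff.1 hn
    have : g * z ^ i * g⁻¹ = z ^ i := by
      have h1 : z ^ i ∈ center G := (center G).zpow_mem hzc i
      rw [Subgroup.mem_center_iff.1 h1 g, mul_inv_cancel_right]
    rw [this]
    exact zpow_mem_zpowers _ _
  set V := zpowers z ⊔ zpowers t with hV
  have hzV : z ∈ V := (le_sup_left : zpowers z ≤ V) (mem_zpowers z)
  have htV : t ∈ V := (le_sup_right : zpowers t ≤ V) (mem_zpowers t)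
  have hz1 : z ≠ 1 := by rintro rfl; rw [orderOf_one] at hz; omega
  have ht1 : t ≠ 1 := by rintro rfl; rw [orderOf_one] at ht; omega
  have hle : Nat.card V ≤ 4 := by
    have h1 : Nat.card V = Nat.card ((zpowers z : Set G) * (zpowers t : Set G) : Set G) := by
      rw [← Subgroup.normal_mul]; rfl
    rw [h1]
    refine Set.natCard_mul_le.trans ?_
    have h2 : Nat.card (zpowers z : Set G) = 2 := by
      have := Nat.card_zpowers z; rw [hz] at this; exact this
    have h3 : Nat.card (zpowers t : Set G) = 2 := by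
      have := Nat.card_zpowers t; rw [ht] at this; exact this
    rw [h2, h3]
  have h3 : ({1, ⟨z, hzV⟩, ⟨t, htV⟩} : Finset V).card = 3 := by
    rw [Finset.card_eq_three]
    refine ⟨1, ⟨z, hzV⟩, ⟨t, htV⟩, ?_, ?_, ?_, rfl⟩
    · intro h; exact hz1 (congrArg Subtype.val h).symm
    · intro h; exact ht1 (congrArg Subtype.val h).symm
    · intro h; exact hne (congrArg Subtype.val h).symm
  letI : Fintype V := Fintype.ofFinite V
  have hge : 3 ≤ Nat.card V := by
    rw [← h3, Nat.card_eq_fintype_card]
    exact Finset.card_le_univ _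
  refine ⟨V, ?_, ?_⟩
  · obtain ⟨j, hj⟩ := IsPGroup.iff_card.mp (hP.to_subgroup V)
    rw [hj] at hle hge ⊢
    rcases (by omega : j ≤ 1 ∨ j = 2 ∨ 3 ≤ j) with h | rfl | h
    · have := Nat.pow_le_pow_right (show 0 < 2 by norm_num) h
      omega
    · norm_num
    · have := Nat.pow_le_pow_right (show 0 < 2 by norm_num) h
      omega
  · intro hcyc
    have h4 := IsCyclic.card_pow_eq_one_le (α := V) (n := 2) (by norm_num)
    have h5 : ({1, ⟨z, hzV⟩, ⟨t, htV⟩} : Finset V) ⊆ Finset.univ.filter (fun a : V => a ^ 2 = 1) := by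
      intro x hx
      simp only [Finset.mem_insert, Finset.mem_singleton] at hx
      simp only [Finset.mem_filter, Finset.mem_univ, true_and]
      rcases hx with rfl | rfl | rfl
      · simp
      · apply Subtype.ext
        show z ^ 2 = 1
        rw [← hz, pow_orderOf_eq_one]
      · apply Subtype.ext
        show t ^ 2 = 1
        rw [← ht, pow_orderOf_eq_one]
    have h6 := Finset.card_le_card h5
    rw [h3] at h6
    omega

theorem class_of_selfcent {G : Type u} [Group G] [Finite G] (hna : ¬ ∀ x y : G, x * y = y * x)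
    (k : ℕ) (hG : Nat.card G = 2 ^ (k + 2))
    (hprop : ∀ H : Subgroup G, ¬ IsCyclic ↥H → centralizer (H : Set G) ≤ H) :
    Group.nilpotencyClass G = k + 1 := by
  have : Fact (Nat.Prime 2) := ⟨Nat.prime_two⟩
  have hP : IsPGroup 2 G := IsPGroup.of_card hG
  by_cases huniq : ∀ x y : G, orderOf x = 2 → orderOf y = 2 → x = y
  · rcases cyclic_or_quat hP huniq with hc | ⟨j, ⟨e⟩⟩
    · exact absurd (fun x y => (IsCyclic.isMulCommutative (α := G)).is_comm.comm x y) hna
    · have hd0 := dat_quaternion (m := j + 1) (by omega)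
      rw [Nat.add_sub_cancel] at hd0
      have hd := Dat.of_equiv e hd0
      have hc := hd.card
      rw [hG] at hc
      have hjk : k + 2 = j + 1 + 1 := Nat.pow_right_injective (le_refl 2) hc
      have := Dat.nilpotencyClass (j + 1) (by omega) hd
      rw [this]; omega
  · push Not at huniq
    obtain ⟨x, y, hx, hy, hxy⟩ := huniq
    have hnt : Nontrivial G := by
      rw [← Finite.one_lt_card_iff_nontrivial, hG]
      exact Nat.one_lt_two_pow (by omega)
    have hcn := hP.center_nontrivial
    obtain ⟨j, hj0, hj⟩ := (hP.to_subgroup (center G)).nontrivial_iff_card.mp hcn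
    obtain ⟨z, hz⟩ := exists_prime_orderOf_dvd_card' (G := center G) 2
      (by rw [hj]; exact dvd_pow_self 2 hj0.ne')
    have hz' : orderOf (z : G) = 2 := by rw [Subgroup.orderOf_coe]; exact hz
    obtain ⟨t, ht, htz⟩ : ∃ t : G, orderOf t = 2 ∧ t ≠ z := by
      by_cases hxz : x = z
      · exact ⟨y, hy, fun h => hxy (hxz.trans h.symm)⟩
      · exact ⟨x, hx, hxz⟩
    obtain ⟨V, hV, hVc⟩ := exists_four hP hz' ht z.2 htz
    exact suzuki k hG V hV (hprop V hVc)

theorem main {G : Type u} [Group G] [Finite G] (hna : ¬ IsMulCommutative G) (n : ℕ)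
    (hG : Nat.card G = 2 ^ n) :
    (∀ H : Subgroup G, ¬ IsCyclic ↥H → Subgroup.centralizer (H : Set G) ≤ H) ↔
      (⊤ : Subgroup G).lowerCentralSeries (n - 2) ≠ ⊥ := by
  have : Fact (Nat.Prime 2) := ⟨Nat.prime_two⟩
  have hP : IsPGroup 2 G := IsPGroup.of_card hG
  have hnil : Group.IsNilpotent G := hP.isNilpotent
  have hna' : ¬ ∀ x y : G, x * y = y * x := fun h => hna ⟨⟨h⟩⟩
  have hn3 : 3 ≤ n := by
    by_contra hlt
    apply hna'
    rcases (by omega : n = 0 ∨ n = 1 ∨ n = 2) with rfl | rfl | rfl
    · have : Subsingleton G := (Nat.card_eq_one_iff_unique.1 (by rw [hG]; norm_num)).1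
      intro x y
      exact Subsingleton.elim _ _
    · have : IsCyclic G := isCyclic_of_prime_card (p := 2) (by rw [hG]; norm_num)
      exact fun x y => (IsCyclic.isMulCommutative (α := G)).is_comm.comm x y
    · exact fun x y => IsPGroup.commutative_of_card_eq_prime_sq (p := 2) hG x y
  obtain ⟨k, rfl⟩ : ∃ k, n = k + 3 := ⟨n - 3, by omega⟩
  have e : k + 3 - 2 = k + 1 := by omega
  rw [e, Ne, Subgroup.lowerCentralSeries_eq_bot_iff_nilpotencyClass_le]
  have hb := (class_bound (k + 1) (X := G) hG).1
  constructor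
  · intro hprop
    have := class_of_selfcent hna' (k + 1) hG hprop
    omega
  · intro hc H hH
    have hc' : Group.nilpotencyClass G = k + 2 := by omega
    obtain ⟨-, a, b, hd⟩ := dat_of_class (m := k + 2) (by omega) hG hc'
    exact selfcent_of_dat hd (by omega) H hH

end Cfsg.Agent.H17.SelfCent
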