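import Mathlib

/-! Subnormal supplements of a normal subgroup with perfect quotient (helper17). -/

set_option autoImplicit false

namespace Cfsg.Agent.H17

open Subgroup

universe u v

theorem map_inf_eq_top_of_subnormal_aux {Q : Type v} [Group Q]
    (hQ : ⁅(⊤ : Subgroup Q), (⊤ : Subgroup Q)⁆ = ⊤) :
    ∀ (n : ℕ) (G : Type u) [Group G] [Finite G], Nat.card G = n → ∀ (π : G →* Q)
      (B₁ B₂ : Subgroup G), B₁.IsSubnormal → B₂.IsSubnormal → B₁.map π = ⊤ → B₂.map π = ⊤ →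
      (B₁ ⊓ B₂).map π = ⊤ := by
  intro n
  induction n using Nat.strong_induction_on with
  | _ n ih =>
    intro G _ _ hn π B₁ B₂ h₁ h₂ e₁ e₂
    by_cases t₁ : B₁ = ⊤
    · rw [t₁, top_inf_eq]; exact e₂
    by_cases t₂ : B₂ = ⊤
    · rw [t₂, inf_top_eq]; exact e₁
    obtain ⟨N₁, hN₁, hle₁, hlt₁⟩ := h₁.exists_normal_and_le_and_lt_top_of_ne t₁
    obtain ⟨N₂, hN₂, hle₂, hlt₂⟩ := h₂.exists_normal_and_le_and_lt_top_of_ne t₂
    have f₁ : N₁.map π = ⊤ := top_le_iff.mp (e₁ ▸ map_mono hle₁)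
    have f₂ : N₂.map π = ⊤ := top_le_iff.mp (e₂ ▸ map_mono hle₂)
    have hcard : ∀ N : Subgroup G, N < ⊤ → Nat.card ↥N < n := by
      intro N hN
      rw [← hn, ← card_top (G := G)]
      exact Set.ncard_lt_ncard hN (Set.toFinite _)
    have fa : (N₂ ⊓ N₁).map π = ⊤ := by
      apply top_le_iff.mp
      calc (⊤ : Subgroup Q) = ⁅(⊤ : Subgroup Q), (⊤ : Subgroup Q)⁆ := hQ.symm
        _ = ⁅N₂.map π, N₁.map π⁆ := by rw [f₁, f₂]
        _ = (⁅N₂, N₁⁆).map π := (map_commutator N₂ N₁ π).symm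
        _ ≤ (N₂ ⊓ N₁).map π := map_mono (commutator_le_inf N₂ N₁)
    -- generic use of the induction hypothesis inside a proper subgroup `N`
    have key : ∀ N : Subgroup G, N < ⊤ → ∀ C₁ C₂ : Subgroup G, C₁.IsSubnormal → C₂.IsSubnormal →
        (C₁ ⊓ N).map π = ⊤ → (C₂ ⊓ N).map π = ⊤ → (C₁ ⊓ C₂).map π = ⊤ := by
      intro N hN C₁ C₂ s₁ s₂ g₁ g₂
      have := ih _ (hcard N hN) ↥N rfl (π.comp N.subtype) (C₁.subgroupOf N) (C₂.subgroupOf N)
        s₁.subgroupOf s₂.subgroupOf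
        (by rw [← Subgroup.map_map, subgroupOf_map_subtype]; exact g₁)
        (by rw [← Subgroup.map_map, subgroupOf_map_subtype]; exact g₂)
      have e : C₁.subgroupOf N ⊓ C₂.subgroupOf N = (C₁ ⊓ C₂).subgroupOf N := rfl
      rw [e, ← Subgroup.map_map, subgroupOf_map_subtype] at this
      exact top_le_iff.mp (this ▸ map_mono inf_le_left)
    have fb : (B₁ ⊓ N₂).map π = ⊤ :=
      key N₁ hlt₁ B₁ N₂ h₁ hN₂.isSubnormal (by rw [inf_eq_left.mpr hle₁]; exact e₁) fa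
    have fc : (B₂ ⊓ (B₁ ⊓ N₂)).map π = ⊤ :=
      key N₂ hlt₂ B₂ (B₁ ⊓ N₂) h₂ (h₁.inf hN₂.isSubnormal)
        (by rw [inf_eq_left.mpr hle₂]; exact e₂)
        (by rw [inf_assoc, inf_idem]; exact fb)
    apply top_le_iff.mp
    rw [← fc]
    apply map_mono
    exact le_inf (inf_le_right.trans inf_le_left) inf_le_left

theorem map_mk'_eq_top_iff {G : Type*} [Group G] (D : Subgroup G) [D.Normal] (B : Subgroup G) :
    B.map (QuotientGroup.mk' D) = ⊤ ↔ B ⊔ D = ⊤ := by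
  constructor
  · intro h
    have := comap_map_eq (QuotientGroup.mk' D) B
    rw [h, comap_top, QuotientGroup.ker_mk'] at this
    exact this.symm
  · intro h
    have h1 : (B ⊔ D).map (QuotientGroup.mk' D) = ⊤ := by
      rw [h, map_top_of_surjective _ (QuotientGroup.mk'_surjective D)]
    rw [Subgroup.map_sup] at h1
    have h2 : D.map (QuotientGroup.mk' D) = ⊥ := by
      rw [eq_bot_iff, map_le_iff_le_comap, MonoidHom.comap_bot, QuotientGroup.ker_mk']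
    rwa [h2, sup_bot_eq] at h1

theorem exists_least_subnormal_supplement {G : Type*} [Group G] [Finite G] (D : Subgroup G)
    [D.Normal] (hperf : ⁅(⊤ : Subgroup G), (⊤ : Subgroup G)⁆ ⊔ D = ⊤) :
    ∃ B : Subgroup G, B.Normal ∧ B ⊔ D = ⊤ ∧
      ∀ B' : Subgroup G, B'.IsSubnormal → B' ⊔ D = ⊤ → B ≤ B' := by
  have hQ : ⁅(⊤ : Subgroup (G ⧸ D)), (⊤ : Subgroup (G ⧸ D))⁆ = ⊤ := by
    have h1 := (map_mk'_eq_top_iff D _).mpr hperf
    rw [map_commutator, map_top_of_surjective _ (QuotientGroup.mk'_surjective D)] at h1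
    exact h1
  set 𝔅 : Set (Subgroup G) := {B | B.IsSubnormal ∧ B ⊔ D = ⊤} with h𝔅
  have hinf : InfClosed 𝔅 := by
    intro B₁ h₁ B₂ h₂
    refine ⟨h₁.1.inf h₂.1, ?_⟩
    rw [← map_mk'_eq_top_iff]
    exact map_inf_eq_top_of_subnormal_aux hQ _ G rfl _ B₁ B₂ h₁.1 h₂.1
      ((map_mk'_eq_top_iff D _).mpr h₁.2) ((map_mk'_eq_top_iff D _).mpr h₂.2)
  have hne : 𝔅.Nonempty := ⟨⊤, IsSubnormal.top, top_sup_eq _⟩
  have hmem : sInf 𝔅 ∈ 𝔅 := hinf.sInf_mem_of_nonempty (Set.toFinite _) hne subset_rfl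
  have hleast : ∀ B' : Subgroup G, B'.IsSubnormal → B' ⊔ D = ⊤ → sInf 𝔅 ≤ B' :=
    fun B' h1 h2 => sInf_le ⟨h1, h2⟩
  refine ⟨sInf 𝔅, ?_, hmem.2, hleast⟩
  have hconj : ∀ g : G, sInf 𝔅 ≤ (sInf 𝔅).map (MulAut.conj g).toMonoidHom := by
    intro g
    apply hleast
    · exact hmem.1.map (MulAut.conj g).surjective
    · have h1 : D.map (MulAut.conj g).toMonoidHom = D := Normal.map_conj_eq D g
      have h2 : ((sInf 𝔅) ⊔ D).map (MulAut.conj g).toMonoidHom = ⊤ := by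
        rw [hmem.2, map_top_of_surjective _ (MulAut.conj g).surjective]
      rwa [Subgroup.map_sup, h1] at h2
  constructor
  intro n hn g
  obtain ⟨b, hb, hbn⟩ := hconj g⁻¹ hn
  have : g * n * g⁻¹ = b := by
    rw [← hbn]
    simp [mul_assoc]
  rw [this]
  exact hb

end Cfsg.Agent.H17
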