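import Cfsg.Agent.H17.SylNum2

set_option autoImplicit false

/-! `n_3 = 22`: basic facts on intersections of Sylow 3-subgroups and "lines". -/

namespace Cfsg.Agent.H17.Syl22

open Subgroup MulAction Cfsg.Agent.H17.SylNum
open scoped Pointwise

universe u

section general

variable {H : Type*} [Group H] {X : Type*} [MulAction H X] [Finite X]

/-- if all orbits in an invariant set have length divisible by `m`, so has the set. -/
theorem dvd_ncard_of_orbits (m : ℕ) : ∀ (n : ℕ) (A : Set X), A.ncard = n →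
    (∀ h : H, ∀ a ∈ A, h • a ∈ A) → (∀ a ∈ A, m ∣ (orbit H a).ncard) → m ∣ A.ncard := by
  intro n
  induction n using Nat.strong_induction_on with
  | _ n IH =>
    intro A hn hA hm
    rcases A.eq_empty_or_nonempty with rfl | ⟨a, ha⟩
    · simp
    have hsub : orbit H a ⊆ A := by
      rintro _ ⟨h, rfl⟩
      exact hA h a ha
    have h1 : (A \ orbit H a).ncard + (orbit H a).ncard = A.ncard :=
      Set.ncard_diff_add_ncard_of_subset hsub (Set.toFinite _)
    have hpos : 0 < (orbit H a).ncard := by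
      rw [Set.ncard_pos (Set.toFinite _)]
      exact ⟨a, mem_orbit_self a⟩
    have h2 : m ∣ (A \ orbit H a).ncard := by
      apply IH (A \ orbit H a).ncard (by omega) _ rfl
      · intro h b hb
        refine ⟨hA h b hb.1, fun hcon => hb.2 ?_⟩
        obtain ⟨k, hk⟩ := hcon
        refine ⟨h⁻¹ * k, ?_⟩
        change (h⁻¹ * k) • a = b
        have hk' : k • a = h • b := hk
        rw [mul_smul, hk', inv_smul_smul]
      · intro b hb
        exact hm b hb.1
    rw [← h1]
    exact dvd_add h2 (hm a ha)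

end general

variable {G : Type u} [Group G] [Finite G]

theorem card_orbit_mul_card_inf {p : ℕ} [Fact p.Prime] (P Q : Sylow p G) :
    (orbit (P : Subgroup G) Q).ncard * Nat.card ((P : Subgroup G) ⊓ Q : Subgroup G) = Nat.card P := by
  have h1 : (orbit (P : Subgroup G) Q).ncard * Nat.card (stabilizer (P : Subgroup G) Q)
      = Nat.card (P : Subgroup G) := by
    rw [← index_stabilizer, mul_comm, Subgroup.card_mul_index]
  have h2 : stabilizer (P : Subgroup G) Q = ((P : Subgroup G) ⊓ Q).subgroupOf P := by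
    ext x
    rw [mem_stabilizer_iff, Subgroup.mem_subgroupOf, ← P.2.inf_normalizer_sylow Q, Subgroup.mem_inf]
    constructor
    · intro h
      exact ⟨x.2, Sylow.smul_eq_iff_mem_normalizer.mp h⟩
    · intro h
      exact Sylow.smul_eq_iff_mem_normalizer.mpr h.2
  rw [h2, Nat.card_congr (Subgroup.subgroupOfEquivOfLe inf_le_left).toEquiv] at h1
  exact h1

theorem card_smul_inf {p : ℕ} (g : G) (X Y : Sylow p G) :
    Nat.card (((g • X : Sylow p G) : Subgroup G) ⊓ (g • Y : Sylow p G) : Subgroup G)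
      = Nat.card ((X : Subgroup G) ⊓ Y : Subgroup G) := by
  rw [Sylow.coe_subgroup_smul, Sylow.coe_subgroup_smul, ← Subgroup.smul_inf]
  exact (Nat.card_congr (Subgroup.equivSMul (MulAut.conj g) ((X : Subgroup G) ⊓ Y)).toEquiv).symm

local instance : Fact (Nat.Prime 3) := ⟨by norm_num⟩

/-- neighbours: intersection of index 3. -/
def IsNb (X Y : Sylow 3 G) : Prop := 3 * Nat.card ((X : Subgroup G) ⊓ Y : Subgroup G) = Nat.card X

/-- far pairs: intersection of index 9. -/
def IsFar (X Y : Sylow 3 G) : Prop := 9 * Nat.card ((X : Subgroup G) ⊓ Y : Subgroup G) = Nat.card X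

theorem IsNb.ne {X Y : Sylow 3 G} (h : IsNb X Y) : X ≠ Y := by
  rintro rfl
  unfold IsNb at h
  rw [inf_idem] at h
  have : 0 < Nat.card (X : Subgroup G) := Nat.card_pos
  have h' : 3 * Nat.card (X : Subgroup G) = Nat.card (X : Subgroup G) := h
  omega

theorem IsFar.ne {X Y : Sylow 3 G} (h : IsFar X Y) : X ≠ Y := by
  rintro rfl
  unfold IsFar at h
  rw [inf_idem] at h
  have : 0 < Nat.card (X : Subgroup G) := Nat.card_pos
  have h' : 9 * Nat.card (X : Subgroup G) = Nat.card (X : Subgroup G) := h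
  omega

theorem IsNb.symm {X Y : Sylow 3 G} (h : IsNb X Y) : IsNb Y X := by
  unfold IsNb at *
  rw [inf_comm, h, card_sylow_eq X Y]

theorem IsFar.symm {X Y : Sylow 3 G} (h : IsFar X Y) : IsFar Y X := by
  unfold IsFar at *
  rw [inf_comm, h, card_sylow_eq X Y]

theorem IsNb.smul {X Y : Sylow 3 G} (h : IsNb X Y) (g : G) : IsNb (g • X) (g • Y) := by
  unfold IsNb at *
  rw [card_smul_inf, h, card_sylow_eq X (g • X)]

theorem IsFar.smul {X Y : Sylow 3 G} (h : IsFar X Y) (g : G) : IsFar (g • X) (g • Y) := by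
  unfold IsFar at *
  rw [card_smul_inf, h, card_sylow_eq X (g • X)]

theorem not_nb_of_far {X Y : Sylow 3 G} (h : IsFar X Y) : ¬ IsNb X Y := by
  intro h'
  unfold IsNb at h'
  unfold IsFar at h
  have : 0 < Nat.card ((X : Subgroup G) ⊓ Y : Subgroup G) := Nat.card_pos
  omega

theorem ncard_orbit_cases (hc : Nat.card (Sylow 3 G) = 22) {X Y : Sylow 3 G} (hXY : X ≠ Y) :
    (orbit (X : Subgroup G) Y).ncard = 3 ∨ (orbit (X : Subgroup G) Y).ncard = 9 := by
  obtain ⟨n, hn⟩ := X.2.card_orbit Y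
  rw [Nat.card_coe_set_eq] at hn
  have hle : (orbit (X : Subgroup G) Y).ncard ≤ 22 := by
    rw [← hc, ← Set.ncard_univ]
    exact Set.ncard_le_ncard (Set.subset_univ _) (Set.toFinite _)
  rcases n with _ | _ | _ | n
  · exfalso
    rw [pow_zero, Set.ncard_eq_one] at hn
    obtain ⟨a, ha⟩ := hn
    apply hXY
    apply eq_of_le_normalizer
    intro x hx
    apply Sylow.smul_eq_iff_mem_normalizer.mp
    have h1 : (⟨x, hx⟩ : (X : Subgroup G)) • Y ∈ orbit (X : Subgroup G) Y := mem_orbit _ _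
    have h2 : Y ∈ orbit (X : Subgroup G) Y := mem_orbit_self _
    rw [ha, Set.mem_singleton_iff] at h1 h2
    exact h1.trans h2.symm
  · left; simpa using hn
  · right; simpa using hn
  · exfalso
    rw [hn] at hle
    have : 3 ^ 3 ≤ 3 ^ (n + 1 + 1 + 1) := Nat.pow_le_pow_right (by norm_num) (by omega)
    omega

theorem nb_or_far (hc : Nat.card (Sylow 3 G) = 22) {X Y : Sylow 3 G} (hXY : X ≠ Y) :
    IsNb X Y ∨ IsFar X Y := by
  have h := card_orbit_mul_card_inf X Y
  rcases ncard_orbit_cases hc hXY with h1 | h1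
  · left; rw [h1] at h; exact h
  · right; rw [h1] at h; exact h

theorem IsNb.ncard_orbit {X Y : Sylow 3 G} (h : IsNb X Y) : (orbit (X : Subgroup G) Y).ncard = 3 := by
  have h1 := card_orbit_mul_card_inf X Y
  unfold IsNb at h
  rw [← h] at h1
  exact Nat.eq_of_mul_eq_mul_right Nat.card_pos h1

theorem IsFar.ncard_orbit {X Y : Sylow 3 G} (h : IsFar X Y) : (orbit (X : Subgroup G) Y).ncard = 9 := by
  have h1 := card_orbit_mul_card_inf X Y
  unfold IsFar at h
  rw [← h] at h1
  exact Nat.eq_of_mul_eq_mul_right Nat.card_pos h1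

/-- `X ⊓ Y` is normalised by `X` for neighbours. -/
theorem IsNb.conj_mem {X Y : Sylow 3 G} (h : IsNb X Y)
    {d u : G} (hd : d ∈ (X : Subgroup G) ⊓ Y) (hu : u ∈ X) : u * d * u⁻¹ ∈ (X : Subgroup G) ⊓ Y := by
  have h1 : 3 * Nat.card ((X : Subgroup G) ⊓ Y : Subgroup G) = Nat.card X := h
  have hidx : (((X : Subgroup G) ⊓ Y).subgroupOf X).index = 3 := by
    have h2 := Subgroup.card_mul_index (((X : Subgroup G) ⊓ Y).subgroupOf X)
    rw [Nat.card_congr (Subgroup.subgroupOfEquivOfLe inf_le_left).toEquiv] at h2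
    have h3 : 0 < Nat.card ((X : Subgroup G) ⊓ Y : Subgroup G) := Nat.card_pos
    have h4 : Nat.card ((X : Subgroup G) ⊓ Y : Subgroup G) * (((X : Subgroup G) ⊓ Y).subgroupOf X).index
        = Nat.card ((X : Subgroup G) ⊓ Y : Subgroup G) * 3 := by
      rw [h2, mul_comm]; exact h1.symm
    exact Nat.eq_of_mul_eq_mul_left h3 h4
  have hmin : (Nat.card (X : Subgroup G)).minFac = 3 := by
    obtain ⟨k, hk⟩ := IsPGroup.iff_card.mp X.2
    rw [hk]
    apply Nat.Prime.pow_minFac (by norm_num)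
    rintro rfl
    rw [pow_zero] at hk
    have : Nat.card X = 1 := hk
    omega
  have hn : (((X : Subgroup G) ⊓ Y).subgroupOf X).Normal :=
    Subgroup.normal_of_index_eq_minFac_card (by rw [hidx, hmin])
  have := hn.conj_mem ⟨d, hd.1⟩ (by rw [Subgroup.mem_subgroupOf]; exact hd) ⟨u, hu⟩
  rw [Subgroup.mem_subgroupOf] at this
  exact this

end Cfsg.Agent.H17.Syl22
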