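import Cfsg.Agent.H17.Syl22a

set_option autoImplicit false

/-! `n_3 = 22`: lines. -/

namespace Cfsg.Agent.H17.Syl22

open Subgroup MulAction Cfsg.Agent.H17.SylNum
open scoped Pointwise

universe u

variable {G : Type u} [Group G] [Finite G]

local instance : Fact (Nat.Prime 3) := ⟨by norm_num⟩

/-- the Sylow subgroups containing `D`. -/
def line (D : Subgroup G) : Set (Sylow 3 G) := {Z | D ≤ Z}

theorem mem_line {D : Subgroup G} {Z : Sylow 3 G} : Z ∈ line D ↔ D ≤ Z := Iff.rfl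

theorem line_inf (hc : Nat.card (Sylow 3 G) = 22) {X Y : Sylow 3 G} (h : IsNb X Y) {Z Z' : Sylow 3 G}
    (hZ : Z ∈ line ((X : Subgroup G) ⊓ Y)) (hZ' : Z' ∈ line ((X : Subgroup G) ⊓ Y)) (hne : Z ≠ Z') :
    (Z : Subgroup G) ⊓ Z' = (X : Subgroup G) ⊓ Y ∧ IsNb Z Z' := by
  have hle : (X : Subgroup G) ⊓ Y ≤ (Z : Subgroup G) ⊓ Z' := le_inf hZ hZ'
  have hcl := Subgroup.card_le_of_le hle
  have h1 : 3 * Nat.card ((X : Subgroup G) ⊓ Y : Subgroup G) = Nat.card X := h
  have h2 := card_sylow_eq X Z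
  rcases nb_or_far hc hne with h3 | h3
  · refine ⟨(Subgroup.eq_of_le_of_card_ge hle ?_).symm, h3⟩
    have h4 : 3 * Nat.card ((Z : Subgroup G) ⊓ Z' : Subgroup G) = Nat.card Z := h3
    omega
  · exfalso
    have h4 : 9 * Nat.card ((Z : Subgroup G) ⊓ Z' : Subgroup G) = Nat.card Z := h3
    have : 0 < Nat.card ((Z : Subgroup G) ⊓ Z' : Subgroup G) := Nat.card_pos
    omega

theorem left_mem_line (X Y : Sylow 3 G) : X ∈ line ((X : Subgroup G) ⊓ Y) :=
  mem_line.mpr inf_le_left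
theorem right_mem_line (X Y : Sylow 3 G) : Y ∈ line ((X : Subgroup G) ⊓ Y) :=
  mem_line.mpr inf_le_right

theorem line_conj_mem (hc : Nat.card (Sylow 3 G) = 22) {X Y : Sylow 3 G} (h : IsNb X Y)
    {Z : Sylow 3 G} (hZ : Z ∈ line ((X : Subgroup G) ⊓ Y)) {d u : G}
    (hd : d ∈ (X : Subgroup G) ⊓ Y) (hu : u ∈ Z) : u * d * u⁻¹ ∈ (X : Subgroup G) ⊓ Y := by
  by_cases hZX : Z = X
  · subst hZX
    exact h.conj_mem hd hu
  · obtain ⟨h1, h2⟩ := line_inf hc h hZ (left_mem_line X Y) hZX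
    rw [← h1] at hd ⊢
    exact h2.conj_mem hd hu

theorem line_smul_mem (hc : Nat.card (Sylow 3 G) = 22) {X Y : Sylow 3 G} (h : IsNb X Y)
    {Z W : Sylow 3 G} (hZ : Z ∈ line ((X : Subgroup G) ⊓ Y)) (hW : W ∈ line ((X : Subgroup G) ⊓ Y))
    {u : G} (hu : u ∈ Z) : u • W ∈ line ((X : Subgroup G) ⊓ Y) := by
  intro d hd
  change d ∈ (u • W : Sylow 3 G)
  rw [mem_smul_iff]
  have := line_conj_mem hc h hZ hd (inv_mem hu)
  rw [inv_inv] at this
  exact hW this

theorem line_ncard (hc : Nat.card (Sylow 3 G) = 22) {X Y : Sylow 3 G} (h : IsNb X Y) :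
    (line ((X : Subgroup G) ⊓ Y)).ncard % 3 = 1 ∧ 4 ≤ (line ((X : Subgroup G) ⊓ Y)).ncard := by
  have h1 := ncard_modEq_fixed (H := (X : Subgroup G)) (X := Sylow 3 G) X.2
    (line ((X : Subgroup G) ⊓ Y)) (fun u W hW => line_smul_mem hc h (left_mem_line X Y) hW u.2)
  have h2 : line ((X : Subgroup G) ⊓ Y) ∩ fixedPoints (X : Subgroup G) (Sylow 3 G) = {X} := by
    ext Q
    constructor
    · rintro ⟨_, hfix⟩
      rw [Set.mem_singleton_iff]
      symm
      apply eq_of_le_normalizer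
      intro x hx
      exact Sylow.smul_eq_iff_mem_normalizer.mp (hfix ⟨x, hx⟩)
    · rintro rfl
      exact ⟨left_mem_line _ _, fun x => Sylow.smul_eq_iff_mem_normalizer.mpr (le_normalizer x.2)⟩
  rw [h2, Set.ncard_singleton] at h1
  have h3 : 2 ≤ (line ((X : Subgroup G) ⊓ Y)).ncard := by
    have hsub : ({X, Y} : Set (Sylow 3 G)) ⊆ line ((X : Subgroup G) ⊓ Y) := by
      intro Q hQ
      rcases hQ with rfl | rfl
      · exact left_mem_line _ _
      · exact right_mem_line _ _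
    have := Set.ncard_le_ncard hsub (Set.toFinite _)
    rwa [Set.ncard_pair h.ne] at this
  unfold Nat.ModEq at h1
  constructor <;> omega

theorem le_normalizer_of_line (hc : Nat.card (Sylow 3 G) = 22) {X Y : Sylow 3 G} (h : IsNb X Y)
    {Z : Sylow 3 G} (hZ : Z ∈ line ((X : Subgroup G) ⊓ Y)) :
    (Z : Subgroup G) ≤ normalizer (((X : Subgroup G) ⊓ Y : Subgroup G) : Set G) := by
  intro u hu
  rw [mem_normalizer_iff]
  intro d
  constructor
  · intro hd
    exact line_conj_mem hc h hZ hd hu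
  · intro hd
    have := line_conj_mem hc h hZ hd (inv_mem hu)
    have e : u⁻¹ * (u * d * u⁻¹) * u⁻¹⁻¹ = d := by group
    rwa [e] at this

theorem smul_mem_line_of_normalizer {D : Subgroup G} {n : G} (hn : n ∈ normalizer (D : Set G))
    {Z : Sylow 3 G} (hZ : Z ∈ line D) : n • Z ∈ line D := by
  intro d hd
  change d ∈ (n • Z : Sylow 3 G)
  rw [mem_smul_iff]
  apply hZ
  have := (mem_normalizer_iff.mp (inv_mem hn) d).mp hd
  rwa [inv_inv] at this

theorem line_trans (hc : Nat.card (Sylow 3 G) = 22) {X Y : Sylow 3 G} (h : IsNb X Y)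
    {Z W : Sylow 3 G} (hZ : Z ∈ line ((X : Subgroup G) ⊓ Y)) (hW : W ∈ line ((X : Subgroup G) ⊓ Y)) :
    ∃ n ∈ normalizer (((X : Subgroup G) ⊓ Y : Subgroup G) : Set G), n • Z = W := by
  have hZN := le_normalizer_of_line hc h hZ
  have hWN := le_normalizer_of_line hc h hW
  obtain ⟨n, hn⟩ := MulAction.exists_smul_eq
    (normalizer (((X : Subgroup G) ⊓ Y : Subgroup G) : Set G)) (Z.subtype hZN) (W.subtype hWN)
  refine ⟨n, n.2, ?_⟩
  rw [Sylow.smul_subtype] at hn
  exact Sylow.subtype_injective hn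

theorem card_normalizer_line (hc : Nat.card (Sylow 3 G) = 22) {X Y : Sylow 3 G} (h : IsNb X Y) :
    Nat.card (normalizer (((X : Subgroup G) ⊓ Y : Subgroup G) : Set G))
      = (line ((X : Subgroup G) ⊓ Y)).ncard *
        Nat.card (normalizer (X : Set G) ⊓ normalizer (((X : Subgroup G) ⊓ Y : Subgroup G) : Set G)
          : Subgroup G) := by
  obtain ⟨N, hN⟩ : ∃ N : Subgroup G, N = normalizer (((X : Subgroup G) ⊓ Y : Subgroup G) : Set G) :=
    ⟨_, rfl⟩
  rw [← hN]
  have h1 : (orbit N X).ncard * Nat.card (stabilizer N X) = Nat.card N := by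
    rw [← index_stabilizer, mul_comm, Subgroup.card_mul_index]
  have h2 : orbit N X = line ((X : Subgroup G) ⊓ Y) := by
    ext Z
    constructor
    · rintro ⟨n, rfl⟩
      exact smul_mem_line_of_normalizer (hN ▸ n.2) (left_mem_line X Y)
    · intro hZ
      obtain ⟨n, hn, hnZ⟩ := line_trans hc h (left_mem_line X Y) hZ
      exact ⟨⟨n, hN ▸ hn⟩, hnZ⟩
  have h3 : stabilizer N X = (normalizer (X : Set G) ⊓ N).subgroupOf N := by
    ext x
    rw [mem_stabilizer_iff, Subgroup.mem_subgroupOf, Subgroup.mem_inf]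
    constructor
    · intro hx
      exact ⟨Sylow.smul_eq_iff_mem_normalizer.mp hx, x.2⟩
    · intro hx
      exact Sylow.smul_eq_iff_mem_normalizer.mpr hx.1
  rw [h2, h3, Nat.card_congr (Subgroup.subgroupOfEquivOfLe inf_le_right).toEquiv] at h1
  exact h1.symm

/-- closed neighbourhood. -/
def cl (X : Sylow 3 G) : Set (Sylow 3 G) := {Z | Z = X ∨ IsNb X Z}

theorem self_mem_cl (X : Sylow 3 G) : X ∈ cl X := Or.inl rfl

theorem smul_cl (g : G) (X : Sylow 3 G) : g • cl X = cl (g • X) := by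
  ext Z
  rw [Set.mem_smul_set_iff_inv_smul_mem]
  constructor
  · rintro (h | h)
    · left
      rw [← h, smul_inv_smul]
    · right
      have := h.smul g
      rwa [smul_inv_smul] at this
  · rintro (h | h)
    · left
      rw [h, inv_smul_smul]
    · right
      have := h.smul g⁻¹
      rwa [inv_smul_smul] at this

theorem cl_block (hc : Nat.card (Sylow 3 G) = 22) {P : Sylow 3 G} (h : ∀ W ∈ cl P, cl W = cl P) :
    (cl P).ncard ∣ 22 := by
  have hB : IsBlock G (cl P) := by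
    rw [isBlock_iff_smul_eq_or_disjoint]
    intro g
    by_cases hd : Disjoint (g • cl P) (cl P)
    · exact Or.inr hd
    · left
      rw [Set.not_disjoint_iff] at hd
      obtain ⟨Z, hZ1, hZ2⟩ := hd
      have h1 : cl Z = cl P := h Z hZ2
      have h2 : g⁻¹ • Z ∈ cl P := Set.mem_smul_set_iff_inv_smul_mem.mp hZ1
      have h3 : cl (g⁻¹ • Z) = cl P := h _ h2
      rw [← h3, smul_cl, smul_inv_smul, h1, h3]
  have := hB.ncard_dvd_card ⟨P, self_mem_cl P⟩
  rwa [hc] at this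

end Cfsg.Agent.H17.Syl22
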