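import Cfsg.Agent.H17.Syl22b

set_option autoImplicit false

/-! `n_3 = 22`: counting neighbours; the cases with 18 or 0 far points. -/

namespace Cfsg.Agent.H17.Syl22

open Subgroup MulAction Cfsg.Agent.H17.SylNum
open scoped Pointwise

universe u

variable {G : Type u} [Group G] [Finite G]

local instance : Fact (Nat.Prime 3) := ⟨by norm_num⟩
local instance : Fact (Nat.Prime 2) := ⟨by norm_num⟩

def nb (X : Sylow 3 G) : Set (Sylow 3 G) := {Y | IsNb X Y}
def far (X : Sylow 3 G) : Set (Sylow 3 G) := {Y | IsFar X Y}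

theorem smul_self' {X : Sylow 3 G} {u : G} (hu : u ∈ X) : u • X = X :=
  Sylow.smul_eq_iff_mem_normalizer.mpr (le_normalizer hu)

theorem ncard_compl_singleton (hc : Nat.card (Sylow 3 G) = 22) (P : Sylow 3 G) :
    ({P}ᶜ : Set (Sylow 3 G)).ncard = 21 := by
  have := Set.ncard_add_ncard_compl ({P} : Set (Sylow 3 G))
  rw [Set.ncard_singleton, hc] at this
  omega

theorem ncard_nb_add_far (hc : Nat.card (Sylow 3 G) = 22) (X : Sylow 3 G) :
    (nb X).ncard + (far X).ncard = 21 := by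
  rw [← ncard_compl_singleton hc X, ← Set.ncard_union_eq _ (Set.toFinite _) (Set.toFinite _)]
  · congr 1
    ext Y
    constructor
    · rintro (h | h)
      · exact fun e => h.ne (Eq.symm e)
      · exact fun e => h.ne (Eq.symm e)
    · intro h
      exact nb_or_far hc (fun e => h (Eq.symm e))
  · rw [Set.disjoint_left]
    intro Y h1 h2
    exact not_nb_of_far h2 h1

theorem nine_dvd_far (X : Sylow 3 G) : 9 ∣ (far X).ncard := by
  apply dvd_ncard_of_orbits (H := (X : Subgroup G)) 9 _ (far X) rfl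
  · intro u Y hY
    have : IsFar ((u : G) • X) ((u : G) • Y) := IsFar.smul hY u
    rwa [smul_self' u.2] at this
  · intro Y hY
    rw [IsFar.ncard_orbit hY]

theorem far_smul (g : G) (X : Sylow 3 G) : far (g • X) = (fun Y => g • Y) '' far X := by
  ext Z
  constructor
  · intro h
    refine ⟨g⁻¹ • Z, ?_, smul_inv_smul g Z⟩
    have := IsFar.smul h g⁻¹
    rwa [inv_smul_smul] at this
  · rintro ⟨Y, hY, rfl⟩
    exact IsFar.smul hY g

theorem ncard_far_eq (X X' : Sylow 3 G) : (far X).ncard = (far X').ncard := by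
  obtain ⟨g, rfl⟩ := MulAction.exists_smul_eq G X X'
  rw [far_smul]
  exact (Set.ncard_image_of_injective _ (MulAction.injective g)).symm

theorem ncard_cl (X : Sylow 3 G) : (cl X).ncard = (nb X).ncard + 1 := by
  have : cl X = insert X (nb X) := by
    ext Z
    rfl
  have hn : X ∉ nb X := fun h => IsNb.ne (X := X) (Y := X) h rfl
  rw [this, Set.ncard_insert_of_notMem hn (Set.toFinite _)]

theorem line_subset_cl (hc : Nat.card (Sylow 3 G) = 22) {X Y : Sylow 3 G} (h : IsNb X Y)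
    {Z : Sylow 3 G} (hZ : Z ∈ line ((X : Subgroup G) ⊓ Y)) : line ((X : Subgroup G) ⊓ Y) ⊆ cl Z := by
  intro W hW
  by_cases e : W = Z
  · exact Or.inl e
  · exact Or.inr (line_inf hc h hZ hW (Ne.symm e)).2

/-- the case of 18 far points is impossible. -/
theorem far_ne_eighteen (hc : Nat.card (Sylow 3 G) = 22) (P : Sylow 3 G) : (far P).ncard ≠ 18 := by
  intro h18
  have hcl : ∀ Z : Sylow 3 G, (cl Z).ncard = 4 := by
    intro Z
    have h1 := ncard_nb_add_far hc Z
    rw [ncard_far_eq Z P, h18] at h1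
    rw [ncard_cl]
    omega
  have hline : ∀ X Y : Sylow 3 G, IsNb X Y → ∀ Z ∈ line ((X : Subgroup G) ⊓ Y),
      line ((X : Subgroup G) ⊓ Y) = cl Z := by
    intro X Y h Z hZ
    apply Set.eq_of_subset_of_ncard_le (line_subset_cl hc h hZ) _ (Set.toFinite _)
    rw [hcl]
    exact (line_ncard hc h).2
  have := cl_block hc (P := P) (by
    intro W hW
    rcases hW with rfl | hW
    · rfl
    · rw [← hline P W hW W (right_mem_line P W), ← hline P W hW P (left_mem_line P W)])
  rw [hcl] at this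
  norm_num at this

theorem line_smul_eq (g : G) (X Y : Sylow 3 G) :
    line (((g • X : Sylow 3 G) : Subgroup G) ⊓ (g • Y : Sylow 3 G)) =
      (fun Z => g • Z) '' line ((X : Subgroup G) ⊓ Y) := by
  ext Z
  constructor
  · intro h
    refine ⟨g⁻¹ • Z, ?_, smul_inv_smul g Z⟩
    intro d hd
    change d ∈ (g⁻¹ • Z : Sylow 3 G)
    rw [mem_smul_iff, inv_inv]
    apply h
    constructor
    · change g * d * g⁻¹ ∈ (g • X : Sylow 3 G)
      rw [mem_smul_iff]
      have e : g⁻¹ * (g * d * g⁻¹) * g = d := by group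
      rw [e]; exact hd.1
    · change g * d * g⁻¹ ∈ (g • Y : Sylow 3 G)
      rw [mem_smul_iff]
      have e : g⁻¹ * (g * d * g⁻¹) * g = d := by group
      rw [e]; exact hd.2
  · rintro ⟨W, hW, rfl⟩
    intro d hd
    change d ∈ (g • W : Sylow 3 G)
    rw [mem_smul_iff]
    apply hW
    exact ⟨mem_smul_iff.mp hd.1, mem_smul_iff.mp hd.2⟩

theorem ncard_line_smul (g : G) (X Y : Sylow 3 G) :
    (line (((g • X : Sylow 3 G) : Subgroup G) ⊓ (g • Y : Sylow 3 G))).ncard =
      (line ((X : Subgroup G) ⊓ Y)).ncard := by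
  rw [line_smul_eq]
  exact Set.ncard_image_of_injective _ (MulAction.injective g)

/-- points of a line lie in different orbits of a point off the line (no far pairs). -/
theorem off_line_key (hc : Nat.card (Sylow 3 G) = 22) (hno : ∀ X Y : Sylow 3 G, ¬ IsFar X Y)
    {X Y : Sylow 3 G} (h : IsNb X Y) {W : Sylow 3 G} (hW : W ∉ line ((X : Subgroup G) ⊓ Y))
    {R R' : Sylow 3 G} (hR : R ∈ line ((X : Subgroup G) ⊓ Y)) (hR' : R' ∈ line ((X : Subgroup G) ⊓ Y))
    (hne : R ≠ R') {v : G} (hv : v ∈ W) : v • R ≠ R' := by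
  intro hvR
  apply hW
  have hWR : W ≠ R := fun e => hW (e ▸ hR)
  have hnb : IsNb W R := (nb_or_far hc hWR).resolve_right (hno W R)
  have hE : (W : Subgroup G) ⊓ R ≤ (X : Subgroup G) ⊓ Y := by
    rw [← (line_inf hc h hR hR' hne).1]
    refine le_inf inf_le_right ?_
    intro e he
    rw [← hvR]
    change e ∈ (v • R : Sylow 3 G)
    rw [mem_smul_iff]
    have := hnb.conj_mem he (inv_mem hv)
    rw [inv_inv] at this
    exact this.2
  have hEq : (W : Subgroup G) ⊓ R = (X : Subgroup G) ⊓ Y := by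
    apply Subgroup.eq_of_le_of_card_ge hE
    have h1 : 3 * Nat.card ((W : Subgroup G) ⊓ R : Subgroup G) = Nat.card W := hnb
    have h2 : 3 * Nat.card ((X : Subgroup G) ⊓ Y : Subgroup G) = Nat.card X := h
    have h3 := card_sylow_eq W X
    omega
  change (X : Subgroup G) ⊓ Y ≤ W
  rw [← hEq]; exact inf_le_left

/-- the union of the `W`-orbits of the points of a line. -/
theorem off_line_union (hc : Nat.card (Sylow 3 G) = 22) (hno : ∀ X Y : Sylow 3 G, ¬ IsFar X Y)
    {X Y : Sylow 3 G} (h : IsNb X Y) {W : Sylow 3 G} (hW : W ∉ line ((X : Subgroup G) ⊓ Y)) :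
    {Z : Sylow 3 G | ∃ R ∈ line ((X : Subgroup G) ⊓ Y), ∃ v ∈ W, v • R = Z}.ncard
      = 3 * (line ((X : Subgroup G) ⊓ Y)).ncard := by
  classical
  haveI : Fintype (Sylow 3 G) := Fintype.ofFinite _
  obtain ⟨L, hL⟩ : ∃ L : Set (Sylow 3 G), L = line ((X : Subgroup G) ⊓ Y) := ⟨_, rfl⟩
  have hdis : ∀ R ∈ (Set.toFinite L).toFinset, ∀ R' ∈ (Set.toFinite L).toFinset, R ≠ R' →
      Disjoint (Set.toFinite (orbit (W : Subgroup G) R)).toFinset
        (Set.toFinite (orbit (W : Subgroup G) R')).toFinset := by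
    intro R hR R' hR' hne
    rw [Set.Finite.mem_toFinset] at hR hR'
    rw [Finset.disjoint_left]
    intro ω h1 h2
    rw [Set.Finite.mem_toFinset] at h1 h2
    obtain ⟨a, ha⟩ := h1
    obtain ⟨b, hb⟩ := h2
    apply off_line_key hc hno h hW (hL ▸ hR) (hL ▸ hR') hne (mul_mem (inv_mem b.2) a.2)
    have ha' : (a : G) • R = ω := ha
    have hb' : (b : G) • R' = ω := hb
    rw [mul_smul, ha', ← hb', inv_smul_smul]
  have h1 := Finset.card_biUnion hdis
  have h2 : ∀ R ∈ (Set.toFinite L).toFinset,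
      (Set.toFinite (orbit (W : Subgroup G) R)).toFinset.card = 3 := by
    intro R hR
    rw [Set.Finite.mem_toFinset] at hR
    have hWR : W ≠ R := fun e => hW (e ▸ hL ▸ hR)
    rw [← Set.ncard_eq_toFinset_card,
      IsNb.ncard_orbit ((nb_or_far hc hWR).resolve_right (hno W R))]
  rw [Finset.sum_const_nat h2, ← Set.ncard_eq_toFinset_card] at h1
  rw [← hL, mul_comm, ← h1, Set.ncard_eq_toFinset_card _ (Set.toFinite _)]
  congr 1
  ext Z
  simp only [Set.Finite.mem_toFinset, Set.mem_setOf_eq, Finset.mem_biUnion]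
  constructor
  · rintro ⟨R, hR, v, hv, rfl⟩
    exact ⟨R, hR, ⟨⟨v, hv⟩, rfl⟩⟩
  · rintro ⟨R, hR, ⟨v, rfl⟩⟩
    exact ⟨R, hR, v, v.2, rfl⟩

theorem off_line_subset {X Y : Sylow 3 G} {W : Sylow 3 G} (hW : W ∉ line ((X : Subgroup G) ⊓ Y)) :
    {Z : Sylow 3 G | ∃ R ∈ line ((X : Subgroup G) ⊓ Y), ∃ v ∈ W, v • R = Z} ⊆ {W}ᶜ := by
  rintro _ ⟨R, hR, v, hv, rfl⟩ e
  apply hW
  have e' : v • R = W := e
  have : R = W := smul_left_cancel v (e'.trans (smul_self' hv).symm)
  exact this ▸ hR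

end Cfsg.Agent.H17.Syl22
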