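import Cfsg.Agent.H17.Syl22c

set_option autoImplicit false

/-! `n_3 = 22`: if there are no far pairs then the Sylow 3-subgroups have order 3. -/

namespace Cfsg.Agent.H17.Syl22

open Subgroup MulAction Cfsg.Agent.H17.SylNum
open scoped Pointwise

universe u

variable {G : Type u} [Group G] [Finite G]

local instance : Fact (Nat.Prime 3) := ⟨by norm_num⟩
local instance : Fact (Nat.Prime 2) := ⟨by norm_num⟩

theorem card_eq_mul (hc : Nat.card (Sylow 3 G) = 22) (P : Sylow 3 G) :
    Nat.card G = Nat.card (normalizer (P : Set G)) * 22 := by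
  rw [← hc, Sylow.card_eq_index_normalizer P, Subgroup.card_mul_index]

/-- a line of size 4 through a point fixed by a Sylow 2-subgroup of `N(P)` is impossible. -/
theorem exists_line_ne_four (hc : Nat.card (Sylow 3 G) = 22) (P : Sylow 3 G) :
    ∃ Y : Sylow 3 G, Y ≠ P ∧ (IsNb P Y → (line ((P : Subgroup G) ⊓ Y)).ncard ≠ 4) := by
  obtain ⟨T₀⟩ : Nonempty (Sylow 2 (normalizer (P : Set G))) := inferInstance
  obtain ⟨T, hT⟩ : ∃ T : Subgroup G, T = (T₀ : Subgroup (normalizer (P : Set G))).map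
    (normalizer (P : Set G)).subtype := ⟨_, rfl⟩
  have hTpg : IsPGroup 2 T := by rw [hT]; exact T₀.2.map _
  have hTN : T ≤ normalizer (P : Set G) := by rw [hT]; exact Subgroup.map_subtype_le _
  have hTcard : Nat.card T = Nat.card T₀ := by
    rw [hT, Subgroup.card_map_of_injective (Subgroup.subtype_injective _)]
  have h1 := ncard_modEq_fixed (H := T) (X := Sylow 3 G) hTpg ({P}ᶜ) (by
    intro t Y hY e
    apply hY
    have e' : (t : G) • Y = P := e
    have e2 : (t : G) • P = P := Sylow.smul_eq_iff_mem_normalizer.mpr (hTN t.2)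
    exact smul_left_cancel (t : G) (e'.trans e2.symm))
  rw [ncard_compl_singleton hc] at h1
  obtain ⟨Y, hYP, hYfix⟩ : (({P}ᶜ : Set (Sylow 3 G)) ∩ fixedPoints T (Sylow 3 G)).Nonempty := by
    rw [← Set.ncard_pos (Set.toFinite _)]
    unfold Nat.ModEq at h1
    omega
  refine ⟨Y, hYP, fun h h4 => ?_⟩
  have hTle : T ≤ normalizer (P : Set G) ⊓ normalizer (((P : Subgroup G) ⊓ Y : Subgroup G) : Set G) := by
    intro t ht
    rw [Subgroup.mem_inf]
    refine ⟨hTN ht, ?_⟩
    have htP := hTN ht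
    have htY : t ∈ normalizer (Y : Set G) := Sylow.smul_eq_iff_mem_normalizer.mp (hYfix ⟨t, ht⟩)
    rw [mem_normalizer_iff]
    intro d
    rw [Subgroup.mem_inf, Subgroup.mem_inf]
    exact and_congr (mem_normalizer_iff.mp htP d) (mem_normalizer_iff.mp htY d)
  obtain ⟨k', hk'⟩ := Subgroup.card_dvd_of_le hTle
  have h5 := card_normalizer_line hc h
  rw [h4, hk'] at h5
  obtain ⟨q, hq⟩ : Nat.card (normalizer (((P : Subgroup G) ⊓ Y : Subgroup G) : Set G)) ∣ Nat.card G :=
    Subgroup.card_subgroup_dvd_card _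
  have h6 := card_eq_mul hc P
  have h7 := Subgroup.card_mul_index (T₀ : Subgroup (normalizer (P : Set G)))
  have h8 : ¬ 2 ∣ (T₀ : Subgroup (normalizer (P : Set G))).index := T₀.not_dvd_index
  have h9 : Nat.card (T₀ : Subgroup (normalizer (P : Set G))) = Nat.card T := hTcard.symm
  rw [h9] at h7
  rw [hq, h5, ← h7] at h6
  have hpos : 0 < Nat.card T := Nat.card_pos
  have h10 : Nat.card T * (4 * (k' * q)) =
      Nat.card T * ((T₀ : Subgroup (normalizer (P : Set G))).index * 22) := by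
    calc Nat.card T * (4 * (k' * q)) = 4 * (Nat.card T * k') * q := by ring
      _ = Nat.card T * (T₀ : Subgroup (normalizer (P : Set G))).index * 22 := h6
      _ = _ := by ring
  have h11 := Nat.eq_of_mul_eq_mul_left hpos h10
  apply h8
  generalize k' * q = w at h11
  omega

theorem card_three_of_no_far (hc : Nat.card (Sylow 3 G) = 22) (hr : Red 3 G)
    (hno : ∀ X Y : Sylow 3 G, ¬ IsFar X Y) (P : Sylow 3 G) : Nat.card P = 3 := by
  by_contra hne3
  have hnb : ∀ X Y : Sylow 3 G, X ≠ Y → IsNb X Y :=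
    fun X Y h => (nb_or_far hc h).resolve_right (hno X Y)
  have hproper : ∀ X Y : Sylow 3 G, IsNb X Y → ∃ W, W ∉ line ((X : Subgroup G) ⊓ Y) := by
    intro X Y h
    by_contra hall
    push Not at hall
    have hbot : (X : Subgroup G) ⊓ Y = ⊥ := by
      rw [eq_bot_iff]
      intro d hd
      rw [mem_bot]
      apply hr.faith
      intro Z
      exact Sylow.smul_eq_iff_mem_normalizer.mpr (le_normalizer (hall Z hd))
    have h1 : 3 * Nat.card ((X : Subgroup G) ⊓ Y : Subgroup G) = Nat.card X := h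
    rw [hbot, card_bot] at h1
    apply hne3
    rw [card_sylow_eq P X]
    omega
  have hsize : ∀ X Y : Sylow 3 G, IsNb X Y → (line ((X : Subgroup G) ⊓ Y)).ncard = 4 ∨
      (line ((X : Subgroup G) ⊓ Y)).ncard = 7 := by
    intro X Y h
    obtain ⟨W, hW⟩ := hproper X Y h
    have h1 := off_line_union hc hno h hW
    have h2 := Set.ncard_le_ncard (off_line_subset hW) (Set.toFinite _)
    rw [h1, ncard_compl_singleton hc] at h2
    obtain ⟨h3, h4⟩ := line_ncard hc h
    omega
  have hno7 : ∀ X Y : Sylow 3 G, IsNb X Y → (line ((X : Subgroup G) ⊓ Y)).ncard ≠ 7 := by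
    intro X Y h h7
    obtain ⟨W, hW⟩ := hproper X Y h
    have hU : {Z : Sylow 3 G | ∃ R ∈ line ((X : Subgroup G) ⊓ Y), ∃ v ∈ W, v • R = Z} = {W}ᶜ :=
      Set.eq_of_subset_of_ncard_le (off_line_subset hW)
        (by rw [off_line_union hc hno h hW, h7, ncard_compl_singleton hc]) (Set.toFinite _)
    obtain ⟨g, hg⟩ := MulAction.exists_smul_eq G X W
    have h'' : IsNb W (g • Y) := hg ▸ h.smul g
    have h7'' : (line ((W : Subgroup G) ⊓ (g • Y : Sylow 3 G))).ncard = 7 := by
      rw [← hg, ncard_line_smul, h7]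
    have hZ1 : g • Y ∈ ({W}ᶜ : Set (Sylow 3 G)) := fun e => h''.ne (Eq.symm e)
    rw [← hU] at hZ1
    obtain ⟨R₁, hR₁, u, hu, hu1⟩ := hZ1
    have hR₁'' : R₁ ∈ line ((W : Subgroup G) ⊓ (g • Y : Sylow 3 G)) := by
      have := line_smul_mem hc h'' (left_mem_line _ _) (right_mem_line W (g • Y)) (inv_mem hu)
      have e : u⁻¹ • (g • Y) = R₁ := by rw [← hu1, inv_smul_smul]
      rwa [e] at this
    obtain ⟨Z₂, hZ₂, hZ₂W, hZ₂o⟩ : ∃ Z₂ ∈ line ((W : Subgroup G) ⊓ (g • Y : Sylow 3 G)),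
        Z₂ ≠ W ∧ Z₂ ∉ orbit (W : Subgroup G) (g • Y) := by
      by_contra hcon
      push Not at hcon
      have hsub : line ((W : Subgroup G) ⊓ (g • Y : Sylow 3 G)) ⊆
          insert W (orbit (W : Subgroup G) (g • Y)) := by
        intro Z hZ
        by_cases e : Z = W
        · exact Or.inl e
        · exact Or.inr (hcon Z hZ e)
      have h1 := Set.ncard_le_ncard hsub (Set.toFinite _)
      have h2 := Set.ncard_insert_le W (orbit (W : Subgroup G) (g • Y))
      rw [h''.ncard_orbit] at h2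
      omega
    have hZ2' : Z₂ ∈ ({W}ᶜ : Set (Sylow 3 G)) := hZ₂W
    rw [← hU] at hZ2'
    obtain ⟨R₂, hR₂, u', hu', hu2⟩ := hZ2'
    have hR₂'' : R₂ ∈ line ((W : Subgroup G) ⊓ (g • Y : Sylow 3 G)) := by
      have := line_smul_mem hc h'' (left_mem_line _ _) hZ₂ (inv_mem hu')
      have e : u'⁻¹ • Z₂ = R₂ := by rw [← hu2, inv_smul_smul]
      rwa [e] at this
    have hR12 : R₁ ≠ R₂ := by
      rintro rfl
      apply hZ₂o
      refine ⟨⟨u' * u⁻¹, mul_mem hu' (inv_mem hu)⟩, ?_⟩
      change (u' * u⁻¹) • (g • Y) = Z₂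
      rw [← hu1, mul_smul, inv_smul_smul, hu2]
    have e1 := (line_inf hc h hR₁ hR₂ hR12).1
    have e2 := (line_inf hc h'' hR₁'' hR₂'' hR12).1
    apply hW
    change (X : Subgroup G) ⊓ Y ≤ W
    rw [← e1, e2]
    exact inf_le_left
  obtain ⟨Y, hYP, hY⟩ := exists_line_ne_four hc P
  have h := hnb P Y (Ne.symm hYP)
  rcases hsize P Y h with h4 | h7
  · exact hY h h4
  · exact hno7 P Y h h7

end Cfsg.Agent.H17.Syl22
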