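import Cfsg.Agent.H17.Syl22d

set_option autoImplicit false

/-! `n_3 = 22`: nine far points force Sylow 3-subgroups of order 9. -/

namespace Cfsg.Agent.H17.Syl22

open Subgroup MulAction Cfsg.Agent.H17.SylNum
open scoped Pointwise

universe u

variable {G : Type u} [Group G] [Finite G]

local instance : Fact (Nat.Prime 3) := ⟨by norm_num⟩

theorem far_invariant {X : Sylow 3 G} {u : G} (hu : u ∈ X) {Y : Sylow 3 G} (hY : Y ∈ far X) :
    u • Y ∈ far X := by
  have : IsFar (u • X) (u • Y) := IsFar.smul hY u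
  rwa [smul_self' hu] at this

theorem orbit_eq_far (h9 : ∀ X : Sylow 3 G, (far X).ncard = 9) {X R : Sylow 3 G} (hR : R ∈ far X) :
    orbit (X : Subgroup G) R = far X := by
  apply Set.eq_of_subset_of_ncard_le _ _ (Set.toFinite _)
  · rintro _ ⟨u, rfl⟩
    exact far_invariant u.2 hR
  · rw [h9, IsFar.ncard_orbit hR]

theorem far_trans (h9 : ∀ X : Sylow 3 G, (far X).ncard = 9) {X R R' : Sylow 3 G} (hR : R ∈ far X)
    (hR' : R' ∈ far X) : ∃ u ∈ X, u • R = R' := by
  rw [← orbit_eq_far h9 hR] at hR'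
  obtain ⟨u, hu⟩ := hR'
  exact ⟨u, u.2, hu⟩

theorem cl_eq_compl_far (hc : Nat.card (Sylow 3 G) = 22) (X : Sylow 3 G) : cl X = (far X)ᶜ := by
  ext Z
  constructor
  · rintro (rfl | h) hf
    · exact IsFar.ne hf rfl
    · exact not_nb_of_far hf h
  · intro h
    by_cases e : Z = X
    · exact Or.inl e
    · exact Or.inr ((nb_or_far hc (Ne.symm e)).resolve_right h)

theorem card_orbit_mul_card_inf' {D : Subgroup G} (hD : IsPGroup 3 D) (Q : Sylow 3 G) :
    (orbit D Q).ncard * Nat.card (D ⊓ Q : Subgroup G) = Nat.card D := by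
  have h1 : (orbit D Q).ncard * Nat.card (stabilizer D Q) = Nat.card D := by
    rw [← index_stabilizer, mul_comm, Subgroup.card_mul_index]
  have h2 : stabilizer D Q = (D ⊓ Q).subgroupOf D := by
    ext x
    rw [mem_stabilizer_iff, Subgroup.mem_subgroupOf, ← hD.inf_normalizer_sylow Q, Subgroup.mem_inf]
    constructor
    · intro h
      exact ⟨x.2, Sylow.smul_eq_iff_mem_normalizer.mp h⟩
    · intro h
      exact Sylow.smul_eq_iff_mem_normalizer.mpr h.2
  rw [h2, Nat.card_congr (Subgroup.subgroupOfEquivOfLe inf_le_left).toEquiv] at h1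
  exact h1

/-- Claim 1. -/
theorem cl_eq_of_not_le (hc : Nat.card (Sylow 3 G) = 22) (h9 : ∀ X : Sylow 3 G, (far X).ncard = 9)
    {P Y R : Sylow 3 G} (hY : IsNb P Y) (hR : IsFar P R)
    (hnle : ¬ (P : Subgroup G) ⊓ R ≤ (P : Subgroup G) ⊓ Y) : cl Y = cl P := by
  have hDpg : IsPGroup 3 ((P : Subgroup G) ⊓ Y : Subgroup G) := P.2.to_le inf_le_left
  -- the D-orbit of R is far P
  have horb : orbit ((P : Subgroup G) ⊓ Y : Subgroup G) R = far P := by
    have hsub : orbit ((P : Subgroup G) ⊓ Y : Subgroup G) R ⊆ far P := by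
      rintro _ ⟨u, rfl⟩
      exact far_invariant u.2.1 hR
    apply Set.eq_of_subset_of_ncard_le hsub _ (Set.toFinite _)
    have hle := Set.ncard_le_ncard hsub (Set.toFinite _)
    rw [h9] at hle ⊢
    have h1 := card_orbit_mul_card_inf' hDpg R
    obtain ⟨n, hn⟩ := hDpg.card_orbit R
    rw [Nat.card_coe_set_eq] at hn
    have h2 : ((P : Subgroup G) ⊓ Y) ⊓ R ≤ (P : Subgroup G) ⊓ R :=
      le_inf (inf_le_left.trans inf_le_left) inf_le_right
    obtain ⟨k, hk⟩ := Subgroup.card_dvd_of_le h2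
    have hk1 : k ≠ 1 := by
      rintro rfl
      apply hnle
      have := Subgroup.eq_of_le_of_card_ge h2 (by rw [hk, mul_one])
      rw [← this]
      exact inf_le_left
    have h3 : 3 * Nat.card ((P : Subgroup G) ⊓ Y : Subgroup G) = Nat.card P := hY
    have h4 : 9 * Nat.card ((P : Subgroup G) ⊓ R : Subgroup G) = Nat.card P := hR
    have hpos : 0 < Nat.card (((P : Subgroup G) ⊓ Y) ⊓ R : Subgroup G) := Nat.card_pos
    have h5 : Nat.card (((P : Subgroup G) ⊓ Y) ⊓ R : Subgroup G) *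
        (orbit ((P : Subgroup G) ⊓ Y : Subgroup G) R).ncard
        = Nat.card (((P : Subgroup G) ⊓ Y) ⊓ R : Subgroup G) * (3 * k) := by
      have e1 : 3 * ((orbit ((P : Subgroup G) ⊓ Y : Subgroup G) R).ncard *
          Nat.card (((P : Subgroup G) ⊓ Y) ⊓ R : Subgroup G)) =
          9 * (Nat.card (((P : Subgroup G) ⊓ Y) ⊓ R : Subgroup G) * k) := by
        rw [h1, h3, ← hk, h4]
      nlinarith
    have h6 := Nat.eq_of_mul_eq_mul_left hpos h5
    have hk0 : k ≠ 0 := by
      rintro rfl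
      rw [mul_zero] at hk
      have : 0 < Nat.card ((P : Subgroup G) ⊓ R : Subgroup G) := Nat.card_pos
      omega
    rw [hn] at h6 hle ⊢
    rcases n with _ | _ | _ | n
    · omega
    · omega
    · norm_num
    · have : 3 ^ 3 ≤ 3 ^ (n + 1 + 1 + 1) := Nat.pow_le_pow_right (by norm_num) (by omega)
      omega
  have hsub : far P ⊆ far Y := by
    intro R' hR'
    have hne : Y ≠ R' := by
      rintro rfl
      exact not_nb_of_far hR' hY
    rcases nb_or_far hc hne with h | h
    · exfalso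
      have h1 : orbit ((P : Subgroup G) ⊓ Y : Subgroup G) R' ⊆ orbit (Y : Subgroup G) R' := by
        rintro _ ⟨u, rfl⟩
        exact ⟨⟨u, u.2.2⟩, rfl⟩
      have h2 : orbit ((P : Subgroup G) ⊓ Y : Subgroup G) R' = far P := by
        rw [← horb] at hR' ⊢
        exact orbit_eq_iff.mpr hR'
      have h3 := Set.ncard_le_ncard h1 (Set.toFinite _)
      rw [h2, h9, h.ncard_orbit] at h3
      omega
    · exact h
  have heq : far P = far Y :=
    Set.eq_of_subset_of_ncard_le hsub (by rw [h9, h9]) (Set.toFinite _)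
  rw [cl_eq_compl_far hc, cl_eq_compl_far hc, heq]

theorem ncard_nb (hc : Nat.card (Sylow 3 G) = 22) (h9 : ∀ X : Sylow 3 G, (far X).ncard = 9)
    (X : Sylow 3 G) : (nb X).ncard = 12 := by
  have := ncard_nb_add_far hc X
  rw [h9] at this
  omega

end Cfsg.Agent.H17.Syl22
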