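import Cfsg.Agent.H17.Syl22e

set_option autoImplicit false

/-! `n_3 = 22`: nine far points force Sylow 3-subgroups of order 9 (continued). -/

namespace Cfsg.Agent.H17.Syl22

open Subgroup MulAction Cfsg.Agent.H17.SylNum
open scoped Pointwise

universe u

variable {G : Type u} [Group G] [Finite G]

local instance : Fact (Nat.Prime 3) := ⟨by norm_num⟩

theorem not_thirteen_block (hc : Nat.card (Sylow 3 G) = 22) (h9 : ∀ X : Sylow 3 G, (far X).ncard = 9)
    {P : Sylow 3 G} (h : ∀ W ∈ cl P, cl W = cl P) : False := by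
  have := cl_block hc h
  rw [ncard_cl, ncard_nb hc h9] at this
  norm_num at this

/-- Claim 2. -/
theorem inf_le_of_far (hc : Nat.card (Sylow 3 G) = 22) (h9 : ∀ X : Sylow 3 G, (far X).ncard = 9)
    {P Y R : Sylow 3 G} (hY : IsNb P Y) (hR : IsFar P R) :
    (P : Subgroup G) ⊓ R ≤ (P : Subgroup G) ⊓ Y := by
  by_contra hnle
  have hline : ∀ Z ∈ line ((P : Subgroup G) ⊓ Y), cl Z = cl P := by
    intro Z hZ
    by_cases e : Z = P
    · rw [e]
    · obtain ⟨h1, h2⟩ := line_inf hc hY (left_mem_line P Y) hZ (Ne.symm e)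
      exact cl_eq_of_not_le hc h9 h2 hR (by rw [h1]; exact hnle)
  apply not_thirteen_block hc h9 (P := P)
  intro W hW
  by_cases hWL : W ∈ line ((P : Subgroup G) ⊓ Y)
  · exact hline W hWL
  have hWZ : ∀ Z ∈ line ((P : Subgroup G) ⊓ Y), IsNb W Z := by
    intro Z hZ
    have : W ∈ cl Z := by rw [hline Z hZ]; exact hW
    rcases this with e | h
    · exact absurd (e ▸ hZ) hWL
    · exact h.symm
  classical
  haveI : Fintype (Sylow 3 G) := Fintype.ofFinite _
  have hdis : ∀ Z ∈ (Set.toFinite (line ((P : Subgroup G) ⊓ Y))).toFinset,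
      ∀ Z' ∈ (Set.toFinite (line ((P : Subgroup G) ⊓ Y))).toFinset, Z ≠ Z' →
      Disjoint (Set.toFinite (line ((W : Subgroup G) ⊓ Z) \ {W})).toFinset
        (Set.toFinite (line ((W : Subgroup G) ⊓ Z') \ {W})).toFinset := by
    intro Z hZ Z' hZ' hne
    rw [Set.Finite.mem_toFinset] at hZ hZ'
    rw [Finset.disjoint_left]
    intro V h1 h2
    rw [Set.Finite.mem_toFinset] at h1 h2
    apply hWL
    have hVW : W ≠ V := fun e => h1.2 e.symm
    have e1 := (line_inf hc (hWZ Z hZ) (left_mem_line W Z) h1.1 hVW).1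
    have e2 := (line_inf hc (hWZ Z' hZ') (left_mem_line W Z') h2.1 hVW).1
    have e3 : (W : Subgroup G) ⊓ Z = (W : Subgroup G) ⊓ Z' := e1.symm.trans e2
    have hZ'M : Z' ∈ line ((W : Subgroup G) ⊓ Z) := by
      rw [e3]; exact right_mem_line W Z'
    have e4 := (line_inf hc (hWZ Z hZ) (right_mem_line W Z) hZ'M hne).1
    have e5 := (line_inf hc hY hZ hZ' hne).1
    change (P : Subgroup G) ⊓ Y ≤ W
    rw [← e5, e4]
    exact inf_le_left
  have hcard := Finset.card_biUnion hdis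
  have h3 : ∀ Z ∈ (Set.toFinite (line ((P : Subgroup G) ⊓ Y))).toFinset,
      3 ≤ (Set.toFinite (line ((W : Subgroup G) ⊓ Z) \ {W})).toFinset.card := by
    intro Z hZ
    rw [Set.Finite.mem_toFinset] at hZ
    rw [← Set.ncard_eq_toFinset_card, Set.ncard_diff_singleton_of_mem (left_mem_line W Z)]
    have := (line_ncard hc (hWZ Z hZ)).2
    omega
  have hsum := Finset.card_nsmul_le_sum _ _ 3 h3
  rw [← hcard, ← Set.ncard_eq_toFinset_card, smul_eq_mul] at hsum
  have hL4 := (line_ncard hc hY).2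
  have hsub : (((Set.toFinite (line ((P : Subgroup G) ⊓ Y))).toFinset.biUnion
      (fun Z => (Set.toFinite (line ((W : Subgroup G) ⊓ Z) \ {W})).toFinset) : Finset (Sylow 3 G))
        : Set (Sylow 3 G)) ⊆ nb W ∩ cl P := by
    intro V hV
    rw [Finset.mem_coe, Finset.mem_biUnion] at hV
    obtain ⟨Z, hZ, hV⟩ := hV
    rw [Set.Finite.mem_toFinset] at hZ hV
    constructor
    · rcases line_subset_cl hc (hWZ Z hZ) (left_mem_line W Z) hV.1 with e | h
      · exact absurd e hV.2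
      · exact h
    · rw [← hline Z hZ]
      exact line_subset_cl hc (hWZ Z hZ) (right_mem_line W Z) hV.1
  have hle := Set.ncard_le_ncard hsub (Set.toFinite _)
  rw [Set.ncard_coe_finset] at hle
  have hnbW : nb W ∩ cl P = nb W := by
    apply Set.eq_of_subset_of_ncard_le Set.inter_subset_left _ (Set.toFinite _)
    rw [ncard_nb hc h9]
    omega
  apply Set.eq_of_subset_of_ncard_le _ _ (Set.toFinite _)
  · rintro V (rfl | hV)
    · exact hW
    · have : V ∈ nb W ∩ cl P := by rw [hnbW]; exact hV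
      exact this.2
  · rw [ncard_cl, ncard_cl, ncard_nb hc h9, ncard_nb hc h9]

theorem exists_two_hyperplanes (hc : Nat.card (Sylow 3 G) = 22)
    (h9 : ∀ X : Sylow 3 G, (far X).ncard = 9) (P : Sylow 3 G) :
    ∃ Y₁ Y₂ : Sylow 3 G, IsNb P Y₁ ∧ IsNb P Y₂ ∧ (P : Subgroup G) ⊓ Y₁ ≠ (P : Subgroup G) ⊓ Y₂ := by
  by_contra hcon
  push Not at hcon
  obtain ⟨Y₀, hY₀⟩ : (nb P).Nonempty := by
    rw [← Set.ncard_pos (Set.toFinite _), ncard_nb hc h9]; norm_num
  have hsub : cl P ⊆ line ((P : Subgroup G) ⊓ Y₀) := by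
    rintro Z (rfl | hZ)
    · exact left_mem_line _ _
    · rw [hcon Y₀ Z hY₀ hZ]
      exact right_mem_line P Z
  have hcl : ∀ Z ∈ line ((P : Subgroup G) ⊓ Y₀), line ((P : Subgroup G) ⊓ Y₀) = cl Z := by
    intro Z hZ
    apply Set.eq_of_subset_of_ncard_le (line_subset_cl hc hY₀ hZ) _ (Set.toFinite _)
    have := Set.ncard_le_ncard hsub (Set.toFinite _)
    rw [ncard_cl, ncard_nb hc h9] at this ⊢
    exact this
  apply not_thirteen_block hc h9 (P := P)
  intro W hW
  rw [← hcl W (hsub hW), ← hcl P (left_mem_line _ _)]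

theorem card_nine_of_far (hc : Nat.card (Sylow 3 G) = 22) (hr : Red 3 G)
    (h9 : ∀ X : Sylow 3 G, (far X).ncard = 9) (P : Sylow 3 G) : Nat.card P = 9 := by
  obtain ⟨Y₁, Y₂, h1, h2, hne⟩ := exists_two_hyperplanes hc h9 P
  obtain ⟨R, hR⟩ : (far P).Nonempty := by
    rw [← Set.ncard_pos (Set.toFinite _), h9]; norm_num
  have hE1 := inf_le_of_far hc h9 h1 hR
  have hE2 := inf_le_of_far hc h9 h2 hR
  have hle : (P : Subgroup G) ⊓ R ≤ ((P : Subgroup G) ⊓ Y₁) ⊓ ((P : Subgroup G) ⊓ Y₂) := le_inf hE1 hE2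
  have c1 : 3 * Nat.card ((P : Subgroup G) ⊓ Y₁ : Subgroup G) = Nat.card P := h1
  have c2 : 3 * Nat.card ((P : Subgroup G) ⊓ Y₂ : Subgroup G) = Nat.card P := h2
  have c3 : 9 * Nat.card ((P : Subgroup G) ⊓ R : Subgroup G) = Nat.card P := hR
  have hEq : (P : Subgroup G) ⊓ R = ((P : Subgroup G) ⊓ Y₁) ⊓ ((P : Subgroup G) ⊓ Y₂) := by
    apply Subgroup.eq_of_le_of_card_ge hle
    obtain ⟨j, hj⟩ := Subgroup.card_dvd_of_le hle
    obtain ⟨i, hi⟩ := Subgroup.card_dvd_of_le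
      (inf_le_left : ((P : Subgroup G) ⊓ Y₁) ⊓ ((P : Subgroup G) ⊓ Y₂) ≤ (P : Subgroup G) ⊓ Y₁)
    have hi1 : i ≠ 1 := by
      rintro rfl
      apply hne
      have e1 := Subgroup.eq_of_le_of_card_ge
        (inf_le_left : ((P : Subgroup G) ⊓ Y₁) ⊓ ((P : Subgroup G) ⊓ Y₂) ≤ (P : Subgroup G) ⊓ Y₁)
        (by rw [hi, mul_one])
      have e2 : (P : Subgroup G) ⊓ Y₁ ≤ (P : Subgroup G) ⊓ Y₂ := by
        rw [← e1]; exact inf_le_right
      exact Subgroup.eq_of_le_of_card_ge e2 (by omega)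
    have hpos : 0 < Nat.card ((P : Subgroup G) ⊓ R : Subgroup G) := Nat.card_pos
    have h3 : Nat.card ((P : Subgroup G) ⊓ R : Subgroup G) * (j * i)
        = Nat.card ((P : Subgroup G) ⊓ R : Subgroup G) * 3 := by
      have : Nat.card ((P : Subgroup G) ⊓ Y₁ : Subgroup G)
          = Nat.card ((P : Subgroup G) ⊓ R : Subgroup G) * j * i := by rw [hi, hj]
      nlinarith
    have h4 : j * i = 3 := Nat.eq_of_mul_eq_mul_left hpos h3
    have h5 : i ∣ 3 := Dvd.intro_left j h4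
    rcases (Nat.dvd_prime (by norm_num : Nat.Prime 3)).mp h5 with rfl | rfl
    · exact absurd rfl hi1
    · have : j = 1 := by omega
      rw [hj, this, mul_one]
  have hnorm : ∀ e ∈ (P : Subgroup G) ⊓ R, ∀ u ∈ P, u * e * u⁻¹ ∈ (P : Subgroup G) ⊓ R := by
    intro e he u hu
    rw [hEq] at he ⊢
    exact ⟨h1.conj_mem he.1 hu, h2.conj_mem he.2 hu⟩
  have hbot : (P : Subgroup G) ⊓ R = ⊥ := by
    rw [eq_bot_iff]
    intro e he
    rw [mem_bot]
    apply hr.faith
    intro Z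
    apply Sylow.smul_eq_iff_mem_normalizer.mpr
    apply le_normalizer
    by_cases hZP : Z = P
    · rw [hZP]; exact he.1
    rcases nb_or_far hc (Ne.symm hZP) with hZ | hZ
    · exact (inf_le_of_far hc h9 hZ hR he).2
    · obtain ⟨u, hu, rfl⟩ := far_trans h9 hR hZ
      change e ∈ (u • R : Sylow 3 G)
      rw [mem_smul_iff]
      have := hnorm e he u⁻¹ (inv_mem hu)
      rw [inv_inv] at this
      exact this.2
  rw [hbot, card_bot] at c3
  omega

end Cfsg.Agent.H17.Syl22
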