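import Cfsg.Agent.H17.Syl22f
import Cfsg.Agent.H5.SylowNum

set_option autoImplicit false

/-! `n_3 = 22`: fixed point toolkit. -/

namespace Cfsg.Agent.H17.Syl22

open Subgroup MulAction Cfsg.Agent.H17.SylNum
open scoped Pointwise

universe u

variable {G : Type u} [Group G] [Finite G]

local instance : Fact (Nat.Prime 3) := ⟨by norm_num⟩
local instance : Fact (Nat.Prime 2) := ⟨by norm_num⟩

/-- fixed points of `g` on the Sylow 3-subgroups. -/
def fx (g : G) : Set (Sylow 3 G) := {Q | g • Q = Q}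

theorem mem_fx {g : G} {Q : Sylow 3 G} : Q ∈ fx g ↔ g • Q = Q := Iff.rfl

theorem toPermHom_injective (hr : Red 3 G) :
    Function.Injective (MulAction.toPermHom G (Sylow 3 G)) := by
  rw [injective_iff_map_eq_one]
  intro g hg
  apply hr.faith
  intro Q
  have := congrArg (fun f : Equiv.Perm (Sylow 3 G) => f Q) hg
  simpa using this

theorem sign_eq_one (hr : Red 3 G) [Fintype (Sylow 3 G)] [DecidableEq (Sylow 3 G)] (g : G) :
    Equiv.Perm.sign (MulAction.toPermHom G (Sylow 3 G) g) = 1 := by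
  obtain ⟨P⟩ : Nonempty (Sylow 3 G) := inferInstance
  have h1 : (Equiv.Perm.sign.comp (MulAction.toPermHom G (Sylow 3 G))).ker = ⊤ := by
    apply hr.gen _ inferInstance P
    intro x hx
    rw [MonoidHom.mem_ker]
    obtain ⟨k, hk⟩ := (IsPGroup.iff_orderOf.mp P.2) ⟨x, hx⟩
    have hx3 : x ^ 3 ^ k = 1 := by
      have : (⟨x, hx⟩ : (P : Subgroup G)) ^ 3 ^ k = 1 := by rw [← hk, pow_orderOf_eq_one]
      exact congrArg Subtype.val this
    have h2 : ((Equiv.Perm.sign.comp (MulAction.toPermHom G (Sylow 3 G))) x) ^ 3 ^ k = 1 := by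
      rw [← map_pow, hx3, map_one]
    rcases Int.units_eq_one_or ((Equiv.Perm.sign.comp (MulAction.toPermHom G (Sylow 3 G))) x) with h | h
    · exact h
    · rw [h, (Odd.pow (by decide : Odd 3)).neg_one_pow] at h2
      exact absurd h2 (by decide)
  have : g ∈ (Equiv.Perm.sign.comp (MulAction.toPermHom G (Sylow 3 G))).ker := by rw [h1]; trivial
  exact this

theorem ncard_fx_add_support [Fintype (Sylow 3 G)] [DecidableEq (Sylow 3 G)] (g : G) :
    (fx g).ncard + (MulAction.toPermHom G (Sylow 3 G) g).support.card = Nat.card (Sylow 3 G) := by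
  classical
  have h1 : (fx g).ncard = (Finset.univ.filter (fun Q : Sylow 3 G => g • Q = Q)).card := by
    rw [Set.ncard_eq_toFinset_card' (fx g)]
    congr 1
    ext Q
    rw [Set.mem_toFinset]
    simp [fx]
  have h2 : (MulAction.toPermHom G (Sylow 3 G) g).support
      = Finset.univ.filter (fun Q : Sylow 3 G => ¬ g • Q = Q) := by
    ext Q
    simp [Equiv.Perm.mem_support]
  rw [h1, h2, Finset.card_filter_add_card_filter_not, Finset.card_univ, Nat.card_eq_fintype_card]

/-- an involution fixes `2 mod 4` points. -/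
theorem invol_mod_four (hc : Nat.card (Sylow 3 G) = 22) (hr : Red 3 G) {u : G} (hu : orderOf u = 2) :
    ∃ m, (fx u).ncard + 4 * m = 22 ∧ 0 < m := by
  classical
  haveI : Fintype (Sylow 3 G) := Fintype.ofFinite _
  have h1 : orderOf (MulAction.toPermHom G (Sylow 3 G) u) = 2 := by
    rw [orderOf_injective _ (toPermHom_injective hr), hu]
  obtain ⟨⟨k, hk⟩, hpos⟩ := Cfsg.Agent.H5SylowNum.dvd_support_of_prime_order Nat.prime_two h1
  have h2 := Cfsg.Agent.H5SylowNum.sign_of_invol h1 hk
  rw [sign_eq_one hr] at h2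
  have h3 : Even k := by
    by_contra hodd
    rw [Nat.not_even_iff_odd] at hodd
    rw [hodd.neg_one_pow] at h2
    exact absurd h2 (by decide)
  obtain ⟨m, hm⟩ := h3
  have h4 := ncard_fx_add_support u
  rw [hk, hc] at h4
  exact ⟨m, by omega, by omega⟩

/-- common fixed points of a set of elements centralising `P`. -/
theorem cent_fix_mod (P : Sylow 3 G) (S : Set G) (hS : ∀ s ∈ S, ∀ x ∈ P, s * x = x * s) :
    {Q : Sylow 3 G | ∀ s ∈ S, s • Q = Q}.ncard % 3 = 1 := by
  have h1 := ncard_modEq_fixed (H := (P : Subgroup G)) (X := Sylow 3 G) P.2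
    {Q | ∀ s ∈ S, s • Q = Q} (by
      intro h Q hQ s hs
      change s • ((h : G) • Q) = (h : G) • Q
      rw [← mul_smul, hS s hs h h.2, mul_smul, hQ s hs])
  have h2 : {Q : Sylow 3 G | ∀ s ∈ S, s • Q = Q} ∩ fixedPoints (P : Subgroup G) (Sylow 3 G)
      = {P} := by
    ext Q
    constructor
    · rintro ⟨_, hfix⟩
      rw [Set.mem_singleton_iff]
      symm
      apply eq_of_le_normalizer
      intro x hx
      exact Sylow.smul_eq_iff_mem_normalizer.mp (hfix ⟨x, hx⟩)
    · rintro rfl
      refine ⟨?_, fun x => smul_self' x.2⟩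
      intro s hs
      apply Sylow.smul_eq_iff_mem_normalizer.mpr
      apply Subgroup.centralizer_le_normalizer
      rw [mem_centralizer_iff]
      intro x hx
      exact (hS s hs x hx).symm
  rw [h2, Set.ncard_singleton] at h1
  exact h1

theorem fx_eq_setOf (z : G) : fx z = {Q : Sylow 3 G | ∀ s ∈ ({z} : Set G), s • Q = Q} := by
  ext Q
  simp [fx]

theorem cent_fx_mod {P : Sylow 3 G} {z : G} (hz : ∀ x ∈ P, z * x = x * z) : (fx z).ncard % 3 = 1 := by
  rw [fx_eq_setOf]
  apply cent_fix_mod P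
  intro s hs x hx
  rw [Set.mem_singleton_iff] at hs
  subst hs
  exact hz x hx

theorem zpow_smul_eq {z : G} {Q : Sylow 3 G} (h : z • Q = Q) (k : ℤ) : z ^ k • Q = Q := by
  have : z ∈ stabilizer G Q := h
  exact zpow_mem this k

/-- fixed points of an element of prime order `r`, on an invariant set. -/
theorem fx_mod_prime {z : G} {r : ℕ} [Fact r.Prime] (hz : orderOf z = r) (A : Set (Sylow 3 G))
    (hA : ∀ Q ∈ A, z • Q ∈ A) : A.ncard ≡ (A ∩ fx z).ncard [MOD r] := by
  have hpg : IsPGroup r (zpowers z) := IsPGroup.of_card (n := 1) (by rw [Nat.card_zpowers, hz, pow_one])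
  have hA' : ∀ Q ∈ A, z⁻¹ • Q ∈ A := by
    intro Q hQ
    have h1 : z⁻¹ = z ^ (r - 1) := by
      rw [inv_eq_iff_mul_eq_one, ← pow_succ', Nat.sub_add_cancel (Fact.out : r.Prime).one_le, ← hz,
        pow_orderOf_eq_one]
    rw [h1]
    generalize r - 1 = n
    induction n with
    | zero => simpa using hQ
    | succ n ih => rw [pow_succ', mul_smul]; exact hA _ ih
  have h1 := ncard_modEq_fixed (H := zpowers z) (X := Sylow 3 G) hpg A (by
    rintro ⟨h, hh⟩ Q hQ
    obtain ⟨k, rfl⟩ := mem_zpowers_iff.mp hh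
    change z ^ k • Q ∈ A
    clear hh
    induction k using Int.induction_on with
    | zero => simpa using hQ
    | succ n ih => rw [add_comm, zpow_add, zpow_one, mul_smul]
                   exact hA _ ih
    | pred n ih => rw [sub_eq_add_neg, add_comm, zpow_add, zpow_neg_one, mul_smul]
                   exact hA' _ ih)
  have h2 : A ∩ fixedPoints (zpowers z) (Sylow 3 G) = A ∩ fx z := by
    ext Q
    constructor
    · rintro ⟨h1, h2⟩
      exact ⟨h1, h2 ⟨z, mem_zpowers z⟩⟩
    · rintro ⟨h1, h2⟩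
      refine ⟨h1, ?_⟩
      rintro ⟨h, hh⟩
      obtain ⟨k, rfl⟩ := mem_zpowers_iff.mp hh
      exact zpow_smul_eq h2 k
  rwa [h2] at h1

theorem fx_mod_prime_univ (hc : Nat.card (Sylow 3 G) = 22) {z : G} {r : ℕ} [Fact r.Prime]
    (hz : orderOf z = r) : 22 ≡ (fx z).ncard [MOD r] := by
  have := fx_mod_prime hz Set.univ (fun _ _ => Set.mem_univ _)
  rwa [Set.ncard_univ, hc, Set.univ_inter] at this

theorem fx_le (hc : Nat.card (Sylow 3 G) = 22) (z : G) : (fx z).ncard ≤ 22 := by
  rw [← hc, ← Set.ncard_univ]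
  exact Set.ncard_le_ncard (Set.subset_univ _) (Set.toFinite _)

theorem eq_one_of_fx (hc : Nat.card (Sylow 3 G) = 22) (hr : Red 3 G) {z : G}
    (h : (fx z).ncard = 22) : z = 1 := by
  have h1 : fx z = Set.univ := by
    apply Set.eq_of_subset_of_ncard_le (Set.subset_univ _) _ (Set.toFinite _)
    rw [Set.ncard_univ, hc, h]
  apply hr.faith
  intro Q
  have : Q ∈ fx z := by rw [h1]; trivial
  exact this

end Cfsg.Agent.H17.Syl22
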