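import Cfsg.Agent.H17.Syl22g

set_option autoImplicit false

/-! `n_3 = 22`: fixed point toolkit, part 2. -/

namespace Cfsg.Agent.H17.Syl22

open Subgroup MulAction Cfsg.Agent.H17.SylNum
open scoped Pointwise

universe u

variable {G : Type u} [Group G] [Finite G]

local instance : Fact (Nat.Prime 3) := ⟨by norm_num⟩
local instance : Fact (Nat.Prime 2) := ⟨by norm_num⟩

/-- an element of prime order `r` normalising `X`: `|X| ≡ |C_X(z)| mod r`. -/
theorem card_modEq_cent {X : Subgroup G} {z : G} (hzN : z ∈ normalizer (X : Set G)) {r : ℕ}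
    [Fact r.Prime] (hz : orderOf z = r) :
    Nat.card X ≡ Nat.card (X ⊓ centralizer {z} : Subgroup G) [MOD r] := by
  have ho : orderOf (ConjAct.toConjAct z) = r := by
    rw [← hz]; exact MulEquiv.orderOf_eq ConjAct.toConjAct z
  have hpg : IsPGroup r (zpowers (ConjAct.toConjAct z)) :=
    IsPGroup.of_card (n := 1) (by rw [Nat.card_zpowers, ho, pow_one])
  have h1 := ncard_modEq_fixed (H := zpowers (ConjAct.toConjAct z)) (X := G) hpg (X : Set G) (by
    rintro ⟨h, hh⟩ a ha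
    obtain ⟨k, rfl⟩ := mem_zpowers_iff.mp hh
    change (ConjAct.toConjAct z ^ k) • a ∈ X
    rw [ConjAct.smul_def, map_zpow, ConjAct.ofConjAct_toConjAct]
    exact (mem_normalizer_iff.mp (zpow_mem hzN k) a).mp ha)
  have h2 : (X : Set G) ∩ fixedPoints (zpowers (ConjAct.toConjAct z)) G
      = ((X ⊓ centralizer {z} : Subgroup G) : Set G) := by
    ext a
    constructor
    · rintro ⟨ha, hfix⟩
      refine ⟨ha, ?_⟩
      have h3 : ConjAct.toConjAct z • a = a := hfix ⟨_, mem_zpowers _⟩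
      rw [ConjAct.smul_def, ConjAct.ofConjAct_toConjAct, mul_inv_eq_iff_eq_mul] at h3
      change a ∈ centralizer {z}
      rw [mem_centralizer_singleton_iff]
      exact h3.symm
    · rintro ⟨ha, hc⟩
      refine ⟨ha, ?_⟩
      have hc' : a ∈ centralizer {z} := hc
      rw [mem_centralizer_singleton_iff] at hc'
      rintro ⟨h, hh⟩
      obtain ⟨k, rfl⟩ := mem_zpowers_iff.mp hh
      change (ConjAct.toConjAct z ^ k) • a = a
      rw [ConjAct.smul_def, map_zpow, ConjAct.ofConjAct_toConjAct, mul_inv_eq_iff_eq_mul]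
      have : Commute z a := hc'.symm
      exact (this.zpow_left k).eq
  rw [h2] at h1
  exact h1

/-- an element of prime order `r ≥ 5` normalising a group of order 3 or 9 centralises it. -/
theorem cent_of_prime_ge_five {X : Subgroup G} (hX : Nat.card X = 3 ∨ Nat.card X = 9) {z : G}
    (hzN : z ∈ normalizer (X : Set G)) {r : ℕ} (hr : r.Prime) (h5 : 5 ≤ r) (hz : orderOf z = r) :
    ∀ x ∈ X, z * x = x * z := by
  haveI : Fact r.Prime := ⟨hr⟩
  have h1 := card_modEq_cent hzN hz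
  have h2 : Nat.card (X ⊓ centralizer {z} : Subgroup G) ∣ Nat.card X :=
    Subgroup.card_dvd_of_le inf_le_left
  have h3 : Nat.card (X ⊓ centralizer {z} : Subgroup G) ≤ Nat.card X := Subgroup.card_le_of_le inf_le_left
  have h4 := (Nat.modEq_iff_dvd' h3).mp h1.symm
  have h5' : Nat.card (X ⊓ centralizer {z} : Subgroup G) = Nat.card X := by
    by_contra hne
    have hpos : 0 < Nat.card X - Nat.card (X ⊓ centralizer {z} : Subgroup G) := by omega
    have hle := Nat.le_of_dvd hpos h4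
    generalize Nat.card (X ⊓ centralizer {z} : Subgroup G) = c at *
    rcases hX with hX | hX <;> rw [hX] at h2 h3 h4 hne hle
    · omega
    · have hc : c = 1 ∨ c = 3 := by
        have : c ∈ Nat.divisors 9 := Nat.mem_divisors.mpr ⟨h2, by norm_num⟩
        have h9 : Nat.divisors 9 = {1, 3, 9} := by decide
        rw [h9] at this
        simp at this
        omega
      rcases hc with rfl | rfl
      · have h8 : r ∣ 2 ^ 3 := by norm_num at h4 ⊢; exact h4
        have := (Nat.prime_dvd_prime_iff_eq hr Nat.prime_two).mp (hr.dvd_of_dvd_pow h8)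
        omega
      · have h6 : r ∣ 2 * 3 := by norm_num at h4 ⊢; exact h4
        rcases (Nat.Prime.dvd_mul hr).mp h6 with h | h
        · have := (Nat.prime_dvd_prime_iff_eq hr Nat.prime_two).mp h; omega
        · have := (Nat.prime_dvd_prime_iff_eq hr Nat.prime_three).mp h; omega
  have h6 : X ⊓ centralizer {z} = X := Subgroup.eq_of_le_of_card_ge inf_le_left h5'.ge
  intro x hx
  have : x ∈ X ⊓ centralizer {z} := by rw [h6]; exact hx
  exact (mem_centralizer_singleton_iff.mp this.2).symm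

/-- if `w` centralises all the Sylow subgroups it normalises, `C(w)` is transitive on them. -/
theorem fx_dvd_card_centralizer {w : G} (h : ∀ Q ∈ fx w, ∀ x ∈ Q, w * x = x * w)
    (hne : (fx w).Nonempty) : (fx w).ncard ∣ Nat.card (centralizer ({w} : Set G)) := by
  obtain ⟨Q₀, hQ₀⟩ := hne
  have hle : ∀ Q ∈ fx w, (Q : Subgroup G) ≤ centralizer ({w} : Set G) := by
    intro Q hQ x hx
    rw [mem_centralizer_singleton_iff]
    exact (h Q hQ x hx).symm
  have h2 : orbit (centralizer ({w} : Set G)) Q₀ = fx w := by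
    ext Z
    constructor
    · rintro ⟨n, rfl⟩
      have hn := mem_centralizer_singleton_iff.mp n.2
      have hQ₀' : w • Q₀ = Q₀ := hQ₀
      change w • ((n : G) • Q₀) = (n : G) • Q₀
      rw [← mul_smul, ← hn, mul_smul, hQ₀']
    · intro hZ
      obtain ⟨n, hn⟩ := MulAction.exists_smul_eq (centralizer ({w} : Set G))
        (Q₀.subtype (hle Q₀ hQ₀)) (Z.subtype (hle Z hZ))
      rw [Sylow.smul_subtype] at hn
      exact ⟨n, Sylow.subtype_injective hn⟩
  rw [← h2, ← index_stabilizer]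
  exact Subgroup.index_dvd_card _

theorem inv_inj {I : Subgroup G} (hI3 : ∀ a ∈ I, a ^ 3 = 1) {t : G}
    (hinv : ∀ a ∈ I, t * a * t⁻¹ = a⁻¹) {a b : G} (ha : a ∈ I) (hb : b ∈ I) {β γ : Sylow 3 G}
    (hβ : t • β = β) (hγ : t • γ = γ) (hfree : ∀ c ∈ I, c • β = β → c = 1) (h : a • β = b • γ) :
    a = b ∧ β = γ := by
  have hcP : b⁻¹ * a ∈ I := mul_mem (inv_mem hb) ha
  have h1 : γ = (b⁻¹ * a) • β := by rw [mul_smul, h, inv_smul_smul]
  have h2 : t * (b⁻¹ * a) = (b⁻¹ * a)⁻¹ * t := by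
    have := hinv _ hcP
    rw [mul_inv_eq_iff_eq_mul] at this
    exact this
  have h3 : ((b⁻¹ * a) * (b⁻¹ * a)) • β = β := by
    have h4 : t • ((b⁻¹ * a) • β) = (b⁻¹ * a) • β := by rw [← h1]; exact hγ
    rw [← mul_smul, h2, mul_smul, hβ] at h4
    rw [mul_smul, ← h4, smul_inv_smul]
  have h5 : (b⁻¹ * a) * (b⁻¹ * a) = 1 := hfree _ (mul_mem hcP hcP) h3
  have h6 : (b⁻¹ * a) ^ 3 = 1 := hI3 _ hcP
  have h7 : b⁻¹ * a = 1 := by
    have : (b⁻¹ * a) ^ 3 = ((b⁻¹ * a) * (b⁻¹ * a)) * (b⁻¹ * a) := by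
      simp only [pow_succ, pow_zero, one_mul]
    rw [this, h5, one_mul] at h6
    exact h6
  refine ⟨(inv_mul_eq_one.mp h7).symm, ?_⟩
  rw [h1, h7, one_smul]

/-- an involution inverting a group `I` of order 3 fixes at most a third of any set on which `I`
acts freely. -/
theorem inv_count {I : Subgroup G} (hI : Nat.card I = 3) {t : G}
    (hinv : ∀ a ∈ I, t * a * t⁻¹ = a⁻¹) (A : Set (Sylow 3 G)) (hA : ∀ a ∈ I, ∀ β ∈ A, a • β ∈ A)
    (hfree : ∀ β ∈ A, ∀ c ∈ I, c • β = β → c = 1) : 3 * (A ∩ fx t).ncard ≤ A.ncard := by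
  have hI3 : ∀ a ∈ I, a ^ 3 = 1 := by
    intro a ha
    have h1 : (⟨a, ha⟩ : I) ^ Nat.card I = 1 := pow_card_eq_one'
    rw [hI] at h1
    exact congrArg Subtype.val h1
  have hinj : Function.Injective
      (fun z : ↥I × ↥(A ∩ fx t) => (⟨(z.1 : G) • (z.2 : Sylow 3 G), hA _ z.1.2 _ z.2.2.1⟩ : ↥A)) := by
    rintro ⟨a, β⟩ ⟨b, γ⟩ h
    have h' : (a : G) • (β : Sylow 3 G) = (b : G) • (γ : Sylow 3 G) := congrArg Subtype.val h
    obtain ⟨h1, h2⟩ := inv_inj hI3 hinv a.2 b.2 β.2.2 γ.2.2 (hfree _ β.2.1) h'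
    exact Prod.ext (Subtype.ext h1) (Subtype.ext h2)
  have := Nat.card_le_card_of_injective _ hinj
  rwa [Nat.card_prod, hI, Nat.card_coe_set_eq, Nat.card_coe_set_eq] at this

theorem eq_zpowers_of_card_prime {q : ℕ} (hq : q.Prime) {X : Subgroup G} (hX : Nat.card X = q)
    {x : G} (hx : x ∈ X) (hx1 : x ≠ 1) : X = zpowers x := by
  have h1 : zpowers x ≤ X := zpowers_le.mpr hx
  have h2 : orderOf x ∣ q := by
    have := orderOf_dvd_natCard (⟨x, hx⟩ : X)
    rwa [hX, Subgroup.orderOf_mk] at this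
  have h3 : orderOf x = q := by
    rcases (Nat.dvd_prime hq).mp h2 with h | h
    · exact absurd (orderOf_eq_one_iff.mp h) hx1
    · exact h
  symm
  apply Subgroup.eq_of_le_of_card_ge h1
  rw [Nat.card_zpowers, h3, hX]

/-- an involution normalising a group of prime order centralises or inverts it. -/
theorem cent_or_inv {q : ℕ} (hq : q.Prime) {X : Subgroup G} (hcard : Nat.card X = q) {u : G}
    (hu : u * u = 1) (hN : u ∈ normalizer (X : Set G)) :
    (∀ x ∈ X, u * x * u⁻¹ = x) ∨ (∀ x ∈ X, u * x * u⁻¹ = x⁻¹) := by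
  obtain ⟨x₀, hx₀, hx₀1⟩ : ∃ x ∈ X, x ≠ 1 := by
    apply X.bot_or_exists_ne_one.resolve_left
    intro h
    rw [h, card_bot] at hcard
    exact hq.one_lt.ne hcard
  have hy : u * x₀ * u⁻¹ ∈ X := (mem_normalizer_iff.mp hN x₀).mp hx₀
  have hP0 := eq_zpowers_of_card_prime hq hcard hx₀ hx₀1
  have huinv : u⁻¹ = u := inv_eq_of_mul_eq_one_left hu
  have hcomm : x₀ * (u * x₀ * u⁻¹) = (u * x₀ * u⁻¹) * x₀ := by
    have h1 : u * x₀ * u⁻¹ ∈ zpowers x₀ := hP0 ▸ hy
    obtain ⟨k, hk⟩ := mem_zpowers_iff.mp h1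
    rw [← hk]
    exact ((Commute.refl x₀).zpow_right k).eq
  by_cases hcone : x₀ * (u * x₀ * u⁻¹) = 1
  · right
    have hinv : u * x₀ * u⁻¹ = x₀⁻¹ := (inv_eq_of_mul_eq_one_right hcone).symm
    intro x hx
    have h1 : x ∈ zpowers x₀ := hP0 ▸ hx
    obtain ⟨k, rfl⟩ := mem_zpowers_iff.mp h1
    rw [← conj_zpow, hinv, inv_zpow]
  · left
    have hc1 : u * (x₀ * (u * x₀ * u⁻¹)) * u⁻¹ = x₀ * (u * x₀ * u⁻¹) := by
      have h2 : u * (x₀ * (u * x₀ * u⁻¹)) * u⁻¹ = (u * x₀ * u⁻¹) * ((u * u) * x₀ * (u⁻¹ * u⁻¹)) := by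
        group
      have h3 : u⁻¹ * u⁻¹ = 1 := by rw [huinv, hu]
      rw [h2, hu, h3, one_mul, mul_one]
      exact hcomm.symm
    have hPc := eq_zpowers_of_card_prime hq hcard (mul_mem hx₀ hy) hcone
    intro x hx
    have h1 : x ∈ zpowers (x₀ * (u * x₀ * u⁻¹)) := hPc ▸ hx
    obtain ⟨k, rfl⟩ := mem_zpowers_iff.mp h1
    rw [← conj_zpow, hc1]

end Cfsg.Agent.H17.Syl22
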