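import Cfsg.Agent.H17.SylNum4

set_option autoImplicit false

/-! `n_5 = 21`: the order of the normaliser and the final contradiction. -/

namespace Cfsg.Agent.H17.SylNum

open Subgroup MulAction
open scoped Pointwise

universe u

variable {G : Type u} [Group G] [Finite G]

local instance : Fact (Nat.Prime 5) := ⟨by norm_num⟩
local instance : Fact (Nat.Prime 2) := ⟨by norm_num⟩
local instance : Fact (Nat.Prime 3) := ⟨by norm_num⟩
local instance : Fact (Nat.Prime 7) := ⟨by norm_num⟩

theorem card_normalizer_dvd {X : Subgroup G} {q : ℕ} (hq : q.Prime) (hX : Nat.card X = q) :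
    Nat.card (normalizer (X : Set G)) ∣ Nat.card (centralizer (X : Set G)) * (q - 1) := by
  have key := card_dvd_of_injective _ (QuotientGroup.kerLift_injective X.normalizerMonoidHom)
  rw [normalizerMonoidHom_ker, ← index, ← relIndex] at key
  haveI : Fact q.Prime := ⟨hq⟩
  haveI : IsCyclic X := isCyclic_of_prime_card hX
  rw [IsCyclic.card_mulAut, hX, Nat.totient_prime hq] at key
  have h1 := Subgroup.card_mul_index ((centralizer (X : Set G)).subgroupOf (normalizer (X : Set G)))
  rw [Nat.card_congr (Subgroup.subgroupOfEquivOfLe (centralizer_le_normalizer (X : Set G))).toEquiv] at h1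
  rw [← h1]
  exact Nat.mul_dvd_mul_left _ key

/-- the fixed point set of an `r`-subgroup of `C(P)`. -/
theorem fixset (hc : Nat.card (Sylow 5 G) = 21) (hr : Red 5 G) (P : Sylow 5 G) (R : Subgroup G)
    (hR : R ≤ centralizer (P : Set G)) {r : ℕ} [Fact r.Prime] (hpg : IsPGroup r R) :
    {Q : Sylow 5 G | ∀ s ∈ (R : Set G), s • Q = Q}.ncard ≡ 1 [MOD 5] ∧
    21 ≡ {Q : Sylow 5 G | ∀ s ∈ (R : Set G), s • Q = Q}.ncard [MOD r] ∧
    {Q : Sylow 5 G | ∀ s ∈ (R : Set G), s • Q = Q}.ncard ≤ 21 ∧
    ({Q : Sylow 5 G | ∀ s ∈ (R : Set G), s • Q = Q}.ncard = 21 → R = ⊥) := by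
  refine ⟨?_, ?_, ?_, ?_⟩
  · apply cent_fix_mod P
    intro s hs x hx
    exact (mem_centralizer_iff.mp (hR hs) x hx).symm
  · have h1 := ncard_modEq_fixed (H := R) (X := Sylow 5 G) hpg Set.univ (fun _ _ _ => Set.mem_univ _)
    rw [Set.ncard_univ, hc, Set.univ_inter] at h1
    have h2 : fixedPoints R (Sylow 5 G) = {Q : Sylow 5 G | ∀ s ∈ (R : Set G), s • Q = Q} := by
      ext Q
      constructor
      · intro h s hs
        exact h ⟨s, hs⟩
      · intro h s
        exact h s s.2
    rwa [h2] at h1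
  · rw [← hc, ← Set.ncard_univ]
    exact Set.ncard_le_ncard (Set.subset_univ _) (Set.toFinite _)
  · intro h
    have h1 : {Q : Sylow 5 G | ∀ s ∈ (R : Set G), s • Q = Q} = Set.univ := by
      apply Set.eq_of_subset_of_ncard_le (Set.subset_univ _) _ (Set.toFinite _)
      rw [Set.ncard_univ, hc, h]
    rw [eq_bot_iff]
    intro s hs
    rw [mem_bot]
    apply hr.faith
    intro Q
    have : Q ∈ {Q : Sylow 5 G | ∀ s ∈ (R : Set G), s • Q = Q} := by rw [h1]; trivial
    exact this s hs

theorem prime_dvd_card_centralizer (hc : Nat.card (Sylow 5 G) = 21) (hr : Red 5 G) (P : Sylow 5 G)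
    {r : ℕ} (hrp : r.Prime) (hd : r ∣ Nat.card (centralizer (P : Set G))) :
    r = 2 ∨ r = 3 ∨ r = 5 := by
  haveI : Fact r.Prime := ⟨hrp⟩
  obtain ⟨z, hz⟩ := exists_prime_orderOf_dvd_card' r hd
  have hz' : orderOf (z : G) = r := by rw [Subgroup.orderOf_coe, hz]
  have hpg : IsPGroup r (zpowers (z : G)) :=
    IsPGroup.of_card (n := 1) (by rw [Nat.card_zpowers, hz', pow_one])
  obtain ⟨h1, h2, h3, h4⟩ := fixset hc hr P (zpowers (z : G)) (zpowers_le.mpr z.2) hpg
  have h5 : {Q : Sylow 5 G | ∀ s ∈ (zpowers (z : G) : Set G), s • Q = Q}.ncard ≠ 21 := by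
    intro h
    have := h4 h
    rw [zpowers_eq_bot] at this
    rw [this, orderOf_one] at hz'
    exact hrp.one_lt.ne hz'
  have h6 := (Nat.modEq_iff_dvd' h3).mp h2.symm
  generalize {Q : Sylow 5 G | ∀ s ∈ (zpowers (z : G) : Set G), s • Q = Q}.ncard = f at *
  unfold Nat.ModEq at h1
  have hle : r ≤ 20 := by
    apply (Nat.le_of_dvd (by omega) h6).trans
    omega
  have hf : f = 1 ∨ f = 6 ∨ f = 11 ∨ f = 16 := by omega
  rcases hf with rfl | rfl | rfl | rfl <;> interval_cases r <;> first | omega | (norm_num at hrp) | (norm_num at h6)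

theorem not_nine_dvd_card_centralizer (hc : Nat.card (Sylow 5 G) = 21) (hr : Red 5 G)
    (P : Sylow 5 G) : ¬ 9 ∣ Nat.card (centralizer (P : Set G)) := by
  intro h9
  obtain ⟨R', hR'⟩ := Sylow.exists_subgroup_card_pow_prime 3 (n := 2)
    (G := centralizer (P : Set G)) (by norm_num; exact h9)
  obtain ⟨R, hRdef⟩ : ∃ R : Subgroup G, R = R'.map (centralizer (P : Set G)).subtype := ⟨_, rfl⟩
  have hRcard : Nat.card R = 3 ^ 2 := by
    rw [hRdef, Subgroup.card_map_of_injective (Subgroup.subtype_injective _), hR']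
  have hRC : R ≤ centralizer (P : Set G) := by
    rw [hRdef]; exact Subgroup.map_subtype_le _
  have hpg : IsPGroup 3 R := IsPGroup.of_card hRcard
  have hcases : ∀ R₁ : Subgroup G, R₁ ≤ R →
      {Q : Sylow 5 G | ∀ s ∈ (R₁ : Set G), s • Q = Q}.ncard = 6 ∨ R₁ = ⊥ := by
    intro R₁ h₁
    obtain ⟨h1, h2, h3, h4⟩ := fixset hc hr P R₁ (h₁.trans hRC) (hpg.to_le h₁)
    by_cases h : {Q : Sylow 5 G | ∀ s ∈ (R₁ : Set G), s • Q = Q}.ncard = 21
    · exact Or.inr (h4 h)
    · left
      unfold Nat.ModEq at h1 h2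
      omega
  have h6 : {Q : Sylow 5 G | ∀ s ∈ (R : Set G), s • Q = Q}.ncard = 6 := by
    rcases hcases R le_rfl with h | h
    · exact h
    · rw [h, card_bot] at hRcard
      norm_num at hRcard
  have hdvd := card_dvd_of_free (H := R) (X := Sylow 5 G)
    ({Q : Sylow 5 G | ∀ s ∈ (R : Set G), s • Q = Q}ᶜ) (by
      intro t β hβ h
      apply hβ
      have h1 : ((t : G)⁻¹) • ((t : G) • β) = (t : G) • β := h _ (inv_mem t.2)
      rw [inv_smul_smul] at h1
      have h2 : (t : G) • β ∈ {Q : Sylow 5 G | ∀ s ∈ (R : Set G), s • Q = Q} := h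
      rwa [← h1] at h2) (by
      intro t β hβ htβ
      rcases hcases (zpowers (t : G)) (zpowers_le.mpr t.2) with h | h
      · exfalso
        have hsub : insert β {Q : Sylow 5 G | ∀ s ∈ (R : Set G), s • Q = Q}
            ⊆ {Q : Sylow 5 G | ∀ s ∈ (zpowers (t : G) : Set G), s • Q = Q} := by
          intro Q hQ
          rcases hQ with rfl | hQ
          · intro s hs
            obtain ⟨k, rfl⟩ := mem_zpowers_iff.mp hs
            have : (t : G) ∈ stabilizer G Q := htβ
            exact zpow_mem this k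
          · intro s hs
            exact hQ s (zpowers_le.mpr t.2 hs)
        have := Set.ncard_le_ncard hsub (Set.toFinite _)
        rw [Set.ncard_insert_of_notMem hβ (Set.toFinite _), h6, h] at this
        omega
      · rw [zpowers_eq_bot] at h
        exact Subtype.ext h)
  have h15 : ({Q : Sylow 5 G | ∀ s ∈ (R : Set G), s • Q = Q}ᶜ).ncard = 15 := by
    have := Set.ncard_add_ncard_compl {Q : Sylow 5 G | ∀ s ∈ (R : Set G), s • Q = Q}
    rw [h6, hc] at this
    omega
  rw [hRcard, h15] at hdvd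
  norm_num at hdvd

theorem card_normalizer_dvd_sixty (hc : Nat.card (Sylow 5 G) = 21) (hr : Red 5 G) (P : Sylow 5 G) :
    Nat.card (normalizer (P : Set G)) ∣ 60 := by
  have h1 : Nat.card (normalizer (P : Set G)) ∣ Nat.card (centralizer (P : Set G)) * (5 - 1) :=
    card_normalizer_dvd (X := (P : Subgroup G)) (by norm_num) (card_five hc hr P)
  rw [Nat.dvd_iff_prime_pow_dvd_dvd]
  intro q k hq hqk
  have hG : q ^ k ∣ Nat.card G := hqk.trans (Subgroup.card_subgroup_dvd_card _)
  by_cases hq2 : q = 2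
  · subst hq2
    have hk : k ≤ 2 := by
      by_contra hcon
      apply not_eight_dvd hc hr
      exact (pow_dvd_pow 2 (show 3 ≤ k by omega)).trans hG
    exact (pow_dvd_pow 2 hk).trans (by norm_num)
  have hcop : Nat.Coprime (q ^ k) (5 - 1) := by
    apply Nat.Coprime.pow_left
    have : Nat.Coprime q 2 := (Nat.coprime_primes hq Nat.prime_two).mpr hq2
    exact Nat.Coprime.pow_right 2 this
  have hC : q ^ k ∣ Nat.card (centralizer (P : Set G)) := hcop.dvd_of_dvd_mul_right (hqk.trans h1)
  rcases Nat.eq_zero_or_pos k with rfl | hkpos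
  · simp
  have hqC : q ∣ Nat.card (centralizer (P : Set G)) := (dvd_pow_self q hkpos.ne').trans hC
  rcases prime_dvd_card_centralizer hc hr P hq hqC with rfl | rfl | rfl
  · exact absurd rfl hq2
  · have hk : k ≤ 1 := by
      by_contra hcon
      apply not_nine_dvd_card_centralizer hc hr P
      exact (pow_dvd_pow 3 (show 2 ≤ k by omega)).trans hC
    exact (pow_dvd_pow 3 hk).trans (by norm_num)
  · have hk : k ≤ 1 := by
      by_contra hcon
      have h25 : 5 ^ 2 ∣ Nat.card G := (pow_dvd_pow 5 (show 2 ≤ k by omega)).trans hG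
      have := P.pow_dvd_card_of_pow_dvd_card h25
      rw [card_five hc hr P] at this
      norm_num at this
    exact (pow_dvd_pow 5 hk).trans (by norm_num)

end Cfsg.Agent.H17.SylNum
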