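import Cfsg.Agent.H17.Syl22h
import Cfsg.Agent.H17.SylNum5

set_option autoImplicit false

/-! `n_3 = 22`, Sylow 3-subgroups of order 3: `|N(P)|` divides 42. -/

namespace Cfsg.Agent.H17.Syl22

open Subgroup MulAction Cfsg.Agent.H17.SylNum
open scoped Pointwise

universe u

variable {G : Type u} [Group G] [Finite G]

local instance : Fact (Nat.Prime 3) := ⟨by norm_num⟩
local instance : Fact (Nat.Prime 2) := ⟨by norm_num⟩
local instance : Fact (Nat.Prime 5) := ⟨by norm_num⟩
local instance : Fact (Nat.Prime 7) := ⟨by norm_num⟩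

theorem mem_normalizer_of_fx {z : G} {Q : Sylow 3 G} (h : Q ∈ fx z) : z ∈ normalizer (Q : Set G) :=
  Sylow.smul_eq_iff_mem_normalizer.mp h

/-- elements of prime order at least 5 centralise what they normalise. -/
theorem cent_of_fx (hcard : ∀ P : Sylow 3 G, Nat.card P = 3 ∨ Nat.card P = 9) {z : G} {r : ℕ}
    (hr : r.Prime) (h5 : 5 ≤ r) (hz : orderOf z = r) {Q : Sylow 3 G} (hQ : Q ∈ fx z) :
    ∀ x ∈ Q, z * x = x * z :=
  cent_of_prime_ge_five (X := (Q : Subgroup G)) (hcard Q) (mem_normalizer_of_fx hQ) hr h5 hz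

theorem ne_one_of_orderOf_prime {z : G} {r : ℕ} (hr : r.Prime) (hz : orderOf z = r) : z ≠ 1 := by
  rintro rfl
  rw [orderOf_one] at hz
  exact hr.one_lt.ne hz

theorem no_order_five (hc : Nat.card (Sylow 3 G) = 22) (hr : Red 3 G)
    (hcard : ∀ P : Sylow 3 G, Nat.card P = 3 ∨ Nat.card P = 9) (w : G) : orderOf w ≠ 5 := by
  intro hw
  have h1 := fx_mod_prime_univ hc hw
  have hle := fx_le hc w
  have hne : (fx w).Nonempty := by
    rw [← Set.ncard_pos (Set.toFinite _)]
    unfold Nat.ModEq at h1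
    omega
  have hcent : ∀ Q ∈ fx w, ∀ x ∈ Q, w * x = x * w :=
    fun Q hQ => cent_of_fx hcard (by norm_num) (by norm_num) hw hQ
  obtain ⟨Q₀, hQ₀⟩ := hne
  have h2 := cent_fx_mod (hcent Q₀ hQ₀)
  have h22 : (fx w).ncard ≠ 22 :=
    fun h => ne_one_of_orderOf_prime (by norm_num) hw (eq_one_of_fx hc hr h)
  have h7 : (fx w).ncard = 7 := by
    unfold Nat.ModEq at h1
    omega
  have h3 := fx_dvd_card_centralizer hcent ⟨Q₀, hQ₀⟩
  rw [h7] at h3
  obtain ⟨z, hz⟩ := exists_prime_orderOf_dvd_card' 7 h3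
  have hz' : orderOf (z : G) = 7 := by rw [Subgroup.orderOf_coe, hz]
  have hzw : (z : G) * w = w * z := mem_centralizer_singleton_iff.mp z.2
  have g1 := fx_mod_prime_univ hc hz'
  have gle := fx_le hc (z : G)
  obtain ⟨Q₁, hQ₁⟩ : (fx (z : G)).Nonempty := by
    rw [← Set.ncard_pos (Set.toFinite _)]
    unfold Nat.ModEq at g1
    omega
  have g2 := cent_fx_mod (cent_of_fx hcard (by norm_num) (by norm_num) hz' hQ₁)
  have g22 : (fx (z : G)).ncard ≠ 22 :=
    fun h => ne_one_of_orderOf_prime (by norm_num) hz' (eq_one_of_fx hc hr h)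
  have g3 : (fx (z : G)).ncard = 1 := by
    unfold Nat.ModEq at g1
    omega
  obtain ⟨Q₂, hQ₂⟩ := Set.ncard_eq_one.mp g3
  have hQ₁' : (z : G) • Q₁ = Q₁ := hQ₁
  have e1 : w • Q₁ ∈ fx (z : G) := by
    change (z : G) • (w • Q₁) = w • Q₁
    rw [← mul_smul, hzw, mul_smul, hQ₁']
  have e2 : w • Q₁ = Q₁ := by
    rw [hQ₂, Set.mem_singleton_iff] at e1 hQ₁
    rw [e1, hQ₁]
  have g4 := fx_mod_prime hz' (fx w) (by
    intro Q hQ
    have hQ' : w • Q = Q := hQ
    change w • ((z : G) • Q) = (z : G) • Q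
    rw [← mul_smul, ← hzw, mul_smul, hQ'])
  rw [h7] at g4
  have g5 : (fx w ∩ fx (z : G)).ncard ≤ 1 := by
    rw [← g3]; exact Set.ncard_le_ncard Set.inter_subset_right (Set.toFinite _)
  have g6 : 0 < (fx w ∩ fx (z : G)).ncard := by
    rw [Set.ncard_pos (Set.toFinite _)]
    exact ⟨Q₁, e2, hQ₁⟩
  unfold Nat.ModEq at g4
  omega

theorem five_not_dvd (hc : Nat.card (Sylow 3 G) = 22) (hr : Red 3 G)
    (hcard : ∀ P : Sylow 3 G, Nat.card P = 3 ∨ Nat.card P = 9) : ¬ 5 ∣ Nat.card G := by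
  intro h
  obtain ⟨w, hw⟩ := exists_prime_orderOf_dvd_card' 5 h
  exact no_order_five hc hr hcard w hw

/-- elements of prime order `≥ 11` have no fixed points. -/
theorem no_fx_of_ge_eleven (hc : Nat.card (Sylow 3 G) = 22) (hr : Red 3 G)
    (hcard : ∀ P : Sylow 3 G, Nat.card P = 3 ∨ Nat.card P = 9) {z : G} {r : ℕ} (hrp : r.Prime)
    (h11 : 11 ≤ r) (hz : orderOf z = r) (Q : Sylow 3 G) : Q ∉ fx z := by
  intro hQ
  haveI : Fact r.Prime := ⟨hrp⟩
  have h1 := fx_mod_prime_univ hc hz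
  have hle := fx_le hc z
  have h2 := cent_fx_mod (cent_of_fx hcard hrp (by omega) hz hQ)
  have h22 : (fx z).ncard ≠ 22 := fun h => ne_one_of_orderOf_prime hrp hz (eq_one_of_fx hc hr h)
  have h3 := (Nat.modEq_iff_dvd' hle).mp h1.symm
  obtain ⟨j, hj⟩ : 3 ∣ 22 - (fx z).ncard := by omega
  rw [hj] at h3
  rcases (Nat.Prime.dvd_mul hrp).mp h3 with h | h
  · have := Nat.le_of_dvd (by norm_num) h; omega
  · have := Nat.le_of_dvd (by omega) h; omega

section three

variable (hc : Nat.card (Sylow 3 G) = 22) (hr : Red 3 G) (h3 : ∀ P : Sylow 3 G, Nat.card P = 3)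
include hc hr h3

theorem free_three {P Q : Sylow 3 G} (hPQ : Q ≠ P) {c : G} (hcP : c ∈ P) (h : c • Q = Q) : c = 1 := by
  by_contra hne
  have h1 : c ∈ (P : Subgroup G) ⊓ Q := by
    rw [← P.2.inf_normalizer_sylow Q]
    exact ⟨hcP, Sylow.smul_eq_iff_mem_normalizer.mp h⟩
  have h2 : Nat.card ((P : Subgroup G) ⊓ Q : Subgroup G) ∣ 3 := by
    have := Subgroup.card_dvd_of_le (inf_le_left : (P : Subgroup G) ⊓ Q ≤ P)
    rwa [h3 P] at this
  rcases (Nat.dvd_prime (by norm_num : Nat.Prime 3)).mp h2 with h4 | h4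
  · rw [Subgroup.card_eq_one] at h4
    rw [h4, mem_bot] at h1
    exact hne h1
  · have h5 : (P : Subgroup G) ⊓ Q = P := Subgroup.eq_of_le_of_card_ge inf_le_left (by rw [h4]; exact (h3 P).le)
    have h6 : (P : Subgroup G) ≤ Q := by rw [← h5]; exact inf_le_right
    exact hPQ (Sylow.ext (P.is_maximal' Q.2 h6))

theorem no_invol_cent {P : Sylow 3 G} {u : G} (hu : orderOf u = 2) (hcent : ∀ x ∈ P, u * x = x * u) :
    False := by
  have hcard : ∀ P : Sylow 3 G, Nat.card P = 3 ∨ Nat.card P = 9 := fun P => Or.inl (h3 P)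
  have h1 := cent_fx_mod hcent
  obtain ⟨m, hm, hm0⟩ := invol_mod_four hc hr hu
  have h10 : (fx u).ncard = 10 := by omega
  have huu : u * u = 1 := by rw [← pow_two, ← hu, pow_orderOf_eq_one]
  have hall : ∀ Q ∈ fx u, ∀ x ∈ Q, u * x = x * u := by
    intro Q hQ
    rcases cent_or_inv (by norm_num : Nat.Prime 3) (h3 Q) huu (mem_normalizer_of_fx hQ) with h | h
    · intro x hx
      have := h x hx
      rwa [mul_inv_eq_iff_eq_mul] at this
    · exfalso
      have h2 := inv_count (I := (Q : Subgroup G)) (h3 Q) h ({Q}ᶜ) (by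
        intro a ha β hβ e
        apply hβ
        have e' : a • β = Q := e
        exact smul_left_cancel a (e'.trans (smul_self' ha).symm))
        (fun β hβ c hcQ hcβ => free_three hc hr h3 hβ hcQ hcβ)
      rw [ncard_compl_singleton hc] at h2
      have h4 : (fx u).ncard ≤ (({Q}ᶜ : Set (Sylow 3 G)) ∩ fx u).ncard + 1 := by
        have hsub : fx u ⊆ insert Q (({Q}ᶜ : Set (Sylow 3 G)) ∩ fx u) := by
          intro Z hZ
          by_cases e : Z = Q
          · exact Or.inl e
          · exact Or.inr ⟨e, hZ⟩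
        exact (Set.ncard_le_ncard hsub (Set.toFinite _)).trans (Set.ncard_insert_le _ _)
      omega
  have hne : (fx u).Nonempty := by
    rw [← Set.ncard_pos (Set.toFinite _)]; omega
  have h5 := fx_dvd_card_centralizer hall hne
  rw [h10] at h5
  apply five_not_dvd hc hr hcard
  exact (Dvd.intro_left 2 rfl : 5 ∣ 10).trans (h5.trans (Subgroup.card_subgroup_dvd_card _))

theorem prime_dvd_card_centralizer_three (P : Sylow 3 G) {r : ℕ} (hrp : r.Prime)
    (hd : r ∣ Nat.card (centralizer (P : Set G))) : r = 3 ∨ r = 7 := by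
  have hcard : ∀ P : Sylow 3 G, Nat.card P = 3 ∨ Nat.card P = 9 := fun P => Or.inl (h3 P)
  haveI : Fact r.Prime := ⟨hrp⟩
  obtain ⟨z, hz⟩ := exists_prime_orderOf_dvd_card' r hd
  have hz' : orderOf (z : G) = r := by rw [Subgroup.orderOf_coe, hz]
  have hzc : ∀ x ∈ P, (z : G) * x = x * z := fun x hx => (mem_centralizer_iff.mp z.2 x hx).symm
  have hfix : P ∈ fx (z : G) :=
    Sylow.smul_eq_iff_mem_normalizer.mpr (centralizer_le_normalizer _ z.2)
  by_cases h11 : 11 ≤ r
  · exact absurd hfix (no_fx_of_ge_eleven hc hr hcard hrp h11 hz' P)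
  · have hr2 := hrp.two_le
    interval_cases r
    · exact (no_invol_cent hc hr h3 hz' hzc).elim
    · exact Or.inl rfl
    · norm_num at hrp
    · exact absurd hz' (no_order_five hc hr hcard _)
    · norm_num at hrp
    · exact Or.inr rfl
    · norm_num at hrp
    · norm_num at hrp
    · norm_num at hrp

theorem not_fortynine_dvd (P : Sylow 3 G) : ¬ 49 ∣ Nat.card (centralizer (P : Set G)) := by
  have hcard : ∀ P : Sylow 3 G, Nat.card P = 3 ∨ Nat.card P = 9 := fun P => Or.inl (h3 P)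
  intro h49
  obtain ⟨R', hR'⟩ := Sylow.exists_subgroup_card_pow_prime 7 (n := 2)
    (G := centralizer (P : Set G)) (by norm_num; exact h49)
  obtain ⟨R, hRdef⟩ : ∃ R : Subgroup G, R = R'.map (centralizer (P : Set G)).subtype := ⟨_, rfl⟩
  have hRcard : Nat.card R = 7 ^ 2 := by
    rw [hRdef, Subgroup.card_map_of_injective (Subgroup.subtype_injective _), hR']
  have hRC : R ≤ centralizer (P : Set G) := by
    rw [hRdef]; exact Subgroup.map_subtype_le _
  have hpg : IsPGroup 7 R := IsPGroup.of_card hRcard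
  have hfixP : ∀ t ∈ R, t • P = P := fun t ht =>
    Sylow.smul_eq_iff_mem_normalizer.mpr (centralizer_le_normalizer _ (hRC ht))
  have hdvd := card_dvd_of_free (H := R) (X := Sylow 3 G) ({P}ᶜ) (by
    intro t β hβ e
    apply hβ
    have e' : (t : G) • β = P := e
    exact smul_left_cancel (t : G) (e'.trans (hfixP t t.2).symm)) (by
    intro t β hβ htβ
    by_contra ht1
    obtain ⟨k, hk⟩ := (IsPGroup.iff_orderOf.mp hpg) t
    have h2 : 7 ∣ orderOf t := by
      rw [hk]
      apply dvd_pow_self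
      rintro rfl
      rw [pow_zero, orderOf_eq_one_iff] at hk
      exact ht1 hk
    have h4 : orderOf ((t : G) ^ (orderOf t / 7)) = 7 := by
      rw [← Subgroup.coe_pow, Subgroup.orderOf_coe]
      exact orderOf_pow_orderOf_div (orderOf_pos t).ne' h2
    have hpow : ∀ (n : ℕ) (Q : Sylow 3 G), (t : G) • Q = Q → ((t : G) ^ n) • Q = Q := by
      intro n Q hQ
      induction n with
      | zero => simp
      | succ n ih => rw [pow_succ, mul_smul, hQ, ih]
    have h6 : ({P, β} : Set (Sylow 3 G)) ⊆ fx ((t : G) ^ (orderOf t / 7)) := by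
      intro Q hQ
      rcases hQ with rfl | rfl
      · exact hpow _ _ (hfixP t t.2)
      · exact hpow _ _ htβ
    have h7 := Set.ncard_le_ncard h6 (Set.toFinite _)
    rw [Set.ncard_pair (fun h => hβ h.symm)] at h7
    have g1 := fx_mod_prime_univ hc h4
    have gle := fx_le hc ((t : G) ^ (orderOf t / 7))
    have g2 := cent_fx_mod (cent_of_fx hcard (by norm_num) (by norm_num) h4 (h6 (Or.inl rfl)))
    have g22 : (fx ((t : G) ^ (orderOf t / 7))).ncard ≠ 22 :=
      fun h => ne_one_of_orderOf_prime (by norm_num) h4 (eq_one_of_fx hc hr h)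
    unfold Nat.ModEq at g1
    omega)
  rw [hRcard, ncard_compl_singleton hc] at hdvd
  norm_num at hdvd

theorem card_normalizer_dvd_fortytwo (P : Sylow 3 G) : Nat.card (normalizer (P : Set G)) ∣ 42 := by
  have h1 : Nat.card (normalizer (P : Set G)) ∣ Nat.card (centralizer (P : Set G)) * (3 - 1) :=
    card_normalizer_dvd (X := (P : Subgroup G)) (by norm_num) (h3 P)
  rw [Nat.dvd_iff_prime_pow_dvd_dvd]
  intro q k hq hqk
  have hG : q ^ k ∣ Nat.card G := hqk.trans (Subgroup.card_subgroup_dvd_card _)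
  rcases Nat.eq_zero_or_pos k with rfl | hkpos
  · simp
  by_cases hq2 : q = 2
  · subst hq2
    have hodd : ¬ 2 ∣ Nat.card (centralizer (P : Set G)) := by
      intro h
      rcases prime_dvd_card_centralizer_three hc hr h3 P Nat.prime_two h with h | h <;> omega
    have hk : k ≤ 1 := by
      by_contra hcon
      have h4 : 2 ^ 2 ∣ Nat.card (centralizer (P : Set G)) * (3 - 1) :=
        (pow_dvd_pow 2 (show 2 ≤ k by omega)).trans (hqk.trans h1)
      apply hodd
      obtain ⟨c, hc'⟩ := h4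
      omega
    exact (pow_dvd_pow 2 hk).trans (by norm_num)
  have hcop : Nat.Coprime (q ^ k) (3 - 1) := by
    apply Nat.Coprime.pow_left
    exact (Nat.coprime_primes hq Nat.prime_two).mpr hq2
  have hC : q ^ k ∣ Nat.card (centralizer (P : Set G)) := hcop.dvd_of_dvd_mul_right (hqk.trans h1)
  have hqC : q ∣ Nat.card (centralizer (P : Set G)) := (dvd_pow_self q hkpos.ne').trans hC
  rcases prime_dvd_card_centralizer_three hc hr h3 P hq hqC with rfl | rfl
  · have hk : k ≤ 1 := by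
      by_contra hcon
      have h9 : 3 ^ 2 ∣ Nat.card G := (pow_dvd_pow 3 (show 2 ≤ k by omega)).trans hG
      have := P.pow_dvd_card_of_pow_dvd_card h9
      rw [h3 P] at this
      norm_num at this
    exact (pow_dvd_pow 3 hk).trans (by norm_num)
  · have hk : k ≤ 1 := by
      by_contra hcon
      apply not_fortynine_dvd hc hr h3 P
      exact (pow_dvd_pow 7 (show 2 ≤ k by omega)).trans hC
    exact (pow_dvd_pow 7 hk).trans (by norm_num)

end three

end Cfsg.Agent.H17.Syl22
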