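import Cfsg.Agent.H17.Syl22i

set_option autoImplicit false

/-! `n_3 = 22`, Sylow 3-subgroups of order 9: structure. -/

namespace Cfsg.Agent.H17.Syl22

open Subgroup MulAction Cfsg.Agent.H17.SylNum
open scoped Pointwise

universe u

variable {G : Type u} [Group G] [Finite G]

local instance : Fact (Nat.Prime 3) := ⟨by norm_num⟩
local instance : Fact (Nat.Prime 2) := ⟨by norm_num⟩
local instance : Fact (Nat.Prime 7) := ⟨by norm_num⟩
local instance : Fact (Nat.Prime 13) := ⟨by norm_num⟩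

theorem smul_eq_iff_mem {P Q : Sylow 3 G} {x : G} (hx : x ∈ P) : x • Q = Q ↔ x ∈ Q := by
  constructor
  · intro h
    have h1 : x ∈ (P : Subgroup G) ⊓ Q := by
      rw [← P.2.inf_normalizer_sylow Q]
      exact ⟨hx, Sylow.smul_eq_iff_mem_normalizer.mp h⟩
    exact h1.2
  · intro h
    exact smul_self' h

theorem far_invariant' {P : Sylow 3 G} {z : G} (hz : z • P = P) {R : Sylow 3 G} (hR : R ∈ far P) :
    z • R ∈ far P := by
  have : IsFar (z • P) (z • R) := IsFar.smul hR z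
  rwa [hz] at this

section nine

variable (hc : Nat.card (Sylow 3 G) = 22) (hr : Red 3 G) (h9 : ∀ X : Sylow 3 G, (far X).ncard = 9)
  (hn : ∀ P : Sylow 3 G, Nat.card P = 9)
include hc hr h9 hn

theorem far_inf_eq_bot {P R : Sylow 3 G} (h : IsFar P R) : (P : Subgroup G) ⊓ R = ⊥ := by
  have h1 : 9 * Nat.card ((P : Subgroup G) ⊓ R : Subgroup G) = Nat.card P := h
  rw [hn P] at h1
  rw [← Subgroup.card_eq_one]
  omega

theorem nb_card_inf {P Y : Sylow 3 G} (h : IsNb P Y) :
    Nat.card ((P : Subgroup G) ⊓ Y : Subgroup G) = 3 := by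
  have h1 : 3 * Nat.card ((P : Subgroup G) ⊓ Y : Subgroup G) = Nat.card P := h
  rw [hn P] at h1
  omega

theorem hcard' : ∀ P : Sylow 3 G, Nat.card P = 3 ∨ Nat.card P = 9 := fun P => Or.inr (hn P)

theorem no_order_seven_fix {z : G} (hz : orderOf z = 7) (P : Sylow 3 G) : P ∉ fx z := by
  intro hP
  have hcard := hcard' hc hr h9 hn
  have g1 := fx_mod_prime_univ hc hz
  have gle := fx_le hc z
  have g2 := cent_fx_mod (cent_of_fx hcard (by norm_num) (by norm_num) hz hP)
  have g22 : (fx z).ncard ≠ 22 :=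
    fun h => ne_one_of_orderOf_prime (by norm_num) hz (eq_one_of_fx hc hr h)
  have g3 : (fx z).ncard = 1 := by
    unfold Nat.ModEq at g1
    omega
  have g4 := fx_mod_prime hz (far P) (fun R hR => far_invariant' hP hR)
  rw [h9] at g4
  have g5 : (far P ∩ fx z).ncard ≤ 1 := by
    rw [← g3]; exact Set.ncard_le_ncard Set.inter_subset_right (Set.toFinite _)
  unfold Nat.ModEq at g4
  omega

theorem prime_dvd_card_normalizer_nine (P : Sylow 3 G) {r : ℕ} (hrp : r.Prime)
    (hd : r ∣ Nat.card (normalizer (P : Set G))) : r = 2 ∨ r = 3 := by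
  have hcard := hcard' hc hr h9 hn
  haveI : Fact r.Prime := ⟨hrp⟩
  obtain ⟨z, hz⟩ := exists_prime_orderOf_dvd_card' r hd
  have hz' : orderOf (z : G) = r := by rw [Subgroup.orderOf_coe, hz]
  have hfix : P ∈ fx (z : G) := Sylow.smul_eq_iff_mem_normalizer.mpr z.2
  by_cases h11 : 11 ≤ r
  · exact absurd hfix (no_fx_of_ge_eleven hc hr hcard hrp h11 hz' P)
  · have hr2 := hrp.two_le
    interval_cases r
    · exact Or.inl rfl
    · exact Or.inr rfl
    · norm_num at hrp
    · exact absurd hz' (no_order_five hc hr hcard _)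
    · norm_num at hrp
    · exact absurd hfix (no_order_seven_fix hc hr h9 hn hz' P)
    · norm_num at hrp
    · norm_num at hrp
    · norm_num at hrp

theorem prime_dvd_card_nine {r : ℕ} (hrp : r.Prime) (hd : r ∣ Nat.card G) :
    r = 2 ∨ r = 3 ∨ r = 11 := by
  obtain ⟨P⟩ : Nonempty (Sylow 3 G) := inferInstance
  rw [card_eq_mul hc P] at hd
  rcases (Nat.Prime.dvd_mul hrp).mp hd with h | h
  · rcases prime_dvd_card_normalizer_nine hc hr h9 hn P hrp h with h | h
    · exact Or.inl h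
    · exact Or.inr (Or.inl h)
  · have h22 : (22 : ℕ) = 2 * 11 := by norm_num
    rw [h22] at h
    rcases (Nat.Prime.dvd_mul hrp).mp h with h | h
    · exact Or.inl ((Nat.prime_dvd_prime_iff_eq hrp Nat.prime_two).mp h)
    · exact Or.inr (Or.inr ((Nat.prime_dvd_prime_iff_eq hrp (by norm_num)).mp h))

theorem line_four {P Y : Sylow 3 G} (h : IsNb P Y) : (line ((P : Subgroup G) ⊓ Y)).ncard = 4 := by
  obtain ⟨h1, h2⟩ := line_ncard hc h
  have h3 : (line ((P : Subgroup G) ⊓ Y)).ncard ≤ 13 := by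
    have := Set.ncard_le_ncard (line_subset_cl hc h (left_mem_line P Y)) (Set.toFinite _)
    rwa [ncard_cl, ncard_nb hc h9] at this
  have h4 : (line ((P : Subgroup G) ⊓ Y)).ncard ∣ Nat.card G :=
    (Dvd.intro _ (card_normalizer_line hc h).symm).trans (Subgroup.card_subgroup_dvd_card _)
  generalize (line ((P : Subgroup G) ⊓ Y)).ncard = s at *
  have hs : s = 4 ∨ s = 7 ∨ s = 10 ∨ s = 13 := by omega
  rcases hs with rfl | rfl | rfl | rfl
  · rfl
  · rcases prime_dvd_card_nine hc hr h9 hn (by norm_num : Nat.Prime 7) h4 with h | h | h <;> omega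
  · rcases prime_dvd_card_nine hc hr h9 hn (by norm_num : Nat.Prime 5)
      ((Dvd.intro_left 2 rfl : 5 ∣ 10).trans h4) with h | h | h <;> omega
  · rcases prime_dvd_card_nine hc hr h9 hn (by norm_num : Nat.Prime 13) h4 with h | h | h <;> omega

/-- the fixed points of a nontrivial element of `P` lying in another Sylow subgroup. -/
theorem fx_eq_line {P Y : Sylow 3 G} (hPY : Y ≠ P) {x : G} (hx : x ∈ P) (hx1 : x ≠ 1) (hxY : x ∈ Y) :
    IsNb P Y ∧ (P : Subgroup G) ⊓ Y = zpowers x ∧ fx x = line ((P : Subgroup G) ⊓ Y) := by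
  have hnb : IsNb P Y := by
    rcases nb_or_far hc (Ne.symm hPY) with h | h
    · exact h
    · exfalso
      have : x ∈ (P : Subgroup G) ⊓ Y := ⟨hx, hxY⟩
      rw [far_inf_eq_bot hc hr h9 hn h, mem_bot] at this
      exact hx1 this
  have hz : (P : Subgroup G) ⊓ Y = zpowers x :=
    eq_zpowers_of_card_prime (by norm_num) (nb_card_inf hc hr h9 hn hnb) ⟨hx, hxY⟩ hx1
  refine ⟨hnb, hz, ?_⟩
  ext Q
  rw [mem_fx, smul_eq_iff_mem hx, mem_line, hz, zpowers_le]
  rfl

theorem fx_cases {P : Sylow 3 G} {x : G} (hx : x ∈ P) (hx1 : x ≠ 1) :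
    (fx x).ncard = 4 ∨ fx x = {P} := by
  by_cases h : ∃ Y : Sylow 3 G, Y ≠ P ∧ x ∈ Y
  · obtain ⟨Y, hY, hxY⟩ := h
    obtain ⟨h1, _, h3⟩ := fx_eq_line hc hr h9 hn hY hx hx1 hxY
    left
    rw [h3, line_four hc hr h9 hn h1]
  · right
    push Not at h
    ext Q
    rw [mem_fx, smul_eq_iff_mem hx, Set.mem_singleton_iff]
    constructor
    · intro hQ
      by_contra hne
      exact h Q hne hQ
    · rintro rfl
      exact hx

/-- double counting: every nontrivial element of `P` fixes 4 points. -/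
theorem fx_four {P : Sylow 3 G} {x₀ : G} (hx₀ : x₀ ∈ P) (hx₀1 : x₀ ≠ 1) : (fx x₀).ncard = 4 := by
  classical
  rcases fx_cases hc hr h9 hn hx₀ hx₀1 with h | hbad
  · exact h
  exfalso
  haveI : Fintype (Sylow 3 G) := Fintype.ofFinite _
  haveI : Fintype G := Fintype.ofFinite _
  obtain ⟨s, hs⟩ : ∃ s : Finset G, s = (Set.toFinite (((P : Subgroup G) : Set G) \ {1})).toFinset :=
    ⟨_, rfl⟩
  obtain ⟨t, ht⟩ : ∃ t : Finset (Sylow 3 G), t = (Set.toFinite (nb P)).toFinset := ⟨_, rfl⟩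
  have hmem_s : ∀ x, x ∈ s ↔ x ∈ P ∧ x ≠ 1 := by
    intro x
    rw [hs, Set.Finite.mem_toFinset]
    rfl
  have hmem_t : ∀ Y, Y ∈ t ↔ IsNb P Y := by
    intro Y
    rw [ht, Set.Finite.mem_toFinset]
    rfl
  have hscard : s.card = 8 := by
    rw [hs, ← Set.ncard_eq_toFinset_card, Set.ncard_diff_singleton_of_mem (one_mem _)]
    have : ((P : Subgroup G) : Set G).ncard = 9 := by
      rw [← Nat.card_coe_set_eq]; exact hn P
    rw [this]
  have htcard : t.card = 12 := by
    rw [ht, ← Set.ncard_eq_toFinset_card, ncard_nb hc h9]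
  have key := Finset.sum_card_bipartiteAbove_eq_sum_card_bipartiteBelow
    (s := s) (t := t) (fun (x : G) (Y : Sylow 3 G) => x ∈ Y)
  have hright : ∀ Y ∈ t, (s.bipartiteBelow (fun (x : G) (Y : Sylow 3 G) => x ∈ Y) Y).card = 2 := by
    intro Y hY
    rw [hmem_t] at hY
    have e : (s.bipartiteBelow (fun (x : G) (Y : Sylow 3 G) => x ∈ Y) Y)
        = (Set.toFinite ((((P : Subgroup G) ⊓ Y : Subgroup G) : Set G) \ {1})).toFinset := by
      ext x
      rw [Finset.mem_bipartiteBelow, hmem_s, Set.Finite.mem_toFinset]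
      constructor
      · rintro ⟨⟨h1, h2⟩, h3⟩
        exact ⟨⟨h1, h3⟩, h2⟩
      · rintro ⟨⟨h1, h3⟩, h2⟩
        exact ⟨⟨h1, h2⟩, h3⟩
    rw [e, ← Set.ncard_eq_toFinset_card, Set.ncard_diff_singleton_of_mem (one_mem _)]
    have : (((P : Subgroup G) ⊓ Y : Subgroup G) : Set G).ncard = 3 := by
      rw [← Nat.card_coe_set_eq]; exact nb_card_inf hc hr h9 hn hY
    rw [this]
  have hleft : ∀ x ∈ s, (t.bipartiteAbove (fun (x : G) (Y : Sylow 3 G) => x ∈ Y) x).card ≤ 3 := by
    intro x hx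
    rw [hmem_s] at hx
    have hsub : ((t.bipartiteAbove (fun (x : G) (Y : Sylow 3 G) => x ∈ Y) x : Finset (Sylow 3 G))
        : Set (Sylow 3 G)) ⊆ fx x \ {P} := by
      intro Y hY
      rw [Finset.mem_coe, Finset.mem_bipartiteAbove, hmem_t] at hY
      exact ⟨(smul_eq_iff_mem hx.1).mpr hY.2, fun e => hY.1.ne (Eq.symm e)⟩
    have h1 := Set.ncard_le_ncard hsub (Set.toFinite _)
    rw [Set.ncard_coe_finset, Set.ncard_diff_singleton_of_mem (show P ∈ fx x from smul_self' hx.1)] at h1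
    rcases fx_cases hc hr h9 hn hx.1 hx.2 with h | h
    · omega
    · rw [h, Set.ncard_singleton] at h1
      omega
  have hzero : (t.bipartiteAbove (fun (x : G) (Y : Sylow 3 G) => x ∈ Y) x₀).card = 0 := by
    rw [Finset.card_eq_zero, Finset.eq_empty_iff_forall_notMem]
    intro Y hY
    rw [Finset.mem_bipartiteAbove, hmem_t] at hY
    have : Y ∈ fx x₀ := (smul_eq_iff_mem hx₀).mpr hY.2
    rw [hbad, Set.mem_singleton_iff] at this
    exact hY.1.ne this.symm
  rw [Finset.sum_const_nat hright, htcard] at key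
  have hx₀s : x₀ ∈ s := (hmem_s x₀).mpr ⟨hx₀, hx₀1⟩
  rw [← Finset.add_sum_erase s _ hx₀s, hzero, zero_add] at key
  have h7 : ∑ x ∈ s.erase x₀, (t.bipartiteAbove (fun (x : G) (Y : Sylow 3 G) => x ∈ Y) x).card
      ≤ (s.erase x₀).card • 3 :=
    Finset.sum_le_card_nsmul _ _ 3 (fun x hx => hleft x (Finset.mem_of_mem_erase hx))
  rw [Finset.card_erase_of_mem hx₀s, hscard, key] at h7
  norm_num at h7

theorem pow_three_eq_one {P : Sylow 3 G} {x : G} (hx : x ∈ P) : x ^ 3 = 1 := by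
  by_cases hx1 : x = 1
  · rw [hx1, one_pow]
  have h4 := fx_four hc hr h9 hn hx hx1
  obtain ⟨Y, hY, hYP⟩ : ∃ Y ∈ fx x, Y ≠ P := by
    by_contra hcon
    push Not at hcon
    have : fx x ⊆ {P} := fun β hβ => hcon β hβ
    have := Set.ncard_le_ncard this (Set.toFinite _)
    rw [Set.ncard_singleton, h4] at this
    omega
  have hxY : x ∈ Y := (smul_eq_iff_mem hx).mp hY
  obtain ⟨h1, _, _⟩ := fx_eq_line hc hr h9 hn hYP hx hx1 hxY
  have h3 := nb_card_inf hc hr h9 hn h1
  have h5 : (⟨x, ⟨hx, hxY⟩⟩ : ((P : Subgroup G) ⊓ Y : Subgroup G)) ^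
      Nat.card ((P : Subgroup G) ⊓ Y : Subgroup G) = 1 := pow_card_eq_one'
  rw [h3] at h5
  exact congrArg Subtype.val h5

end nine

end Cfsg.Agent.H17.Syl22
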