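import Cfsg.Agent.H17.Syl22j

set_option autoImplicit false

/-! `n_3 = 22`, Sylow 3-subgroups of order 9: `|N(P)|` divides 72. -/

namespace Cfsg.Agent.H17.Syl22

open Subgroup MulAction Cfsg.Agent.H17.SylNum
open scoped Pointwise

universe u

variable {G : Type u} [Group G] [Finite G]

local instance : Fact (Nat.Prime 3) := ⟨by norm_num⟩
local instance : Fact (Nat.Prime 2) := ⟨by norm_num⟩

section nine

variable (hc : Nat.card (Sylow 3 G) = 22) (hr : Red 3 G) (h9 : ∀ X : Sylow 3 G, (far X).ncard = 9)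
  (hn : ∀ P : Sylow 3 G, Nat.card P = 9)
include hc hr h9 hn

theorem no_invol_cent_nine {P : Sylow 3 G} {u : G} (hu : orderOf u = 2)
    (hcent : ∀ x ∈ P, u * x = x * u) : False := by
  have hP : u • P = P := by
    apply Sylow.smul_eq_iff_mem_normalizer.mpr
    apply centralizer_le_normalizer
    rw [mem_centralizer_iff]
    intro x hx
    exact (hcent x hx).symm
  have g1 := fx_mod_prime hu (far P) (fun R hR => far_invariant' hP hR)
  rw [h9] at g1
  obtain ⟨R₀, hR₀, hR₀u⟩ : (far P ∩ fx u).Nonempty := by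
    rw [← Set.ncard_pos (Set.toFinite _)]
    unfold Nat.ModEq at g1
    omega
  have hfar : far P ⊆ fx u := by
    intro R hR
    obtain ⟨v, hv, rfl⟩ := far_trans h9 hR₀ hR
    have e : u • R₀ = R₀ := hR₀u
    change u • (v • R₀) = v • R₀
    rw [← mul_smul, hcent v hv, mul_smul, e]
  obtain ⟨Y₀, hY₀⟩ : (nb P).Nonempty := by
    rw [← Set.ncard_pos (Set.toFinite _), ncard_nb hc h9]; norm_num
  have huN : u ∈ normalizer (((P : Subgroup G) ⊓ Y₀ : Subgroup G) : Set G) := by
    apply centralizer_le_normalizer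
    rw [mem_centralizer_iff]
    intro d hd
    exact (hcent d hd.1).symm
  have g2 := fx_mod_prime hu (line ((P : Subgroup G) ⊓ Y₀))
    (fun Z hZ => smul_mem_line_of_normalizer huN hZ)
  rw [line_four hc hr h9 hn hY₀] at g2
  have hPmem : P ∈ line ((P : Subgroup G) ⊓ Y₀) ∩ fx u := ⟨left_mem_line _ _, hP⟩
  obtain ⟨Y₁, hY₁, hY₁P⟩ : ∃ Y₁ ∈ line ((P : Subgroup G) ⊓ Y₀) ∩ fx u, Y₁ ≠ P := by
    by_contra hcon
    push Not at hcon
    have h1 : line ((P : Subgroup G) ⊓ Y₀) ∩ fx u = {P} := by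
      ext Z
      constructor
      · intro hZ; exact hcon Z hZ
      · rintro rfl; exact hPmem
    rw [h1, Set.ncard_singleton] at g2
    unfold Nat.ModEq at g2
    omega
  have hY₁far : Y₁ ∉ far P := by
    have := line_subset_cl hc hY₀ (left_mem_line P Y₀) hY₁.1
    rw [cl_eq_compl_far hc] at this
    exact this
  have hPfar : P ∉ far P := fun h => IsFar.ne (X := P) (Y := P) h rfl
  have hsub : insert P (insert Y₁ (far P)) ⊆ fx u := by
    intro Z hZ
    rcases hZ with rfl | rfl | hZ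
    · exact hP
    · exact hY₁.2
    · exact hfar hZ
  have h11 := Set.ncard_le_ncard hsub (Set.toFinite _)
  rw [Set.ncard_insert_of_notMem (by
      intro h
      rcases h with h | h
      · exact hY₁P h.symm
      · exact hPfar h) (Set.toFinite _),
    Set.ncard_insert_of_notMem hY₁far (Set.toFinite _), h9] at h11
  have h1 := cent_fx_mod hcent
  obtain ⟨m, hm, hm0⟩ := invol_mod_four hc hr hu
  omega

theorem comm_nine {P : Sylow 3 G} {a b : G} (ha : a ∈ P) (hb : b ∈ P) : a * b = b * a := by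
  have := IsPGroup.commutative_of_card_eq_prime_sq (p := 3) (G := (P : Subgroup G))
    (by rw [hn P]; norm_num) ⟨a, ha⟩ ⟨b, hb⟩
  exact congrArg Subtype.val this

theorem no_invol_fix {P : Sylow 3 G} {t x : G} (ht : orderOf t = 2) (htP : t • P = P) (hx : x ∈ P)
    (hx1 : x ≠ 1) (hcomm : t * x = x * t) : False := by
  have htt : t * t = 1 := by rw [← pow_two, ← ht, pow_orderOf_eq_one]
  have htinv : t⁻¹ = t := inv_eq_of_mul_eq_one_left htt
  have htN : t ∈ normalizer (P : Set G) := Sylow.smul_eq_iff_mem_normalizer.mp htP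
  obtain ⟨v, hv, hvt⟩ : ∃ v ∈ P, t * v ≠ v * t := by
    by_contra hcon
    push Not at hcon
    exact no_invol_cent_nine hc hr h9 hn ht hcon
  have hw : t * v * t⁻¹ ∈ P := (mem_normalizer_iff.mp htN v).mp hv
  obtain ⟨x', hx'def⟩ : ∃ x', x' = v⁻¹ * (t * v * t⁻¹) := ⟨_, rfl⟩
  have hx'P : x' ∈ P := by rw [hx'def]; exact mul_mem (inv_mem hv) hw
  have hx'1 : x' ≠ 1 := by
    intro h
    apply hvt
    rw [hx'def, inv_mul_eq_one] at h
    rw [eq_mul_inv_iff_mul_eq] at h
    exact h.symm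
  have hx'inv : t * x' * t⁻¹ = x'⁻¹ := by
    have e1 : t * x' * t⁻¹ = (t * v * t⁻¹)⁻¹ * ((t * t) * v * (t⁻¹ * t⁻¹)) := by
      rw [hx'def]; group
    have e2 : t⁻¹ * t⁻¹ = 1 := by rw [htinv, htt]
    rw [e1, htt, e2, one_mul, mul_one, hx'def]
    group
  have hx'3 : x' ^ 3 = 1 := pow_three_eq_one hc hr h9 hn hx'P
  have hx3 : x ^ 3 = 1 := pow_three_eq_one hc hr h9 hn hx
  have hox' : orderOf x' = 3 := orderOf_eq_prime hx'3 hx'1
  have hox : orderOf x = 3 := orderOf_eq_prime hx3 hx1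
  have hIcard : Nat.card (zpowers x') = 3 := by rw [Nat.card_zpowers, hox']
  have hIP : zpowers x' ≤ (P : Subgroup G) := zpowers_le.mpr hx'P
  have hinv : ∀ a ∈ zpowers x', t * a * t⁻¹ = a⁻¹ := by
    intro a ha
    obtain ⟨k, rfl⟩ := mem_zpowers_iff.mp ha
    rw [← conj_zpow, hx'inv, inv_zpow]
  -- elements of I generate I
  have hgen : ∀ c ∈ zpowers x', c ≠ 1 → x' ∈ zpowers c := by
    intro c hcI hc1
    have := eq_zpowers_of_card_prime (by norm_num : Nat.Prime 3) hIcard hcI hc1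
    rw [← this]
    exact mem_zpowers x'
  -- (β)
  have hβ := inv_count hIcard hinv ((fx x')ᶜ) (by
    intro a ha β hβ e
    apply hβ
    have e' : x' • (a • β) = a • β := e
    have hax : x' * a = a * x' := comm_nine hc hr h9 hn hx'P (hIP ha)
    rw [← mul_smul, hax, mul_smul] at e'
    exact smul_left_cancel a e') (by
    intro β hβ c hcI hcβ
    by_contra hc1
    apply hβ
    obtain ⟨k, hk⟩ := mem_zpowers_iff.mp (hgen c hcI hc1)
    change x' • β = β
    rw [← hk]
    exact zpow_smul_eq hcβ k)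
  have hfx' := fx_four hc hr h9 hn hx'P hx'1
  have hcompl : ((fx x')ᶜ).ncard = 18 := by
    have := Set.ncard_add_ncard_compl (fx x')
    rw [hfx', hc] at this
    omega
  rw [hcompl] at hβ
  have hle10 : (fx t).ncard ≤ 10 := by
    have hsub : fx t ⊆ ((fx x')ᶜ ∩ fx t) ∪ fx x' := by
      intro Z hZ
      by_cases e : Z ∈ fx x'
      · exact Or.inr e
      · exact Or.inl ⟨e, hZ⟩
    have h1 := Set.ncard_le_ncard hsub (Set.toFinite _)
    have h2 := Set.ncard_union_le ((fx x')ᶜ ∩ fx t) (fx x')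
    omega
  -- (δ)
  have hfx := fx_four hc hr h9 hn hx hx1
  have hPx : P ∈ fx x := smul_self' hx
  have hδ := inv_count hIcard hinv (fx x \ {P}) (by
    intro a ha β hβ
    have e : x • β = β := hβ.1
    refine ⟨?_, ?_⟩
    · change x • (a • β) = a • β
      rw [← mul_smul, comm_nine hc hr h9 hn hx (hIP ha), mul_smul, e]
    · intro e2
      apply hβ.2
      have e2' : a • β = P := e2
      exact smul_left_cancel a (e2'.trans (smul_self' (hIP ha)).symm)) (by
    intro β hβ c hcI hcβ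
    have hxβ : x ∈ β := (smul_eq_iff_mem hx).mp hβ.1
    obtain ⟨_, h2, _⟩ := fx_eq_line hc hr h9 hn hβ.2 hx hx1 hxβ
    have hcβ' : c ∈ β := (smul_eq_iff_mem (hIP hcI)).mp hcβ
    have hcz : c ∈ zpowers x := by rw [← h2]; exact ⟨hIP hcI, hcβ'⟩
    obtain ⟨k, hk⟩ := mem_zpowers_iff.mp hcz
    have e1 : t * c * t⁻¹ = c := by
      rw [← hk, ← conj_zpow]
      congr 1
      rw [hcomm, mul_inv_cancel_right]
    have e2 := hinv c hcI
    have e3 : c = c⁻¹ := e1.symm.trans e2
    have e4 : c * c = 1 := by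
      nth_rewrite 1 [e3]
      exact inv_mul_cancel c
    have e5 : c ^ 3 = 1 := pow_three_eq_one hc hr h9 hn (hIP hcI)
    have e6 : c ^ 3 = (c * c) * c := by simp only [pow_succ, pow_zero, one_mul]
    rw [e6, e4, one_mul] at e5
    exact e5)
  rw [Set.ncard_sdiff_singleton_of_mem hPx, hfx] at hδ
  have hinvx : ∀ Q ∈ fx x, t • Q ∈ fx x := by
    intro Q hQ
    have e : x • Q = Q := hQ
    change x • (t • Q) = t • Q
    rw [← mul_smul, ← hcomm, mul_smul, e]
  have g2 := fx_mod_prime ht (fx x) hinvx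
  rw [hfx] at g2
  have hsplit : (fx x ∩ fx t).ncard ≤ ((fx x \ {P}) ∩ fx t).ncard + 1 := by
    have hsub : fx x ∩ fx t ⊆ insert P ((fx x \ {P}) ∩ fx t) := by
      intro Z hZ
      by_cases e : Z = P
      · exact Or.inl e
      · exact Or.inr ⟨⟨hZ.1, e⟩, hZ.2⟩
    exact (Set.ncard_le_ncard hsub (Set.toFinite _)).trans (Set.ncard_insert_le _ _)
  have hpos : 0 < (fx x ∩ fx t).ncard := by
    rw [Set.ncard_pos (Set.toFinite _)]
    exact ⟨P, hPx, htP⟩
  have h2 : (fx x ∩ fx t).ncard = 2 := by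
    unfold Nat.ModEq at g2
    omega
  -- f(t) mod 3
  have g3 := fx_mod_prime hox (fx t) (by
    intro Q hQ
    have e : t • Q = Q := hQ
    change t • (x • Q) = x • Q
    rw [← mul_smul, hcomm, mul_smul, e])
  rw [Set.inter_comm, h2] at g3
  -- a fixed point in far P
  have g4 := fx_mod_prime ht (far P) (fun R hR => far_invariant' htP hR)
  rw [h9] at g4
  obtain ⟨R₀, hR₀, hR₀t⟩ : (far P ∩ fx t).Nonempty := by
    rw [← Set.ncard_pos (Set.toFinite _)]
    unfold Nat.ModEq at g4
    omega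
  have hR₀x : R₀ ∉ fx x := by
    intro h
    have hxR : x ∈ R₀ := (smul_eq_iff_mem hx).mp h
    have : x ∈ (P : Subgroup G) ⊓ R₀ := ⟨hx, hxR⟩
    rw [far_inf_eq_bot hc hr h9 hn hR₀, mem_bot] at this
    exact hx1 this
  have h3 : 3 ≤ (fx t).ncard := by
    have hsub : insert R₀ (fx x ∩ fx t) ⊆ fx t := by
      intro Z hZ
      rcases hZ with rfl | hZ
      · exact hR₀t
      · exact hZ.2
    have := Set.ncard_le_ncard hsub (Set.toFinite _)
    rwa [Set.ncard_insert_of_notMem (fun h => hR₀x h.1) (Set.toFinite _), h2] at this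
  obtain ⟨m, hm, hm0⟩ := invol_mod_four hc hr ht
  unfold Nat.ModEq at g3
  omega

theorem not_sixteen_dvd (P : Sylow 3 G) : ¬ 16 ∣ Nat.card (normalizer (P : Set G)) := by
  intro h16
  obtain ⟨T', hT'⟩ := Sylow.exists_subgroup_card_pow_prime 2 (n := 4)
    (G := normalizer (P : Set G)) (by norm_num; exact h16)
  obtain ⟨f, hf⟩ : ∃ f : G →* ConjAct G, ∀ g, f g = ConjAct.toConjAct g :=
    ⟨ConjAct.toConjAct.toMonoidHom, fun _ => rfl⟩
  have hfinj : Function.Injective f := by
    intro a b hab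
    rw [hf, hf] at hab
    exact ConjAct.toConjAct.injective hab
  obtain ⟨T, hTdef⟩ : ∃ T : Subgroup (ConjAct G), T = (T'.map (normalizer (P : Set G)).subtype).map f :=
    ⟨_, rfl⟩
  have hTcard : Nat.card T = 2 ^ 4 := by
    rw [hTdef, Subgroup.card_map_of_injective hfinj,
      Subgroup.card_map_of_injective (Subgroup.subtype_injective _), hT']
  have hTN : ∀ t ∈ T, ConjAct.ofConjAct t ∈ normalizer (P : Set G) := by
    intro t ht
    rw [hTdef] at ht
    obtain ⟨_, ⟨s, _, rfl⟩, rfl⟩ := ht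
    rw [hf, ConjAct.ofConjAct_toConjAct]
    exact s.2
  have hpg : IsPGroup 2 T := IsPGroup.of_card hTcard
  haveI : Finite T := Nat.finite_of_card_ne_zero (by rw [hTcard]; norm_num)
  have hdvd := card_dvd_of_free (H := T) (X := G) (((P : Subgroup G) : Set G) \ {1}) (by
    intro t a ha
    change (t : ConjAct G) • a ∈ _
    rw [ConjAct.smul_def]
    refine ⟨(mem_normalizer_iff.mp (hTN t t.2) a).mp ha.1, ?_⟩
    intro e
    apply ha.2
    rw [Set.mem_singleton_iff] at e ⊢
    rw [mul_inv_eq_one] at e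
    exact mul_left_cancel (e.trans (mul_one _).symm)) (by
    intro t a ha hta
    by_contra ht1
    obtain ⟨k, hk⟩ := (IsPGroup.iff_orderOf.mp hpg) t
    have h2 : 2 ∣ orderOf t := by
      rw [hk]
      apply dvd_pow_self
      rintro rfl
      rw [pow_zero, orderOf_eq_one_iff] at hk
      exact ht1 hk
    have h3 : orderOf (t ^ (orderOf t / 2)) = 2 :=
      orderOf_pow_orderOf_div (orderOf_pos t).ne' h2
    obtain ⟨s, hs⟩ : ∃ s : G, s = ConjAct.ofConjAct (t : ConjAct G) := ⟨_, rfl⟩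
    have hsN : s ∈ normalizer (P : Set G) := hs ▸ hTN t t.2
    have hsa : s * a = a * s := by
      have e : (t : ConjAct G) • a = a := hta
      rw [ConjAct.smul_def, ← hs, mul_inv_eq_iff_eq_mul] at e
      exact e
    have h4 : orderOf (s ^ (orderOf t / 2)) = 2 := by
      have e1 : s ^ (orderOf t / 2) = ConjAct.ofConjAct (((t ^ (orderOf t / 2) : T) : ConjAct G)) := by
        rw [hs, Subgroup.coe_pow, map_pow]
      rw [e1, MulEquiv.orderOf_eq, Subgroup.orderOf_coe, h3]
    exact no_invol_fix hc hr h9 hn h4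
      (Sylow.smul_eq_iff_mem_normalizer.mpr (pow_mem hsN _)) ha.1 ha.2
      ((Commute.pow_left (show Commute s a from hsa) _).eq))
  rw [hTcard, Set.ncard_sdiff_singleton_of_mem (one_mem _)] at hdvd
  have : ((P : Subgroup G) : Set G).ncard = 9 := by
    rw [← Nat.card_coe_set_eq]; exact hn P
  rw [this] at hdvd
  norm_num at hdvd

theorem card_normalizer_dvd_seventytwo (P : Sylow 3 G) : Nat.card (normalizer (P : Set G)) ∣ 72 := by
  rw [Nat.dvd_iff_prime_pow_dvd_dvd]
  intro q k hq hqk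
  have hG : q ^ k ∣ Nat.card G := hqk.trans (Subgroup.card_subgroup_dvd_card _)
  rcases Nat.eq_zero_or_pos k with rfl | hkpos
  · simp
  have hqN : q ∣ Nat.card (normalizer (P : Set G)) := (dvd_pow_self q hkpos.ne').trans hqk
  rcases prime_dvd_card_normalizer_nine hc hr h9 hn P hq hqN with rfl | rfl
  · have hk : k ≤ 3 := by
      by_contra hcon
      apply not_sixteen_dvd hc hr h9 hn P
      exact (pow_dvd_pow 2 (show 4 ≤ k by omega)).trans hqk
    exact (pow_dvd_pow 2 hk).trans (by norm_num)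
  · have hk : k ≤ 2 := by
      by_contra hcon
      have h27 : 3 ^ 3 ∣ Nat.card G := (pow_dvd_pow 3 (show 3 ≤ k by omega)).trans hG
      have := P.pow_dvd_card_of_pow_dvd_card h27
      rw [hn P] at this
      norm_num at this
    exact (pow_dvd_pow 3 hk).trans (by norm_num)

end nine

end Cfsg.Agent.H17.Syl22
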