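import Cfsg.Agent.H17.Syl22k
import Cfsg.Agent.H5.SylowNum

set_option autoImplicit false

/-! `n_3 ≠ 22`: the final contradiction. -/

namespace Cfsg.Agent.H17.Syl22

open Subgroup MulAction Cfsg.Agent.H17.SylNum
open scoped Pointwise

universe u

variable {G : Type u} [Group G] [Finite G]

local instance : Fact (Nat.Prime 3) := ⟨by norm_num⟩
local instance : Fact (Nat.Prime 11) := ⟨by norm_num⟩

/-- Burnside's transfer theorem in a reduced group. -/
theorem no_transfer {p : ℕ} [Fact p.Prime] (hr : Red p G) (r : ℕ) [Fact r.Prime] (hrp : r ≠ p)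
    (S : Sylow r G) (hS : normalizer (S : Set G) ≤ centralizer (S : Set G)) :
    ¬ r ∣ Nat.card G := by
  intro hdvd
  have hcomp := MonoidHom.ker_transferSylow_isComplement' S hS
  have hidx := hcomp.symm.index_eq_card
  obtain ⟨P⟩ : Nonempty (Sylow p G) := inferInstance
  have htop := hr.gen (MonoidHom.transferSylow S hS).ker inferInstance P (by
    intro x hx
    apply Cfsg.Agent.H5SylowNum.mem_of_coprime_index
    rw [hidx]
    obtain ⟨k, hk⟩ := IsPGroup.iff_card.mp S.2
    obtain ⟨j, hj⟩ := (IsPGroup.iff_orderOf.mp P.2) ⟨x, hx⟩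
    have e : orderOf x = p ^ j := by rw [← hj, Subgroup.orderOf_mk]
    rw [hk, e]
    apply Nat.Coprime.pow
    exact (Nat.coprime_primes Fact.out Fact.out).mpr hrp)
  rw [htop, Subgroup.index_top] at hidx
  have h1 := S.dvd_card_of_dvd_card hdvd
  rw [← hidx, Nat.dvd_one] at h1
  exact (Fact.out : r.Prime).one_lt.ne' h1

theorem final_aux (hc : Nat.card (Sylow 3 G) = 22) (hr : Red 3 G)
    (hcard : ∀ P : Sylow 3 G, Nat.card P = 3 ∨ Nat.card P = 9) (h121 : ¬ 121 ∣ Nat.card G) :
    ∃ n m, n * m = Nat.card G ∧ (∀ P : Sylow 3 G, Nat.card P ∣ n) ∧ n % 11 = 1 ∧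
      ¬ Nat.Coprime m 10 := by
  obtain ⟨P⟩ : Nonempty (Sylow 3 G) := inferInstance
  have hG := card_eq_mul hc P
  have h11G : 11 ∣ Nat.card G := by rw [hG]; exact Dvd.dvd.mul_left (by norm_num) _
  obtain ⟨S⟩ : Nonempty (Sylow 11 G) := inferInstance
  have hS : Nat.card S = 11 := by
    obtain ⟨k, hk⟩ := IsPGroup.iff_card.mp S.2
    have h1 := S.dvd_card_of_dvd_card h11G
    have h2 : Nat.card S ∣ Nat.card G := Subgroup.card_subgroup_dvd_card _
    have hk' : Nat.card S = 11 ^ k := hk
    rw [hk'] at h1 h2 ⊢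
    rcases k with _ | _ | k
    · norm_num at h1
    · norm_num
    · exfalso
      apply h121
      exact (show 121 ∣ 11 ^ (k + 1 + 1) from (by norm_num : (121 : ℕ) = 11 ^ 2) ▸
        pow_dvd_pow 11 (by omega)).trans h2
  have hn : Nat.card (Sylow 11 G) * Nat.card (normalizer (S : Set G)) = Nat.card G := by
    rw [Sylow.card_eq_index_normalizer S, mul_comm, Subgroup.card_mul_index]
  have h3n : ¬ 3 ∣ Nat.card (normalizer (S : Set G)) := by
    intro h3
    have h1 : Nat.card (normalizer (S : Set G)) ∣ Nat.card (centralizer (S : Set G)) * (11 - 1) :=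
      card_normalizer_dvd (X := (S : Subgroup G)) (by norm_num) hS
    have h2 : 3 ∣ Nat.card (centralizer (S : Set G)) :=
      (Nat.Coprime.dvd_of_dvd_mul_right (by norm_num) (h3.trans h1))
    obtain ⟨x, hx⟩ := exists_prime_orderOf_dvd_card' 3 h2
    have hx' : orderOf (x : G) = 3 := by rw [Subgroup.orderOf_coe, hx]
    obtain ⟨y, hy⟩ := exists_prime_orderOf_dvd_card' (G := S) 11 (by rw [hS])
    have hy' : orderOf (y : G) = 11 := by rw [Subgroup.orderOf_coe, hy]
    have hxy : (y : G) * (x : G) = (x : G) * y := mem_centralizer_iff.mp x.2 y y.2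
    have g1 := fx_mod_prime hy' (fx (x : G)) (by
      intro Q hQ
      have e : (x : G) • Q = Q := hQ
      change (x : G) • ((y : G) • Q) = (y : G) • Q
      rw [← mul_smul, ← hxy, mul_smul, e])
    have g2 : fx (x : G) ∩ fx (y : G) = ∅ := by
      rw [Set.eq_empty_iff_forall_notMem]
      intro Q hQ
      exact no_fx_of_ge_eleven hc hr hcard (by norm_num) le_rfl hy' Q hQ.2
    rw [g2, Set.ncard_empty] at g1
    have g3 := fx_mod_prime_univ hc hx'
    have g4 := fx_le hc (x : G)
    have g5 : (fx (x : G)).ncard = 22 := by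
      unfold Nat.ModEq at g1 g3
      omega
    have := eq_one_of_fx hc hr g5
    rw [this, orderOf_one] at hx'
    norm_num at hx'
  refine ⟨_, _, hn, ?_, card_sylow_modEq_one 11 G, ?_⟩
  · intro P'
    have h1 : Nat.card P' ∣ Nat.card (Sylow 11 G) * Nat.card (normalizer (S : Set G)) := by
      rw [hn]; exact Subgroup.card_subgroup_dvd_card _
    refine Nat.Coprime.dvd_of_dvd_mul_right ?_ h1
    have h3c : Nat.Coprime 3 (Nat.card (normalizer (S : Set G))) :=
      (Nat.Prime.coprime_iff_not_dvd (by norm_num)).mpr h3n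
    rcases hcard P' with h | h
    · rw [h]; exact h3c
    · rw [h]; exact (Nat.Coprime.pow_left 2 h3c)
  · intro hcop
    apply no_transfer hr 11 (by norm_num) S _ h11G
    have key := card_dvd_of_injective _
      (QuotientGroup.kerLift_injective (S : Subgroup G).normalizerMonoidHom)
    rw [normalizerMonoidHom_ker, ← index, ← relIndex] at key
    haveI : IsCyclic S := isCyclic_of_prime_card hS
    rw [IsCyclic.card_mulAut, hS, Nat.totient_prime (by norm_num)] at key
    exact Subgroup.relIndex_eq_one.mp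
      (Nat.eq_one_of_dvd_coprimes hcop (Subgroup.relIndex_dvd_card _ _) key)

set_option maxRecDepth 100000 in
theorem arith_twelve : ∀ d ∈ Nat.divisors 924, 3 ∣ d → d % 11 = 1 → d = 12 := by decide

set_option maxRecDepth 100000 in
theorem arith_gross : ∀ d ∈ Nat.divisors 1584, 9 ∣ d → d % 11 = 1 → d = 144 := by decide

theorem red_false (hc : Nat.card (Sylow 3 G) = 22) (hr : Red 3 G) : False := by
  obtain ⟨P⟩ : Nonempty (Sylow 3 G) := inferInstance
  have hG := card_eq_mul hc P
  have h1 := nine_dvd_far P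
  have h2 := ncard_nb_add_far hc P
  have h3 := far_ne_eighteen hc P
  have h4 : (far P).ncard = 0 ∨ (far P).ncard = 9 := by
    obtain ⟨k, hk⟩ := h1
    omega
  rcases h4 with h0 | h9
  · have hno : ∀ X Y : Sylow 3 G, ¬ IsFar X Y := by
      intro X Y hXY
      have e : (far X).ncard = 0 := by rw [ncard_far_eq X P, h0]
      rw [Set.ncard_eq_zero (Set.toFinite _)] at e
      have : Y ∈ far X := hXY
      rw [e] at this
      exact this
    have hc3 := card_three_of_no_far hc hr hno
    have hN := card_normalizer_dvd_fortytwo hc hr hc3 P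
    have hG' : Nat.card G ∣ 924 := by
      rw [hG]; exact Nat.mul_dvd_mul_right hN 22
    obtain ⟨n, m, hnm, hcn, hmod, hcop⟩ := final_aux hc hr (fun P => Or.inl (hc3 P)) (by
      intro h
      have := h.trans hG'
      norm_num at this)
    have hn12 : n = 12 := arith_twelve n (by
      rw [Nat.mem_divisors]
      exact ⟨(Dvd.intro _ hnm).trans hG', by norm_num⟩) (by rw [← hc3 P]; exact hcn P) hmod
    subst hn12
    apply hcop
    have hm : m ∣ 77 := by
      rw [← hnm] at hG'
      exact Nat.dvd_of_mul_dvd_mul_left (by norm_num : 0 < 12) (by simpa using hG')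
    exact Nat.Coprime.coprime_dvd_left hm (by norm_num)
  · have h9' : ∀ X : Sylow 3 G, (far X).ncard = 9 := fun X => by rw [ncard_far_eq X P, h9]
    have hc9 := card_nine_of_far hc hr h9'
    have hN := card_normalizer_dvd_seventytwo hc hr h9' hc9 P
    have hG' : Nat.card G ∣ 1584 := by
      rw [hG]; exact Nat.mul_dvd_mul_right hN 22
    obtain ⟨n, m, hnm, hcn, hmod, hcop⟩ := final_aux hc hr (fun P => Or.inr (hc9 P)) (by
      intro h
      have := h.trans hG'
      norm_num at this)
    have hn144 : n = 144 := arith_gross n (by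
      rw [Nat.mem_divisors]
      exact ⟨(Dvd.intro _ hnm).trans hG', by norm_num⟩) (by rw [← hc9 P]; exact hcn P) hmod
    subst hn144
    apply hcop
    have hm : m ∣ 11 := by
      rw [← hnm] at hG'
      exact Nat.dvd_of_mul_dvd_mul_left (by norm_num : 0 < 144) (by simpa using hG')
    exact Nat.Coprime.coprime_dvd_left hm (by norm_num)

/-- No finite group has exactly 22 Sylow 3-subgroups. -/
theorem card_sylow_three_ne (G : Type u) [Group G] [Finite G] : Nat.card (Sylow 3 G) ≠ 22 :=
  no_group_of_no_red 3 22 (fun _ _ _ hr hc => red_false hc hr) G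

end Cfsg.Agent.H17.Syl22
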