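import Mathlib

set_option autoImplicit false

/-! General lemmas on the number of Sylow subgroups and on fixed points. -/

namespace Cfsg.Agent.H17.SylNum

open Subgroup MulAction
open scoped Pointwise

section general

variable {H : Type*} [Group H] {X : Type*} [MulAction H X] [Finite X]

/-- fixed-point congruence on an invariant subset. -/
theorem ncard_modEq_fixed {r : ℕ} [Fact r.Prime] (hH : IsPGroup r H) (A : Set X)
    (hA : ∀ h : H, ∀ a ∈ A, h • a ∈ A) : A.ncard ≡ (A ∩ fixedPoints H X).ncard [MOD r] := by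
  let A' : SubMulAction H X := { carrier := A, smul_mem' := fun h a ha => hA h a ha }
  have h1 := hH.card_modEq_card_fixedPoints A'
  have h3 : Nat.card A' = A.ncard := Nat.card_coe_set_eq A
  have h4 : Nat.card (fixedPoints H A') = (A ∩ fixedPoints H X).ncard := by
    rw [← Nat.card_coe_set_eq]
    apply Nat.card_congr
    refine ⟨fun a => ⟨a.1.1, a.1.2, fun h => congrArg Subtype.val (a.2 h)⟩,
      fun a => ⟨⟨a.1, a.2.1⟩, fun h => Subtype.ext (a.2.2 h)⟩, fun a => rfl, fun a => rfl⟩
  rwa [h3, h4] at h1

/-- a group acting freely on an invariant subset has order dividing its size. -/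
theorem card_dvd_of_free [Finite H] (A : Set X) (hA : ∀ h : H, ∀ a ∈ A, h • a ∈ A)
    (hfree : ∀ h : H, ∀ a ∈ A, h • a = a → h = 1) : Nat.card H ∣ A.ncard := by
  classical
  let A' : SubMulAction H X := { carrier := A, smul_mem' := fun h a ha => hA h a ha }
  haveI : Fintype H := Fintype.ofFinite H
  haveI : Fintype A' := Fintype.ofFinite A'
  haveI : ∀ h : H, Fintype (fixedBy A' h) := fun h => Fintype.ofFinite _
  haveI : Fintype (orbitRel.Quotient H A') := Fintype.ofFinite _
  have h1 := sum_card_fixedBy_eq_card_orbits_mul_card_group H A'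
  have h2 : ∑ h : H, Fintype.card (fixedBy A' h) = Fintype.card A' := by
    rw [Finset.sum_eq_single (1 : H)]
    · apply Fintype.card_congr
      exact ⟨fun a => a.1, fun a => ⟨a, one_smul H a⟩, fun a => rfl, fun a => rfl⟩
    · intro h _ hh
      rw [Fintype.card_eq_zero_iff]
      refine ⟨fun a => hh (hfree h a.1.1 a.1.2 (congrArg Subtype.val a.2))⟩
    · intro h; exact absurd (Finset.mem_univ _) h
  have h3 : Nat.card A' = A.ncard := Nat.card_coe_set_eq A
  rw [h2, ← Nat.card_eq_fintype_card, h3, ← Nat.card_eq_fintype_card (α := H)] at h1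
  exact Dvd.intro_left _ h1.symm

end general

variable {G : Type*} [Group G] {p : ℕ}

theorem mem_smul_iff {g x : G} {P : Sylow p G} : x ∈ (g • P : Sylow p G) ↔ g⁻¹ * x * g ∈ P := by
  change x ∈ ((g • P : Sylow p G) : Subgroup G) ↔ _
  rw [Sylow.coe_subgroup_smul, Subgroup.mem_pointwise_smul_iff_inv_smul_mem]
  simp only [MulAut.smul_def, ← map_inv, MulAut.conj_apply, inv_inv]
  exact Iff.rfl

variable [Finite G] [hp : Fact p.Prime]

theorem le_of_normal_of_le (K : Subgroup G) [hK : K.Normal] (P : Sylow p G)
    (hP : (P : Subgroup G) ≤ K) (Q : Sylow p G) : (Q : Subgroup G) ≤ K := by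
  obtain ⟨g, rfl⟩ := MulAction.exists_smul_eq G P Q
  intro x hx
  have h1 : g⁻¹ * x * g ∈ P := mem_smul_iff.mp hx
  have h2 := hK.conj_mem _ (hP h1) g
  have h3 : g * (g⁻¹ * x * g) * g⁻¹ = x := by group
  rwa [h3] at h2

/-- a normal subgroup containing a Sylow `p`-subgroup has the same number of them. -/
theorem card_sylow_of_normal (K : Subgroup G) [hK : K.Normal] (P : Sylow p G)
    (hP : (P : Subgroup G) ≤ K) : Nat.card (Sylow p K) = Nat.card (Sylow p G) := by
  symm
  apply Nat.card_congr
  apply Equiv.ofBijective (fun Q : Sylow p G => Q.subtype (le_of_normal_of_le K P hP Q))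
  constructor
  · intro Q Q' h
    exact Sylow.subtype_injective h
  · intro R
    obtain ⟨Q, hQ⟩ := Sylow.exists_comap_subtype_eq R
    exact ⟨Q, Sylow.ext hQ⟩

/-- the kernel of the conjugation action on Sylow subgroups. -/
def sylKer (p : ℕ) (G : Type*) [Group G] : Subgroup G := (MulAction.toPermHom G (Sylow p G)).ker

instance : (sylKer p G).Normal := by unfold sylKer; infer_instance

theorem mem_sylKer {g : G} : g ∈ sylKer p G ↔ ∀ Q : Sylow p G, g • Q = Q := by
  unfold sylKer
  rw [MonoidHom.mem_ker]
  constructor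
  · intro h Q
    have := congrArg (fun f : Equiv.Perm (Sylow p G) => f Q) h
    simpa using this
  · intro h
    apply Equiv.ext
    intro Q
    exact h Q

/-- passing to the quotient by the kernel does not change the number of Sylow subgroups. -/
theorem card_sylow_quotient_sylKer :
    Nat.card (Sylow p (G ⧸ sylKer p G)) = Nat.card (Sylow p G) := by
  symm
  apply Nat.card_congr
  have hs : Function.Surjective (QuotientGroup.mk' (sylKer p G)) := QuotientGroup.mk'_surjective _
  apply Equiv.ofBijective (fun Q : Sylow p G => Q.mapSurjective hs)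
  refine ⟨?_, Sylow.mapSurjective_surjective hs p⟩
  intro P Q h
  have h1 : (P : Subgroup G).map (QuotientGroup.mk' (sylKer p G))
      = (Q : Subgroup G).map (QuotientGroup.mk' (sylKer p G)) := by
    have := congrArg (fun R : Sylow p (G ⧸ sylKer p G) => (R : Subgroup (G ⧸ sylKer p G))) h
    simpa using this
  have h2 : (Q : Subgroup G) ≤ normalizer (P : Set G) := by
    intro x hx
    have h3 : QuotientGroup.mk' (sylKer p G) x ∈ (P : Subgroup G).map (QuotientGroup.mk' (sylKer p G)) := by
      rw [h1]; exact Subgroup.mem_map_of_mem _ hx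
    obtain ⟨y, hy, hyx⟩ := h3
    have h4 : y⁻¹ * x ∈ sylKer p G := by
      rw [← QuotientGroup.eq_one_iff, QuotientGroup.mk_mul, QuotientGroup.mk_inv]
      have : (QuotientGroup.mk y : G ⧸ sylKer p G) = QuotientGroup.mk x := hyx
      rw [this, inv_mul_cancel]
    have h5 : y⁻¹ * x ∈ normalizer (P : Set G) :=
      Sylow.smul_eq_iff_mem_normalizer.mp (mem_sylKer.mp h4 P)
    have h6 : x = y * (y⁻¹ * x) := by group
    rw [h6]
    exact mul_mem (le_normalizer hy) h5
  have h7 : (Q : Subgroup G) ≤ P := by
    have := Q.2.inf_normalizer_sylow P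
    rw [inf_eq_left.mpr h2] at this
    exact inf_eq_left.mp this.symm
  exact Sylow.ext (Q.is_maximal' P.2 h7)

end Cfsg.Agent.H17.SylNum
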