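import Cfsg.Agent.H17.SylNum1

set_option autoImplicit false

/-! Reduction to a faithful configuration generated by its Sylow subgroups; the case `n_5 = 21`:
Sylow subgroups have order `5`. -/

namespace Cfsg.Agent.H17.SylNum

open Subgroup MulAction
open scoped Pointwise

universe u

/-- reduced configuration. -/
structure Red (p : ℕ) (G : Type*) [Group G] : Prop where
  faith : ∀ g : G, (∀ Q : Sylow p G, g • Q = Q) → g = 1
  gen : ∀ K : Subgroup G, K.Normal → ∀ P : Sylow p G, (P : Subgroup G) ≤ K → K = ⊤

theorem no_group_of_no_red (p n : ℕ) [Fact p.Prime]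
    (hno : ∀ (G : Type u) [Group G] [Finite G], Red p G → Nat.card (Sylow p G) ≠ n) :
    ∀ (G : Type u) [Group G] [Finite G], Nat.card (Sylow p G) ≠ n := by
  have key : ∀ m : ℕ, ∀ (G : Type u) [Group G] [Finite G], Nat.card G = m →
      Nat.card (Sylow p G) ≠ n := by
    intro m
    induction m using Nat.strong_induction_on with
    | _ m IH =>
      intro G _ _ hG hcard
      apply hno G _ hcard
      constructor
      · intro g hg
        by_contra hg1
        have hk : g ∈ sylKer p G := mem_sylKer.mpr hg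
        have hlt : Nat.card (G ⧸ sylKer p G) < m := by
          rw [← hG, ← Subgroup.index_eq_card, ← Subgroup.card_mul_index (sylKer p G)]
          have h1 : 1 < Nat.card (sylKer p G) := by
            rw [Subgroup.one_lt_card_iff_ne_bot]
            intro h
            rw [h, Subgroup.mem_bot] at hk
            exact hg1 hk
          have h2 : 0 < (sylKer p G).index := Nat.pos_of_ne_zero (Subgroup.index_ne_zero_of_finite)
          nlinarith
        exact IH _ hlt (G ⧸ sylKer p G) rfl (card_sylow_quotient_sylKer.trans hcard)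
      · intro K hK P hP
        by_contra hne
        have hlt : Nat.card K < m := by
          rw [← hG]
          exact lt_of_le_of_ne (Subgroup.card_le_card_group K)
            (fun e => hne (Subgroup.eq_top_of_card_eq K e))
        exact IH _ hlt K rfl ((card_sylow_of_normal K P hP).trans hcard)
  intro G _ _
  exact key _ G rfl

section five

variable {G : Type u} [Group G] [Finite G]

local instance : Fact (Nat.Prime 5) := ⟨by norm_num⟩

theorem eq_of_le_normalizer {p : ℕ} [Fact p.Prime] {P Q : Sylow p G}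
    (h : (P : Subgroup G) ≤ normalizer (Q : Set G)) : P = Q := by
  have h7 : (P : Subgroup G) ≤ Q := by
    have := P.2.inf_normalizer_sylow Q
    rw [inf_eq_left.mpr h] at this
    exact inf_eq_left.mp this.symm
  exact (Sylow.ext (P.is_maximal' Q.2 h7)).symm

/-- orbits of a Sylow 5-subgroup have length 5. -/
theorem card_orbit_five (hc : Nat.card (Sylow 5 G) = 21) {P Q : Sylow 5 G} (hPQ : P ≠ Q) :
    Nat.card (orbit (P : Subgroup G) Q) = 5 := by
  obtain ⟨n, hn⟩ := P.2.card_orbit Q
  have hle : Nat.card (orbit (P : Subgroup G) Q) ≤ 21 := by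
    rw [← hc]; exact Finite.card_subtype_le _
  rcases n with _ | _ | n
  · exfalso
    rw [pow_zero, Nat.card_eq_one_iff_unique] at hn
    obtain ⟨h1, _⟩ := hn
    apply hPQ
    apply eq_of_le_normalizer
    intro x hx
    apply Sylow.smul_eq_iff_mem_normalizer.mp
    have := h1.elim (⟨(⟨x, hx⟩ : (P : Subgroup G)) • Q, mem_orbit _ _⟩ : orbit (P : Subgroup G) Q)
      ⟨Q, mem_orbit_self _⟩
    exact congrArg Subtype.val this
  · simpa using hn
  · exfalso
    rw [hn] at hle
    have : 5 ^ 2 ≤ 5 ^ (n + 1 + 1) := Nat.pow_le_pow_right (by norm_num) (by omega)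
    omega

theorem card_inf_mul_five (hc : Nat.card (Sylow 5 G) = 21) {P Q : Sylow 5 G} (hPQ : P ≠ Q) :
    5 * Nat.card ((P : Subgroup G) ⊓ Q : Subgroup G) = Nat.card P := by
  have h1 : Nat.card (orbit (P : Subgroup G) Q) * Nat.card (stabilizer (P : Subgroup G) Q)
      = Nat.card (P : Subgroup G) := by
    rw [Nat.card_coe_set_eq, ← index_stabilizer, mul_comm, Subgroup.card_mul_index]
  rw [card_orbit_five hc hPQ] at h1
  have h2 : stabilizer (P : Subgroup G) Q = ((P : Subgroup G) ⊓ Q).subgroupOf P := by
    ext x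
    rw [mem_stabilizer_iff, Subgroup.mem_subgroupOf, ← P.2.inf_normalizer_sylow Q, Subgroup.mem_inf]
    constructor
    · intro h
      exact ⟨x.2, Sylow.smul_eq_iff_mem_normalizer.mp h⟩
    · intro h
      exact Sylow.smul_eq_iff_mem_normalizer.mpr h.2
  rw [h2, Nat.card_congr (Subgroup.subgroupOfEquivOfLe inf_le_left).toEquiv] at h1
  exact h1

theorem card_sylow_eq {p : ℕ} [Fact p.Prime] (P Q : Sylow p G) : Nat.card P = Nat.card Q :=
  Nat.card_congr (Sylow.equiv P Q).toEquiv

/-- `P ⊓ Q` is normalised by `P`. -/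
theorem conj_mem_inf (hc : Nat.card (Sylow 5 G) = 21) {P Q : Sylow 5 G} (hPQ : P ≠ Q)
    {d u : G} (hd : d ∈ (P : Subgroup G) ⊓ Q) (hu : u ∈ P) : u * d * u⁻¹ ∈ (P : Subgroup G) ⊓ Q := by
  have h1 := card_inf_mul_five hc hPQ
  have hidx : (((P : Subgroup G) ⊓ Q).subgroupOf P).index = 5 := by
    have h2 := Subgroup.card_mul_index (((P : Subgroup G) ⊓ Q).subgroupOf P)
    rw [Nat.card_congr (Subgroup.subgroupOfEquivOfLe inf_le_left).toEquiv] at h2
    have h3 : 0 < Nat.card ((P : Subgroup G) ⊓ Q : Subgroup G) := Nat.card_pos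
    have h4 : Nat.card ((P : Subgroup G) ⊓ Q : Subgroup G) * (((P : Subgroup G) ⊓ Q).subgroupOf P).index
        = Nat.card ((P : Subgroup G) ⊓ Q : Subgroup G) * 5 := by
      rw [h2, mul_comm]; exact h1.symm
    exact Nat.eq_of_mul_eq_mul_left h3 h4
  have hmin : (Nat.card (P : Subgroup G)).minFac = 5 := by
    obtain ⟨k, hk⟩ := IsPGroup.iff_card.mp P.2
    rw [hk]
    apply Nat.Prime.pow_minFac (by norm_num)
    rintro rfl
    rw [pow_zero] at hk
    have : Nat.card P = 1 := hk
    omega
  have hn : (((P : Subgroup G) ⊓ Q).subgroupOf P).Normal :=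
    Subgroup.normal_of_index_eq_minFac_card (by rw [hidx, hmin])
  have := hn.conj_mem ⟨d, hd.1⟩ (by rw [Subgroup.mem_subgroupOf]; exact hd) ⟨u, hu⟩
  rw [Subgroup.mem_subgroupOf] at this
  exact this

/-- the linear space argument: Sylow 5-subgroups have order 5. -/
theorem card_five (hc : Nat.card (Sylow 5 G) = 21) (hr : Red 5 G) (P : Sylow 5 G) :
    Nat.card P = 5 := by
  classical
  obtain ⟨Q, hQ⟩ : ∃ Q : Sylow 5 G, P ≠ Q := by
    by_contra h
    push Not at h
    have : Nat.card (Sylow 5 G) = 1 := by
      rw [Nat.card_eq_one_iff_unique]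
      exact ⟨⟨fun a b => (h a).symm.trans (h b)⟩, ⟨P⟩⟩
    omega
  obtain ⟨D, hDdef⟩ : ∃ D : Subgroup G, D = (P : Subgroup G) ⊓ Q := ⟨_, rfl⟩
  have hD := card_inf_mul_five hc hQ
  rw [← hDdef] at hD
  let L : Set (Sylow 5 G) := {R | D ≤ R}
  have hinf : ∀ R R' : Sylow 5 G, R ∈ L → R' ∈ L → R ≠ R' → (R : Subgroup G) ⊓ R' = D := by
    intro R R' hR hR' hne
    symm
    apply Subgroup.eq_of_le_of_card_ge (le_inf hR hR')
    have := card_inf_mul_five hc hne
    rw [card_sylow_eq R P, ← hD] at this
    omega
  have hL6 : 6 ≤ L.ncard := by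
    have hsub : insert P (orbit (P : Subgroup G) Q) ⊆ L := by
      intro R hR
      rcases hR with rfl | ⟨u, rfl⟩
      · change D ≤ _
        rw [hDdef]; exact inf_le_left
      · intro d hd
        change d ∈ ((u : G) • Q : Sylow 5 G)
        rw [mem_smul_iff]
        rw [hDdef] at hd
        have := conj_mem_inf hc hQ hd (inv_mem u.2)
        rw [inv_inv] at this
        exact this.2
    have hnot : P ∉ orbit (P : Subgroup G) Q := by
      rintro ⟨u, hu⟩
      apply hQ
      have h1 : (u : G) • Q = P := hu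
      have h2 : (u : G) • P = P := Sylow.smul_eq_iff_mem_normalizer.mpr (le_normalizer u.2)
      exact (smul_left_cancel (u : G) (h1.trans h2.symm)).symm
    have hcard : (insert P (orbit (P : Subgroup G) Q)).ncard = 6 := by
      rw [Set.ncard_insert_of_notMem hnot (Set.toFinite _), ← Nat.card_coe_set_eq, card_orbit_five hc hQ]
    rw [← hcard]
    exact Set.ncard_le_ncard hsub (Set.toFinite _)
  by_cases hall : ∀ X : Sylow 5 G, X ∈ L
  · have hbot : D = ⊥ := by
      rw [eq_bot_iff]
      intro d hd
      rw [mem_bot]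
      apply hr.faith
      intro X
      exact Sylow.smul_eq_iff_mem_normalizer.mpr (le_normalizer (hall X hd))
    rw [hbot, card_bot] at hD
    omega
  · exfalso
    push Not at hall
    obtain ⟨X, hX⟩ := hall
    have hXne : ∀ R ∈ L, X ≠ R := fun R hR h => hX (h ▸ hR)
    have hkey : ∀ R ∈ L, ∀ R' ∈ L, R ≠ R' → ∀ v ∈ X, v • R ≠ R' := by
      intro R hR R' hR' hne v hv hvR
      apply hX
      have hE : (X : Subgroup G) ⊓ R ≤ D := by
        rw [← hinf R R' hR hR' hne]
        refine le_inf inf_le_right ?_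
        intro e he
        rw [← hvR]
        change e ∈ (v • R : Sylow 5 G)
        rw [mem_smul_iff]
        have := conj_mem_inf hc (hXne R hR) he (inv_mem hv)
        rw [inv_inv] at this
        exact this.2
      have hEq : (X : Subgroup G) ⊓ R = D := by
        apply Subgroup.eq_of_le_of_card_ge hE
        have := card_inf_mul_five hc (hXne R hR)
        rw [card_sylow_eq X P, ← hD] at this
        omega
      change D ≤ X
      rw [← hEq]; exact inf_le_left
    haveI : Fintype (Sylow 5 G) := Fintype.ofFinite _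
    have hdis : ∀ R ∈ (Set.toFinite L).toFinset, ∀ R' ∈ (Set.toFinite L).toFinset, R ≠ R' →
        Disjoint (Set.toFinite (orbit (X : Subgroup G) R)).toFinset
          (Set.toFinite (orbit (X : Subgroup G) R')).toFinset := by
      intro R hR R' hR' hne
      rw [Set.Finite.mem_toFinset] at hR hR'
      rw [Finset.disjoint_left]
      intro ω h1 h2
      rw [Set.Finite.mem_toFinset] at h1 h2
      obtain ⟨a, ha⟩ := h1
      obtain ⟨b, hb⟩ := h2
      apply hkey R hR R' hR' hne ((b : G)⁻¹ * a) (mul_mem (inv_mem b.2) a.2)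
      have ha' : (a : G) • R = ω := ha
      have hb' : (b : G) • R' = ω := hb
      rw [mul_smul, ha', ← hb', inv_smul_smul]
    have h1 := Finset.card_biUnion hdis
    have h2 : ∀ R ∈ (Set.toFinite L).toFinset,
        (Set.toFinite (orbit (X : Subgroup G) R)).toFinset.card = 5 := by
      intro R hR
      rw [Set.Finite.mem_toFinset] at hR
      rw [← Set.ncard_eq_toFinset_card, ← Nat.card_coe_set_eq, card_orbit_five hc (hXne R hR)]
    rw [Finset.sum_const_nat h2, ← Set.ncard_eq_toFinset_card] at h1
    have h3 := Finset.card_le_univ ((Set.toFinite L).toFinset.biUnion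
      (fun R => (Set.toFinite (orbit (X : Subgroup G) R)).toFinset))
    rw [h1, ← Nat.card_eq_fintype_card, hc] at h3
    omega

end five

end Cfsg.Agent.H17.SylNum
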