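import Cfsg.Agent.H17.SylNum2
import Cfsg.Agent.H5.SylowNum

set_option autoImplicit false

/-! `n_5 = 21`: fixed points of involutions. -/

namespace Cfsg.Agent.H17.SylNum

open Subgroup MulAction
open scoped Pointwise

universe u

variable {G : Type u} [Group G] [Finite G]

local instance : Fact (Nat.Prime 5) := ⟨by norm_num⟩

/-- fixed points of `g` on the Sylow 5-subgroups. -/
def fx (g : G) : Set (Sylow 5 G) := {Q | g • Q = Q}

theorem mem_fx {g : G} {Q : Sylow 5 G} : Q ∈ fx g ↔ g • Q = Q := Iff.rfl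

theorem smul_self {p : ℕ} {P : Sylow p G} {x : G} (hx : x ∈ P) : x • P = P :=
  Sylow.smul_eq_iff_mem_normalizer.mpr (le_normalizer hx)

theorem fix_iff (hc : Nat.card (Sylow 5 G) = 21) (hr : Red 5 G) {P Q : Sylow 5 G} {x : G}
    (hx : x ∈ P) (hx1 : x ≠ 1) : x • Q = Q ↔ Q = P := by
  constructor
  · intro h
    by_contra hne
    have h1 : x ∈ (P : Subgroup G) ⊓ Q := by
      rw [← P.2.inf_normalizer_sylow Q]
      exact ⟨hx, Sylow.smul_eq_iff_mem_normalizer.mp h⟩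
    have h2 := card_inf_mul_five hc (Ne.symm hne)
    rw [card_five hc hr P] at h2
    have h3 : Nat.card ((P : Subgroup G) ⊓ Q : Subgroup G) = 1 := by omega
    rw [Subgroup.card_eq_one] at h3
    rw [h3, mem_bot] at h1
    exact hx1 h1
  · rintro rfl
    exact smul_self hx

theorem pow_five_eq_one (hc : Nat.card (Sylow 5 G) = 21) (hr : Red 5 G) {P : Sylow 5 G} {x : G}
    (hx : x ∈ P) : x ^ 5 = 1 := by
  have h1 : (⟨x, hx⟩ : P) ^ Nat.card P = 1 := pow_card_eq_one'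
  rw [card_five hc hr P] at h1
  exact congrArg Subtype.val h1

theorem toPermHom_injective (hr : Red 5 G) :
    Function.Injective (MulAction.toPermHom G (Sylow 5 G)) := by
  rw [injective_iff_map_eq_one]
  intro g hg
  apply hr.faith
  intro Q
  have := congrArg (fun f : Equiv.Perm (Sylow 5 G) => f Q) hg
  simpa using this

theorem sign_eq_one (hc : Nat.card (Sylow 5 G) = 21) (hr : Red 5 G) [Fintype (Sylow 5 G)]
    [DecidableEq (Sylow 5 G)] (g : G) :
    Equiv.Perm.sign (MulAction.toPermHom G (Sylow 5 G) g) = 1 := by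
  obtain ⟨P⟩ : Nonempty (Sylow 5 G) := inferInstance
  have h1 : (Equiv.Perm.sign.comp (MulAction.toPermHom G (Sylow 5 G))).ker = ⊤ := by
    apply hr.gen _ inferInstance P
    intro x hx
    rw [MonoidHom.mem_ker]
    have h2 : ((Equiv.Perm.sign.comp (MulAction.toPermHom G (Sylow 5 G))) x) ^ 5 = 1 := by
      rw [← map_pow, pow_five_eq_one hc hr hx, map_one]
    rcases Int.units_eq_one_or ((Equiv.Perm.sign.comp (MulAction.toPermHom G (Sylow 5 G))) x) with h | h
    · exact h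
    · rw [h] at h2
      exact absurd h2 (by decide)
  have : g ∈ (Equiv.Perm.sign.comp (MulAction.toPermHom G (Sylow 5 G))).ker := by rw [h1]; trivial
  exact this

theorem ncard_fx_add_support [Fintype (Sylow 5 G)] [DecidableEq (Sylow 5 G)] (g : G) :
    (fx g).ncard + (MulAction.toPermHom G (Sylow 5 G) g).support.card = Nat.card (Sylow 5 G) := by
  classical
  have h1 : (fx g).ncard = (Finset.univ.filter (fun Q : Sylow 5 G => g • Q = Q)).card := by
    rw [Set.ncard_eq_toFinset_card' (fx g)]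
    congr 1
    ext Q
    rw [Set.mem_toFinset]
    simp [fx]
  have h2 : (MulAction.toPermHom G (Sylow 5 G) g).support
      = Finset.univ.filter (fun Q : Sylow 5 G => ¬ g • Q = Q) := by
    ext Q
    simp [Equiv.Perm.mem_support]
  rw [h1, h2, Finset.card_filter_add_card_filter_not, Finset.card_univ, Nat.card_eq_fintype_card]

/-- an involution fixes `1 mod 4` points. -/
theorem invol_mod_four (hc : Nat.card (Sylow 5 G) = 21) (hr : Red 5 G) {u : G} (hu : orderOf u = 2) :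
    ∃ m, (fx u).ncard + 4 * m = 21 ∧ 0 < m := by
  classical
  haveI : Fintype (Sylow 5 G) := Fintype.ofFinite _
  have h1 : orderOf (MulAction.toPermHom G (Sylow 5 G) u) = 2 := by
    rw [orderOf_injective _ (toPermHom_injective hr), hu]
  obtain ⟨⟨k, hk⟩, hpos⟩ := Cfsg.Agent.H5SylowNum.dvd_support_of_prime_order Nat.prime_two h1
  have h2 := Cfsg.Agent.H5SylowNum.sign_of_invol h1 hk
  rw [sign_eq_one hc hr] at h2
  have h3 : Even k := by
    by_contra hodd
    rw [Nat.not_even_iff_odd] at hodd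
    rw [hodd.neg_one_pow] at h2
    exact absurd h2 (by decide)
  obtain ⟨m, hm⟩ := h3
  have h4 := ncard_fx_add_support u
  rw [hk, hc] at h4
  exact ⟨m, by omega, by omega⟩

theorem eq_zpowers_of_card_five {X : Subgroup G} (hX : Nat.card X = 5)
    {x : G} (hx : x ∈ X) (hx1 : x ≠ 1) : X = zpowers x := by
  have h1 : zpowers x ≤ X := zpowers_le.mpr hx
  have h2 : orderOf x ∣ 5 := by
    have := orderOf_dvd_natCard (⟨x, hx⟩ : X)
    rwa [hX, Subgroup.orderOf_mk] at this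
  have h3 : orderOf x = 5 := by
    rcases (Nat.dvd_prime (by norm_num : Nat.Prime 5)).mp h2 with h | h
    · exact absurd (orderOf_eq_one_iff.mp h) hx1
    · exact h
  symm
  apply Subgroup.eq_of_le_of_card_ge h1
  rw [Nat.card_zpowers, h3, hX]

/-- an involution normalising `P` centralises or inverts it. -/
theorem cent_or_inv (hc : Nat.card (Sylow 5 G) = 21) (hr : Red 5 G) {P : Sylow 5 G} {u : G}
    (hu : u * u = 1) (hP : u • P = P) :
    (∀ x ∈ P, u * x * u⁻¹ = x) ∨ (∀ x ∈ P, u * x * u⁻¹ = x⁻¹) := by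
  have hcard := card_five hc hr P
  have hN := Sylow.smul_eq_iff_mem_normalizer.mp hP
  obtain ⟨x₀, hx₀, hx₀1⟩ : ∃ x ∈ (P : Subgroup G), x ≠ 1 := by
    apply (P : Subgroup G).bot_or_exists_ne_one.resolve_left
    intro h
    have : Nat.card (P : Subgroup G) = 1 := by rw [h, card_bot]
    have h5 : Nat.card (P : Subgroup G) = 5 := hcard
    omega
  have hy : u * x₀ * u⁻¹ ∈ (P : Subgroup G) := (mem_normalizer_iff.mp hN x₀).mp hx₀
  have hP0 := eq_zpowers_of_card_five hcard hx₀ hx₀1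
  have huinv : u⁻¹ = u := inv_eq_of_mul_eq_one_left hu
  have hcomm : x₀ * (u * x₀ * u⁻¹) = (u * x₀ * u⁻¹) * x₀ := by
    have h1 : u * x₀ * u⁻¹ ∈ zpowers x₀ := hP0 ▸ hy
    obtain ⟨k, hk⟩ := mem_zpowers_iff.mp h1
    rw [← hk]
    exact ((Commute.refl x₀).zpow_right k).eq
  by_cases hcone : x₀ * (u * x₀ * u⁻¹) = 1
  · right
    have hinv : u * x₀ * u⁻¹ = x₀⁻¹ := (inv_eq_of_mul_eq_one_right hcone).symm
    intro x hx
    have h1 : x ∈ zpowers x₀ := hP0 ▸ hx
    obtain ⟨k, rfl⟩ := mem_zpowers_iff.mp h1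
    rw [← conj_zpow, hinv, inv_zpow]
  · left
    have hc1 : u * (x₀ * (u * x₀ * u⁻¹)) * u⁻¹ = x₀ * (u * x₀ * u⁻¹) := by
      have h2 : u * (x₀ * (u * x₀ * u⁻¹)) * u⁻¹ = (u * x₀ * u⁻¹) * ((u * u) * x₀ * (u⁻¹ * u⁻¹)) := by
        group
      have h3 : u⁻¹ * u⁻¹ = 1 := by rw [huinv, hu]
      rw [h2, hu, h3, one_mul, mul_one]
      exact hcomm.symm
    have hPc := eq_zpowers_of_card_five hcard (mul_mem hx₀ hy) hcone
    intro x hx
    have h1 : x ∈ zpowers (x₀ * (u * x₀ * u⁻¹)) := hPc ▸ hx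
    obtain ⟨k, rfl⟩ := mem_zpowers_iff.mp h1
    rw [← conj_zpow, hc1]

/-- common fixed points of a set of elements centralising `P`. -/
theorem cent_fix_mod (P : Sylow 5 G) (S : Set G) (hS : ∀ s ∈ S, ∀ x ∈ P, s * x = x * s) :
    {Q : Sylow 5 G | ∀ s ∈ S, s • Q = Q}.ncard ≡ 1 [MOD 5] := by
  have h1 := ncard_modEq_fixed (H := (P : Subgroup G)) (X := Sylow 5 G) P.2
    {Q | ∀ s ∈ S, s • Q = Q} (by
      intro h Q hQ s hs
      change s • ((h : G) • Q) = (h : G) • Q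
      rw [← mul_smul, hS s hs h h.2, mul_smul, hQ s hs])
  have h2 : {Q : Sylow 5 G | ∀ s ∈ S, s • Q = Q} ∩ fixedPoints (P : Subgroup G) (Sylow 5 G)
      = {P} := by
    ext Q
    constructor
    · rintro ⟨_, hfix⟩
      rw [Set.mem_singleton_iff]
      symm
      apply eq_of_le_normalizer
      intro x hx
      exact Sylow.smul_eq_iff_mem_normalizer.mp (hfix ⟨x, hx⟩)
    · rintro rfl
      refine ⟨?_, fun x => smul_self x.2⟩
      intro s hs
      apply Sylow.smul_eq_iff_mem_normalizer.mpr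
      apply Subgroup.centralizer_le_normalizer
      rw [mem_centralizer_iff]
      intro x hx
      exact (hS s hs x hx).symm
  rwa [h2, Set.ncard_singleton] at h1

theorem cent_invol_fix (hc : Nat.card (Sylow 5 G) = 21) (hr : Red 5 G) {P : Sylow 5 G} {u : G}
    (hu : orderOf u = 2) (hcent : ∀ x ∈ P, u * x * u⁻¹ = x) : (fx u).ncard = 1 := by
  have h1 := cent_fix_mod P {u} (by
    intro s hs x hx
    rw [Set.mem_singleton_iff] at hs
    subst hs
    have := hcent x hx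
    rw [mul_inv_eq_iff_eq_mul] at this
    exact this)
  have h2 : {Q : Sylow 5 G | ∀ s ∈ ({u} : Set G), s • Q = Q} = fx u := by
    ext Q
    simp [fx]
  rw [h2] at h1
  obtain ⟨m, hm, hm0⟩ := invol_mod_four hc hr hu
  unfold Nat.ModEq at h1
  omega

theorem inv_inj (hc : Nat.card (Sylow 5 G) = 21) (hr : Red 5 G) {P : Sylow 5 G} {u : G}
    (hinv : ∀ x ∈ P, u * x * u⁻¹ = x⁻¹) {a b : G} (ha : a ∈ P) (hb : b ∈ P) {β γ : Sylow 5 G}
    (hβ : u • β = β) (hγ : u • γ = γ) (hβP : β ≠ P) (h : a • β = b • γ) : a = b ∧ β = γ := by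
  have hcP : b⁻¹ * a ∈ P := mul_mem (inv_mem hb) ha
  have h1 : γ = (b⁻¹ * a) • β := by rw [mul_smul, h, inv_smul_smul]
  have h2 : u * (b⁻¹ * a) = (b⁻¹ * a)⁻¹ * u := by
    have := hinv _ hcP
    rw [mul_inv_eq_iff_eq_mul] at this
    exact this
  have h3 : ((b⁻¹ * a) * (b⁻¹ * a)) • β = β := by
    have h4 : u • ((b⁻¹ * a) • β) = (b⁻¹ * a) • β := by rw [← h1]; exact hγ
    rw [← mul_smul, h2, mul_smul, hβ] at h4
    rw [mul_smul, ← h4, smul_inv_smul]
  have h5 : (b⁻¹ * a) * (b⁻¹ * a) = 1 := by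
    by_contra hne
    exact hβP ((fix_iff hc hr (mul_mem hcP hcP) hne).mp h3)
  have h6 : (b⁻¹ * a) ^ 5 = 1 := pow_five_eq_one hc hr hcP
  have h7 : b⁻¹ * a = 1 := by
    have : (b⁻¹ * a) ^ 5 = ((b⁻¹ * a) * (b⁻¹ * a)) * ((b⁻¹ * a) * (b⁻¹ * a)) * (b⁻¹ * a) := by
      simp only [pow_succ, pow_zero, one_mul, mul_assoc]
    rw [this, h5, one_mul, one_mul] at h6
    exact h6
  refine ⟨(inv_mul_eq_one.mp h7).symm, ?_⟩
  rw [h1, h7, one_smul]

theorem ncard_compl_singleton (hc : Nat.card (Sylow 5 G) = 21) (P : Sylow 5 G) :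
    ({P}ᶜ : Set (Sylow 5 G)).ncard = 20 := by
  have := Set.ncard_add_ncard_compl ({P} : Set (Sylow 5 G))
  rw [Set.ncard_singleton, hc] at this
  omega

theorem inv_range (hc : Nat.card (Sylow 5 G) = 21) (hr : Red 5 G) {P : Sylow 5 G} {u : G}
    (hinv : ∀ x ∈ P, u * x * u⁻¹ = x⁻¹) (hP : u • P = P) :
    (Set.range (fun z : ↥(P : Subgroup G) × ↥(fx u \ {P}) => (z.1 : G) • (z.2 : Sylow 5 G))) ⊆ {P}ᶜ ∧
    (Set.range (fun z : ↥(P : Subgroup G) × ↥(fx u \ {P}) => (z.1 : G) • (z.2 : Sylow 5 G))).ncard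
      = 5 * ((fx u).ncard - 1) := by
  constructor
  · rintro _ ⟨⟨a, β⟩, rfl⟩ h
    have h1 : (a : G) • (β : Sylow 5 G) = P := h
    have h2 : (a : G) • P = P := smul_self a.2
    exact β.2.2 (smul_left_cancel (a : G) (h1.trans h2.symm))
  · have hinj : Function.Injective
        (fun z : ↥(P : Subgroup G) × ↥(fx u \ {P}) => (z.1 : G) • (z.2 : Sylow 5 G)) := by
      rintro ⟨a, β⟩ ⟨b, γ⟩ h
      obtain ⟨h1, h2⟩ := inv_inj hc hr hinv a.2 b.2 β.2.1 γ.2.1 β.2.2 h
      exact Prod.ext (Subtype.ext h1) (Subtype.ext h2)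
    rw [← Nat.card_coe_set_eq, Nat.card_range_of_injective hinj, Nat.card_prod, Nat.card_coe_set_eq,
      Set.ncard_diff_singleton_of_mem (show P ∈ fx u from hP)]
    congr 1
    exact card_five hc hr P

theorem inv_invol_fix (hc : Nat.card (Sylow 5 G) = 21) (hr : Red 5 G) {P : Sylow 5 G} {u : G}
    (hu : orderOf u = 2) (hinv : ∀ x ∈ P, u * x * u⁻¹ = x⁻¹) (hP : u • P = P) :
    (fx u).ncard = 1 ∨ (fx u).ncard = 5 := by
  obtain ⟨h1, h2⟩ := inv_range hc hr hinv hP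
  have h3 := Set.ncard_le_ncard h1 (Set.toFinite _)
  rw [h2, ncard_compl_singleton hc] at h3
  obtain ⟨m, hm, hm0⟩ := invol_mod_four hc hr hu
  omega

theorem inv_surj (hc : Nat.card (Sylow 5 G) = 21) (hr : Red 5 G) {P : Sylow 5 G} {u : G}
    (hinv : ∀ x ∈ P, u * x * u⁻¹ = x⁻¹) (hP : u • P = P) (hf : (fx u).ncard = 5)
    (ω : Sylow 5 G) (hω : ω ≠ P) : ∃ a ∈ P, ∃ β : Sylow 5 G, u • β = β ∧ β ≠ P ∧ ω = a • β := by
  obtain ⟨h1, h2⟩ := inv_range hc hr hinv hP
  have h3 := Set.eq_of_subset_of_ncard_le h1 (by rw [h2, ncard_compl_singleton hc, hf])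
    (Set.toFinite _)
  have h4 : ω ∈ ({P}ᶜ : Set (Sylow 5 G)) := hω
  rw [← h3] at h4
  obtain ⟨⟨a, β⟩, h5⟩ := h4
  exact ⟨a, a.2, β, β.2.1, β.2.2, h5.symm⟩

end Cfsg.Agent.H17.SylNum
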