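import Cfsg.Agent.H17.SylNum3
import Cfsg.Agent.Lib.Helper8.ZS10

set_option autoImplicit false

/-! `n_5 = 21`: every involution fixes exactly one point. -/

namespace Cfsg.Agent.H17.SylNum

open Subgroup MulAction
open scoped Pointwise

universe u

variable {G : Type u} [Group G] [Finite G]

local instance : Fact (Nat.Prime 5) := ⟨by norm_num⟩
local instance : Fact (Nat.Prime 2) := ⟨by norm_num⟩

theorem fx_conj (g s : G) : fx (g * s * g⁻¹) = (fun Q : Sylow 5 G => g • Q) '' fx s := by
  ext Q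
  constructor
  · intro h
    refine ⟨g⁻¹ • Q, ?_, smul_inv_smul g Q⟩
    have h1 : (g * s * g⁻¹) • Q = Q := h
    change s • (g⁻¹ • Q) = g⁻¹ • Q
    rw [mul_smul, mul_smul] at h1
    exact smul_left_cancel g (by rw [h1, smul_inv_smul])
  · rintro ⟨R, hR, rfl⟩
    have h1 : s • R = R := hR
    change (g * s * g⁻¹) • (g • R) = g • R
    rw [mul_smul, mul_smul, inv_smul_smul, h1]

theorem ncard_fx_conj (g s : G) : (fx (g * s * g⁻¹)).ncard = (fx s).ncard := by
  rw [fx_conj]
  exact Set.ncard_image_of_injective _ (MulAction.injective g)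

theorem orderOf_conj (g s : G) : orderOf (g * s * g⁻¹) = orderOf s := by
  have := orderOf_injective (MulAut.conj g).toMonoidHom (MulAut.conj g).injective s
  simpa using this

theorem mul_self_of_orderOf_two {s : G} (hs : orderOf s = 2) : s * s = 1 := by
  rw [← pow_two, ← hs, pow_orderOf_eq_one]

theorem inverts_of_five (hc : Nat.card (Sylow 5 G) = 21) (hr : Red 5 G) {s : G}
    (hs : orderOf s = 2) (hf : (fx s).ncard = 5) {P : Sylow 5 G} (hP : s • P = P) :
    ∀ x ∈ P, s * x * s⁻¹ = x⁻¹ := by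
  rcases cent_or_inv hc hr (mul_self_of_orderOf_two hs) hP with h | h
  · have := cent_invol_fix hc hr hs h
    omega
  · exact h

theorem isolated_of_five (hc : Nat.card (Sylow 5 G) = 21) (hr : Red 5 G) {s : G}
    (hs : orderOf s = 2) (hf : (fx s).ncard = 5) : Cfsg.IsIsolatedInvolution s := by
  refine ⟨hs, fun g hcomm => ?_⟩
  by_contra hne
  obtain ⟨s', hs'def⟩ : ∃ s', s' = g * s * g⁻¹ := ⟨_, rfl⟩
  rw [← hs'def] at hcomm hne
  have hs' : orderOf s' = 2 := by rw [hs'def, orderOf_conj, hs]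
  have hf' : (fx s').ncard = 5 := by rw [hs'def, ncard_fx_conj, hf]
  -- common fixed point
  have hpg : IsPGroup 2 (zpowers s') := IsPGroup.of_card (n := 1) (by rw [Nat.card_zpowers, hs', pow_one])
  have h1 := ncard_modEq_fixed (H := zpowers s') (X := Sylow 5 G) hpg (fx s) (by
    rintro ⟨h, hh⟩ Q hQ
    obtain ⟨k, rfl⟩ := mem_zpowers_iff.mp hh
    have hQ' : s • Q = Q := hQ
    change s • (s' ^ k • Q) = s' ^ k • Q
    rw [← mul_smul, (hcomm.zpow_right k).eq, mul_smul, hQ'])
  rw [hf] at h1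
  have h2 : (fx s ∩ fixedPoints (zpowers s') (Sylow 5 G)).Nonempty := by
    rw [← Set.ncard_pos (Set.toFinite _)]
    unfold Nat.ModEq at h1
    omega
  obtain ⟨P, hPs, hPs'⟩ := h2
  have hPs1 : s • P = P := hPs
  have hPs2 : s' • P = P := hPs' ⟨s', mem_zpowers s'⟩
  have hi := inverts_of_five hc hr hs hf hPs1
  have hi' := inverts_of_five hc hr hs' hf' hPs2
  have hss : s * s = 1 := mul_self_of_orderOf_two hs
  have hss' : s' * s' = 1 := mul_self_of_orderOf_two hs'
  -- w = s s'
  have hw1 : s * s' ≠ 1 := by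
    intro h
    apply hne
    have : s' = s⁻¹ := (inv_eq_of_mul_eq_one_right h).symm
    rw [this, inv_eq_of_mul_eq_one_left hss]
  have hw2 : orderOf (s * s') = 2 := by
    apply orderOf_eq_prime _ hw1
    rw [pow_two]
    calc s * s' * (s * s') = s * (s' * s) * s' := by group
      _ = s * (s * s') * s' := by rw [hcomm.eq]
      _ = (s * s) * (s' * s') := by group
      _ = 1 := by rw [hss, hss', one_mul]
  have hwc : ∀ x ∈ P, (s * s') * x * (s * s')⁻¹ = x := by
    intro x hx
    have e1 : (s * s') * x * (s * s')⁻¹ = s * (s' * x * s'⁻¹) * s⁻¹ := by group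
    rw [e1, hi' x hx, hi _ (inv_mem hx), inv_inv]
  have hfw := cent_invol_fix hc hr hw2 hwc
  -- another fixed point of s
  obtain ⟨β, hβ, hβP⟩ : ∃ β ∈ fx s, β ≠ P := by
    by_contra hcon
    push Not at hcon
    have : fx s ⊆ {P} := fun β hβ => hcon β hβ
    have := Set.ncard_le_ncard this (Set.toFinite _)
    rw [Set.ncard_singleton, hf] at this
    omega
  have hβs : s • β = β := hβ
  obtain ⟨a, ha, β', hβ', hβ'P, hβa⟩ := inv_surj hc hr hi' hPs2 hf' β hβP
  have e2 : s' * a = a⁻¹ * s' := by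
    have := hi' a ha
    rw [mul_inv_eq_iff_eq_mul] at this
    exact this
  have e3 : s' • β = (a⁻¹ * a⁻¹) • β := by
    rw [hβa, ← mul_smul, e2, mul_smul, hβ', mul_smul, inv_smul_smul]
  have e4 : s • (s' • β) = s' • β := by
    rw [← mul_smul, hcomm.eq, mul_smul, hβs]
  have e5 : s' • β ≠ P := by
    intro h
    apply hβP
    exact smul_left_cancel s' (h.trans hPs2.symm)
  have e6 := (inv_inj hc hr hi (one_mem _) (mul_mem (inv_mem ha) (inv_mem ha)) e4 hβs e5
    (by rw [one_smul]; exact e3)).2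
  have e7 : (s * s') • β = β := by rw [mul_smul, e6, hβs]
  have e8 : (s * s') • P = P := by rw [mul_smul, hPs2, hPs1]
  have e9 : ({P, β} : Set (Sylow 5 G)) ⊆ fx (s * s') := by
    intro Q hQ
    rcases hQ with rfl | rfl
    · exact e8
    · exact e7
  have := Set.ncard_le_ncard e9 (Set.toFinite _)
  rw [Set.ncard_pair (Ne.symm hβP), hfw] at this
  omega

theorem no_five (hc : Nat.card (Sylow 5 G) = 21) (hr : Red 5 G) {s : G}
    (hs : orderOf s = 2) : (fx s).ncard ≠ 5 := by
  intro hf
  have hiso := isolated_of_five hc hr hs hf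
  obtain ⟨P, hP⟩ : (fx s).Nonempty := by
    rw [← Set.ncard_pos (Set.toFinite _)]; omega
  have hi := inverts_of_five hc hr hs hf hP
  have htop : Cfsg.pPrimeCore 2 G = ⊤ := by
    apply hr.gen _ inferInstance P
    intro x hx
    have h1 := Cfsg.Agent.Lib.Helper8.ZS.zstar hiso x
    rw [hi x hx] at h1
    have h2 : x = (x⁻¹ * x⁻¹) * (x⁻¹ * x⁻¹) * x ^ 5 := by
      simp only [pow_succ, pow_zero, one_mul]
      group
    rw [pow_five_eq_one hc hr hx, mul_one] at h2
    rw [h2]
    exact mul_mem h1 h1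
  have hodd := Cfsg.Agent.Lib.Helper8.ZS.odd_card_pPrimeCore_two G
  rw [htop, Subgroup.card_top] at hodd
  have h2 : 2 ∣ Nat.card G := hs ▸ orderOf_dvd_natCard s
  exact (Nat.not_even_iff_odd.mpr hodd) (even_iff_two_dvd.mpr h2)

theorem invol_fix_one (hc : Nat.card (Sylow 5 G) = 21) (hr : Red 5 G) {u : G}
    (hu : orderOf u = 2) : (fx u).ncard = 1 := by
  obtain ⟨m, hm, hm0⟩ := invol_mod_four hc hr hu
  obtain ⟨P, hP⟩ : (fx u).Nonempty := by
    rw [← Set.ncard_pos (Set.toFinite _)]; omega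
  rcases cent_or_inv hc hr (mul_self_of_orderOf_two hu) hP with h | h
  · exact cent_invol_fix hc hr hu h
  · rcases inv_invol_fix hc hr hu h hP with h1 | h1
    · exact h1
    · exact absurd h1 (no_five hc hr hu)

theorem not_eight_dvd (hc : Nat.card (Sylow 5 G) = 21) (hr : Red 5 G) : ¬ 8 ∣ Nat.card G := by
  intro h8
  obtain ⟨T, hT⟩ := Sylow.exists_subgroup_card_pow_prime 2 (n := 3) (G := G) (by norm_num; exact h8)
  have hpg : IsPGroup 2 T := IsPGroup.of_card hT
  obtain ⟨α, hα⟩ := hpg.nonempty_fixed_point_of_prime_not_dvd_card (Sylow 5 G) (by rw [hc]; norm_num)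
  have h1 := card_dvd_of_free (H := T) (X := Sylow 5 G) ({α}ᶜ) (by
    intro t β hβ h
    apply hβ
    have h2 : t • β = α := h
    exact smul_left_cancel t (h2.trans (hα t).symm)) (by
    intro t β hβ htβ
    by_contra ht1
    obtain ⟨k, hk⟩ := (IsPGroup.iff_orderOf.mp hpg) t
    have h2 : 2 ∣ orderOf t := by
      rw [hk]
      apply dvd_pow_self
      rintro rfl
      rw [pow_zero, orderOf_eq_one_iff] at hk
      exact ht1 hk
    have h3 : orderOf (t ^ (orderOf t / 2)) = 2 :=
      orderOf_pow_orderOf_div (orderOf_pos t).ne' h2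
    have h4 : orderOf ((t : G) ^ (orderOf t / 2)) = 2 := by
      rw [← Subgroup.coe_pow, Subgroup.orderOf_coe, h3]
    have h5 := invol_fix_one hc hr h4
    have h6 : ({α, β} : Set (Sylow 5 G)) ⊆ fx ((t : G) ^ (orderOf t / 2)) := by
      intro Q hQ
      have hpow : ∀ (n : ℕ) (R : Sylow 5 G), (t : G) • R = R → ((t : G) ^ n) • R = R := by
        intro n R hR
        induction n with
        | zero => simp
        | succ n ih => rw [pow_succ, mul_smul, hR, ih]
      rcases hQ with rfl | rfl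
      · exact hpow _ _ (hα t)
      · exact hpow _ _ htβ
    have := Set.ncard_le_ncard h6 (Set.toFinite _)
    rw [Set.ncard_pair (fun h => hβ h.symm), h5] at this
    omega)
  rw [hT, ncard_compl_singleton hc] at h1
  norm_num at h1

end Cfsg.Agent.H17.SylNum
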